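import Cfsg.Agent.H6.Ext1

/-! Extension field subgroups, part 2: maximality. -/

set_option autoImplicit false
set_option linter.unusedSimpArgs false
set_option linter.unusedSectionVars false

namespace Cfsg.Agent.H6

open Module

attribute [-simp] LinearEquiv.coe_inv Submodule.mem_map_equiv

variable {F : Type*} [Field F] {K : Type*} [Field K] [Algebra F K]
  {V : Type*} [AddCommGroup V] [Module F V] [Module K V] [IsScalarTower F K V]

variable (F) in
/-- the rank one `K`-linear map `v ↦ β v • x` -/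
def kmap (β : Dual K V) (x : V) : V →ₗ[F] V := (LinearMap.smulRight β x).restrictScalars F

@[simp] theorem kmap_apply (β : Dual K V) (x v : V) : kmap F β x v = β v • x := rfl

variable (F K) in
/-- the family of `K`-lines -/
def IsKl (L : Submodule F V) : Prop := ∃ l : V, l ≠ 0 ∧ L = Kl F K l

theorem eig_const_add (hm : ∀ u v : V, u ≠ 0 → v ≠ 0 → ∃ w, (∀ c : K, w ≠ c • u) ∧
    (∀ c : K, w ≠ c • v)) (A B : V →+ V) (hB : ∀ u v, (∀ c : K, v ≠ c • u) → u ≠ 0 →
      ∀ a b : K, a • B u + b • B v = 0 → a = 0 ∧ b = 0)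
    (h : ∀ v, ∃ c : K, A v = c • B v) : ∃ c : K, ∀ v, A v = c • B v := by
  choose f hf using h
  have key : ∀ u v, (∀ c : K, v ≠ c • u) → u ≠ 0 → f u = f v := by
    intro u v huv hu
    have h1 := hf (u + v)
    rw [map_add, map_add, hf u, hf v] at h1
    obtain ⟨h2, h3⟩ := hB u v huv hu (f u - f (u + v)) (f v - f (u + v)) (by
      linear_combination (norm := module) h1)
    linear_combination h2 - h3
  by_cases h0 : ∀ v : V, v = 0
  · exact ⟨0, fun v => by simp [h0 v]⟩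
  push Not at h0
  obtain ⟨u, hu⟩ := h0
  refine ⟨f u, fun v => ?_⟩
  by_cases hv : v = 0
  · simp [hv]
  obtain ⟨w, h1, h2⟩ := hm u v hu hv
  rw [key u w h1 hu, ← key v w h2 hv, hf]

variable [Finite K] [FiniteDimensional K V] {M : Subgroup (V ≃ₗ[F] V)}

theorem kmap_mem_EL (hH : ∀ g ∈ SLV F V, GamL K g → g ∈ M) {a x : V} {β : Dual K V}
    (hβ : β a = 0) (hx : x ∈ Kl F K a) : kmap F β x ∈ EL M (Kl F K a) := by
  obtain ⟨c, rfl⟩ := mem_Kl.1 hx
  refine ⟨fun v => by simpa [smul_smul] using smul_mem_Kl _ _, fun v hv => ?_,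
    _, tvK_mem hH (c • a) β (by simp [hβ]), fun v => by simp⟩
  obtain ⟨d, rfl⟩ := mem_Kl.1 hv
  simp [hβ]

theorem ml_trans (hH : ∀ g ∈ SLV F V, GamL K g → g ∈ M) {L : Submodule F V}
    (hL : ML M (IsKl F K) L) {v x : V} (hv : v ∉ L) (hx : x ∈ L) :
    ∃ y : V →ₗ[F] V, (∀ t : F, t • y ∈ EL M L) ∧ y v = x := by
  obtain ⟨g, hg, _, ⟨l, hl, rfl⟩, rfl⟩ := hL
  rw [mem_map_equiv'] at hv hx
  obtain ⟨β, h1, h2⟩ := exists_dual_pair (F := K) (u := l) (v := g⁻¹ v)
    fun c hc => hv (hc ▸ smul_mem_Kl c l)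
  refine ⟨cj g (kmap F β (g⁻¹ x)), fun t => ?_, by simp [h2]⟩
  convert EL_conj_map (kmap_mem_EL hH h1 ((Kl F K l).smul_mem t hx)) hg using 1
  ext w
  simp only [LinearMap.smul_apply, cj_apply, kmap_apply]
  rw [smul_comm (β _) t, map_smul g t]

theorem ml_finrank {L : Submodule F V} (hL : ML M (IsKl F K) L) : finrank F L = finrank F K := by
  obtain ⟨g, -, _, ⟨l, hl, rfl⟩, rfl⟩ := hL
  rw [LinearEquiv.finrank_map_eq, finrank_Kl hl]

theorem semi_of_maxInt (hm : 2 ≤ finrank K V) (h : MaxInt M (IsKl F K) 0) {g : V ≃ₗ[F] V}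
    (hg : g ∈ M) : Semi K g := by
  have := fd_base F K V
  have key : ∀ k ∈ M, ∀ (c : K) (v : V), ∃ c' : K, k (c • v) = c' • k v := by
    intro k hk c v
    by_cases hv : v = 0
    · exact ⟨0, by simp [hv]⟩
    have hkv : k v ≠ 0 := by simpa using hv
    have := h.zero_eq ((ML.of ⟨v, hv, rfl⟩).map hk) (ML.of ⟨k v, hkv, rfl⟩) hkv
      ⟨v, self_mem_Kl v, rfl⟩ (self_mem_Kl _)
    have h2 : k (c • v) ∈ Kl F K (k v) := this ▸ ⟨_, smul_mem_Kl c v, rfl⟩
    obtain ⟨c', hc'⟩ := mem_Kl.1 h2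
    exact ⟨c', hc'.symm⟩
  intro c
  refine eig_const_add (fun u v hu hv => ?_)
    (g.toLinearMap.toAddMonoidHom.comp (DistribSMul.toAddMonoidHom V c))
    g.toLinearMap.toAddMonoidHom (fun u v huv hu a b hab => ?_) (key g hg c)
  · by_cases huv : ∀ c : K, v ≠ c • u
    · refine ⟨u + v, fun c hc => huv (c - 1) (by rw [sub_smul, ← hc]; simp), fun c hc => ?_⟩
      have hc1 : c - 1 ≠ 0 := by
        intro h1
        rw [sub_eq_zero.1 h1] at hc
        exact hu (by simpa using hc)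
      exact huv (c - 1)⁻¹ (by rw [eq_inv_smul_iff₀ hc1, sub_smul, ← hc]; simp)
    · push Not at huv
      obtain ⟨d, rfl⟩ := huv
      obtain ⟨w, -, hw⟩ := exists_not_mem_one (K := (⊤ : Submodule K V)) (by simpa using hm) u
      exact ⟨w, hw, fun c hc => hw (c * d) (by rw [hc, smul_smul])⟩
  · simp only [LinearMap.toAddMonoidHom_coe, LinearEquiv.coe_coe] at hab
    have hb : b = 0 := by
      by_contra hb
      obtain ⟨d, hd⟩ := key g⁻¹ (M.inv_mem hg) (-(b⁻¹ * a)) (g u)
      apply huv d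
      rw [← inv_apply_apply g u, ← hd, ← inv_apply_apply g v]
      congr 1
      rw [neg_smul, mul_smul, eq_neg_iff_add_eq_zero, ← smul_right_inj hb, smul_add, smul_smul,
        mul_inv_cancel₀ hb, one_smul, add_comm, hab, smul_zero]
    refine ⟨?_, hb⟩
    simpa [hb, hu] using hab

/-- The configuration arising from a pair of lines with maximal intersection. -/
structure ExtCfg (M : Subgroup (V ≃ₗ[F] V)) (L : Submodule F V) (a l : V) (θ : Dual F K) (ω : K)
    (β₀ β₁ : Dual K V) : Prop where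
  a0 : a ≠ 0
  ha : a ∈ L
  hl : l ∈ L
  b0a : β₀ a = 1
  b0l : β₀ l = 0
  b1a : β₁ a = 0
  b1l : β₁ l = 1
  θ1 : θ 1 = 0
  θω : θ ω = 1
  ωa : ω • a ∉ L
  mem : ∀ c : K, (c - θ c • ω) • a ∈ L
  dec : ∀ v ∈ L, ∃ (s : K) (t : F), v = s • a + t • l
  trans : ∀ v ∉ L, ∀ x ∈ L, ∃ y : V →ₗ[F] V, (∀ t : F, t • y ∈ EL M L) ∧ y v = x

theorem exists_extCfg (hr : (finrank F K).Prime) (hH : ∀ g ∈ SLV F V, GamL K g → g ∈ M)
    {L L' : Submodule F V} (hL : IsKl F K L) (hL' : ML M (IsKl F K) L') (hne : L ≠ L')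
    (hbot : L ⊓ L' ≠ ⊥) (hmax : MaxInt M (IsKl F K) (finrank F ↥(L ⊓ L'))) :
    ∃ a l θ ω β₀ β₁, ExtCfg (K := K) M L' a l θ ω β₀ β₁ := by
  have := fd_base F K V
  obtain ⟨a, ⟨haL, haL'⟩, ha0⟩ := Submodule.exists_mem_ne_zero_of_ne_bot hbot
  have hfr := (ml_finrank (M := M) (ML.of hL)).trans (ml_finrank hL').symm
  obtain ⟨l₀, -, rfl⟩ := hL
  rw [Kl_eq_of_mem haL ha0] at hne hmax hfr
  obtain ⟨l, hl, hl'⟩ : ∃ l ∈ L', l ∉ Kl F K a := by
    by_contra! h
    exact hne (Submodule.eq_of_le_of_finrank_eq h hfr.symm).symm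
  obtain ⟨x, hx, hx'⟩ : ∃ l ∈ Kl F K a, l ∉ L' := by
    by_contra! h
    exact hne (Submodule.eq_of_le_of_finrank_eq h hfr)
  obtain ⟨ω, rfl⟩ := mem_Kl.1 hx
  obtain ⟨β₁, h1a, h1l⟩ := exists_dual_pair (F := K) (u := a) (v := l)
    fun c hc => hl' (hc ▸ smul_mem_Kl c a)
  obtain ⟨β₀, h0l, h0a⟩ := exists_dual_pair (F := K) (u := l) (v := a) (by
    rintro c rfl
    simp [h1l] at h1a
    simp [h1a] at ha0)
  have stab : ∀ β : Dual K V, β a = 0 → β l • a ∈ L' → ∀ v ∈ L', β v • a ∈ L' :=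
    fun β h1 h2 => hmax.stab hL' (kmap_mem_EL hH h1 (self_mem_Kl a)) hl hl' h2
  have dec : ∀ v ∈ L', ∃ (s : K) (t : F), v = s • a + t • l := by
    intro v hv
    obtain ⟨s, b, rfl⟩ : ∃ s b : K, v = s • a + b • l := by
      by_contra! h
      obtain ⟨β, h1, h2, h3⟩ := exists_dual_triple h
      exact hx' (by simpa [h3] using stab (ω • β) (by simp [h1]) (by simp [h2]) v hv)
    let T : Subalgebra F K :=
      { carrier := {c | ∀ s : K, s • a ∈ L' → (c * s) • a ∈ L'}
        mul_mem' := fun {x y} hx hy s hs => by rw [mul_assoc]; exact hx _ (hy s hs)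
        add_mem' := fun {x y} hx hy s hs => by
          rw [add_mul, add_smul]; exact L'.add_mem (hx s hs) (hy s hs)
        algebraMap_mem' := fun μ s hs => by
          rw [← Algebra.smul_def, smul_assoc]; exact L'.smul_mem μ hs }
    have hb : b ∈ T := fun s' hs' => by
      simpa [h1a, h1l, mul_comm] using stab (s' • β₁) (by simp [h1a]) (by simpa [h1l] using hs') _ hv
    rcases (Subalgebra.isSimpleOrder_of_finrank_prime F K hr).eq_bot_or_eq_top T with h3 | h3
    · rw [h3] at hb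
      obtain ⟨t, rfl⟩ := Algebra.mem_bot.1 hb
      exact ⟨s, t, by simp⟩
    · have : ω ∈ T := h3 ▸ trivial
      exact absurd (by simpa using this 1 (by simpa using haL')) hx'
  obtain ⟨ψ, hψ1, hψ2⟩ := exists_dual_one hl'
  obtain ⟨ψ₀, hψ3, hψ4⟩ := exists_dual_one hx'
  have h5 : finrank F L' ≤ finrank F ↥(Kl F K a ⊓ L') + 1 := by
    refine (finrank_inf_ker_ge L' ψ).trans (Nat.succ_le_succ (Submodule.finrank_mono ?_))
    rintro v ⟨hv, hv'⟩
    refine ⟨?_, hv⟩
    obtain ⟨s, t, rfl⟩ := dec v hv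
    have : t = 0 := by simpa [hψ1 _ (smul_mem_Kl s a), hψ2] using hv'
    simpa [this] using smul_mem_Kl s a
  have h6 : (Kl F K a ⊓ L') ⊔ Submodule.span F {ω • a} = Kl F K a := by
    apply Submodule.eq_of_le_of_finrank_le
    · exact sup_le inf_le_left ((Submodule.span_singleton_le_iff_mem _ _).2 hx)
    · rw [Submodule.finrank_sup_span_singleton fun h => hx' (Submodule.mem_inf.1 h).2]
      omega
  let θ : Dual F K := ψ₀ ∘ₗ (LinearMap.toSpanSingleton K V a).restrictScalars F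
  have hθ : ∀ c, θ c = ψ₀ (c • a) := fun c => rfl
  refine ⟨a, l, θ, ω, β₀, β₁, ha0, haL', hl, h0a, h0l, h1a, h1l, by simpa [hθ] using hψ3 a haL',
    hψ4, hx', fun c => ?_, dec, fun v hv x hx => ml_trans hH hL' hv hx⟩
  have := smul_mem_Kl (F := F) c a
  rw [← h6] at this
  obtain ⟨u, hu, z, hz, huz⟩ := Submodule.mem_sup.1 this
  obtain ⟨t, rfl⟩ := Submodule.mem_span_singleton.1 hz
  have h7 : θ c = t := by rw [hθ, ← huz]; simp [hψ3 u hu.2, hψ4]
  rw [h7, sub_smul, smul_assoc, ← huz]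
  simpa using hu.2

namespace ExtCfg

variable {L : Submodule F V} {a l : V} {θ : Dual F K} {ω : K} {β₀ β₁ : Dual K V}
  (C : ExtCfg M L a l θ ω β₀ β₁)
include C

theorem apply_smul {y : V →ₗ[F] V} (hy : y ∈ EL M L) (c : K) : y (c • a) = θ c • y (ω • a) := by
  have := hy.2.1 _ (C.mem c)
  rwa [sub_smul, smul_assoc, map_sub, y.map_smul (θ c), sub_eq_zero] at this

theorem θ_ne : θ ≠ 0 := by
  rintro rfl
  simpa using C.θω

theorem b1_ne : β₁ ≠ 0 := by
  rintro rfl
  simpa using C.b1l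

theorem case_c (hr : (finrank F K).Prime) (hm : 2 ≤ finrank K V)
    (hH : ∀ g ∈ SLV F V, GamL K g → g ∈ M) {t : F} (ht0 : t ≠ 0) (ht1 : t ≠ 1) :
    SLV F V ≤ M := by
  have := fd_base F K V
  obtain ⟨y, hy, hy'⟩ := C.trans _ C.ωa _ C.hl
  have hy1 : y ∈ EL M L := by simpa using hy 1
  have key : ∀ u s : F, u • (s • (kmap F β₁ a ∘ₗ y - y ∘ₗ kmap F β₁ a) -
      s ^ 2 • (cmp θ β₁).smulRight a) ∈ EL M L := by
    intro u s
    have h0 : β₁ (s • a) = 0 := by simp [C.b1a]
    have h1 := (EL M L).sub_mem (EL_conj_stab (hy u) (tvK_mem hH _ _ h0) (fun v hv => by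
      obtain ⟨c, d, h⟩ := C.dec v hv
      have : β₁ v = algebraMap F K d := by
        rw [h, ← algebraMap_smul K d l]; simp only [map_add, map_smul, C.b1a, C.b1l]; simp
      simp only [rs_apply, tv_apply, this, algebraMap_smul]
      exact L.add_mem hv (L.smul_mem _ (L.smul_mem _ C.ha)))) (hy u)
    convert h1 using 1
    ext v
    have e1 : ∀ c : K, c • s • a = s • c • a := fun c => smul_comm _ _ _
    have e2 : ∀ c : K, y (c • a) = θ c • l := fun c => by rw [C.apply_smul hy1, hy']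
    simp only [LinearMap.smul_apply, LinearMap.sub_apply, LinearMap.comp_apply, kmap_apply,
      LinearMap.smulRight_apply, cmp_apply, cj_apply, rs_apply, rs_inv_apply, tv_inv_apply,
      tv_apply, map_sub, e1, map_smul, e2, LinearMap.map_smul_of_tower, C.b1l,
      sub_smul, smul_assoc, one_smul]
    module
  have h2 := (EL M L).sub_mem (key 1 1) (key t⁻¹ t)
  refine ext_fin hr hm hH C.a0 (φ := (t - 1) • cmp θ β₁)
    (smul_ne_zero (sub_ne_zero.2 ht1) (cmp_ne_zero C.θ_ne C.b1_ne)) (by simp [C.b1a])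
    (hasT_of_EL h2 fun v => ?_)
  simp only [LinearMap.smul_apply, LinearMap.sub_apply, LinearMap.smulRight_apply, cmp_apply,
    smul_eq_mul]
  match_scalars <;> field_simp <;> ring

theorem exists_P : ∃ g ∈ M, ∃ y : V →ₗ[F] V, y ∈ EL M L ∧ (∀ v, g v = v + y v) ∧
    (∀ v, g⁻¹ v = v - y v) ∧ ∀ c : K, y (c • a) = θ c • a := by
  obtain ⟨y, hy, hy'⟩ := C.trans _ C.ωa _ C.ha
  have hy1 : y ∈ EL M L := by simpa using hy 1
  obtain ⟨h1, h2, g, hg, h3⟩ := id hy1
  refine ⟨g, hg, y, hy1, h3, fun v => ?_, fun c => by rw [C.apply_smul hy1, hy']⟩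
  apply g.injective
  rw [apply_inv_apply]
  simp [h3, h2 _ (h1 v)]

theorem case_a (hr : (finrank F K).Prime) (hm : 3 ≤ finrank K V)
    (hH : ∀ g ∈ SLV F V, GamL K g → g ∈ M) : SLV F V ≤ M := by
  have := fd_base F K V
  obtain ⟨g, hg, y, hy, h1, h2, h3⟩ := C.exists_P
  obtain ⟨α, hα, ha, hl⟩ := exists_dual_ker₂ hm a l
  have hz := kmap_mem_EL hH ha (self_mem_Kl a)
  have := (EL M _).sub_mem (EL_conj_stab hz hg fun v hv => by
    obtain ⟨c, rfl⟩ := mem_Kl.1 hv
    rw [h1, h3]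
    exact Submodule.add_mem _ hv (Submodule.smul_mem _ _ (self_mem_Kl a))) hz
  refine ext_fin hr (by omega) hH C.a0 (φ := cmp θ α) (cmp_ne_zero C.θ_ne hα) (by simp [ha])
    (hasT_of_EL this fun v => ?_)
  have h4 : α (y v) = 0 := by
    obtain ⟨s, t, h⟩ := C.dec _ (hy.1 v)
    simp [h, ha, hl]
  simp [h1, h2, h3, h4]

theorem case_b (hr : (finrank F K).Prime) (hr3 : 3 ≤ finrank F K) (hm : 2 ≤ finrank K V)
    (hH : ∀ g ∈ SLV F V, GamL K g → g ∈ M) (hq : ∀ t : F, t ≠ 0 → t = 1) : SLV F V ≤ M := by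
  have := fd_base F K V
  obtain ⟨g, hg, y, hy, h1, h2, h3⟩ := C.exists_P
  -- the maps `V → K`
  let E : AddSubgroup (V →ₗ[F] K) := (EL M (Kl F K a)).comap
    ((LinearMap.llcomp F V K V ((LinearMap.toSpanSingleton K V a).restrictScalars F)).toAddMonoidHom)
  have hE : ∀ (η : V →ₗ[F] K), η ∈ E ↔
      ((LinearMap.toSpanSingleton K V a).restrictScalars F ∘ₗ η) ∈ EL M (Kl F K a) := fun η => Iff.rfl
  have hz : ∀ η ∈ E, ∀ c : K, η (c • a) = 0 := fun η hη c => by
    simpa [C.a0] using ((hE η).1 hη).2.1 _ (smul_mem_Kl c a)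
  have hK : ∀ k : K, ∀ η ∈ E, k • η ∈ E := by
    intro k η hη
    by_cases hk : k = 0
    · simp [hk]
    have hk' := rs_mem hH (hom a β₀ C.b0a k hk) (hq _ (by
      rw [det_hom]; exact Algebra.norm_ne_zero_iff.2 hk))
    rw [hE]
    convert EL_conj_stab ((hE η).1 hη) hk' (fun v hv => by
      simp only [rs_apply, hom_apply]
      exact Submodule.add_mem _ hv (smul_mem_Kl _ _)) using 1
    ext v
    simp [hom_inv_apply, hom_apply, hz η hη, C.b0a, sub_mul, sub_smul, smul_smul, mul_comm]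
  let τ : K →ₗ[F] K := θ.smulRight 1
  have hst : ∀ v ∈ Kl F K a, y v ∈ Kl F K a := fun v hv => by
    obtain ⟨c, rfl⟩ := mem_Kl.1 hv
    rw [h3]
    exact Submodule.smul_mem _ _ (self_mem_Kl a)
  have hP : ∀ η ∈ E, (η + τ ∘ₗ η) ∘ₗ ((g⁻¹ : V ≃ₗ[F] V) : V →ₗ[F] V) ∈ E := by
    intro η hη
    rw [hE]
    convert EL_conj_stab ((hE η).1 hη) hg (fun v hv => by
      rw [h1]; exact Submodule.add_mem _ hv (hst v hv)) using 1
    ext v
    simp [h1, h3, τ, add_smul]
  have hP' : ∀ η ∈ E, (η - τ ∘ₗ η) ∘ₗ (g : V →ₗ[F] V) ∈ E := by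
    intro η hη
    rw [hE]
    convert EL_conj_stab ((hE η).1 hη) (M.inv_mem hg) (fun v hv => by
      rw [h2]; exact Submodule.sub_mem _ hv (hst v hv)) using 1
    ext v
    simp [h2, h3, τ, sub_smul]
  have hρ : ∀ η ∈ E, τ ∘ₗ (ω • η) - (ω + θ ω • (1 : K)) • (τ ∘ₗ η) ∈ E := by
    intro η hη
    convert E.sub_mem (hP _ (hK ω _ (hP' η hη))) (hK ω η hη) using 1
    ext v
    simp only [LinearMap.sub_apply, LinearMap.comp_apply, LinearMap.smul_apply, τ,
      LinearMap.smulRight_apply, LinearMap.add_apply, LinearEquiv.coe_coe, apply_inv_apply,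
      smul_eq_mul, mul_sub, map_sub, mul_smul_comm, mul_one, map_smul, add_mul, smul_mul_assoc,
      one_mul, C.θω, one_smul, sub_smul, smul_add]
    abel
  obtain ⟨k, hk1, hk2, hk3⟩ : ∃ k : K, θ k = 0 ∧ θ (ω * k) = 0 ∧ θ (ω * ω * k) ≠ 0 := by
    by_contra! h
    obtain ⟨u, w, huw⟩ := dual_eq_of_ker₂ (φ₁ := θ) (φ₂ := θ ∘ₗ LinearMap.mulLeft F ω)
      (ψ := θ ∘ₗ LinearMap.mulLeft F (ω * ω)) h
    have h4 : ω * ω = u • (1 : K) + w • ω := by
      rw [← sub_eq_zero]
      refine eq_zero_of_forall_mul C.θ_ne fun c => ?_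
      have := LinearMap.congr_fun huw c
      simp only [LinearMap.comp_apply, LinearMap.mulLeft_apply, LinearMap.add_apply,
        LinearMap.smul_apply] at this
      rw [mul_sub, mul_add, map_sub, map_add, mul_comm c, this]
      simp [mul_comm]
    let T : Subalgebra F K := (Submodule.span F {(1 : K), ω}).toSubalgebra
      (Submodule.subset_span (by simp)) (by
        intro x y hx hy
        obtain ⟨a1, b1, rfl⟩ := Submodule.mem_span_pair.1 hx
        obtain ⟨a2, b2, rfl⟩ := Submodule.mem_span_pair.1 hy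
        refine Submodule.mem_span_pair.2 ⟨a1 * a2 + b1 * b2 * u, a1 * b2 + b1 * a2 + b1 * b2 * w, ?_⟩
        simp only [mul_add, add_mul, smul_mul_assoc, mul_smul_comm, one_mul, mul_one, h4]
        module)
    rcases (Subalgebra.isSimpleOrder_of_finrank_prime F K hr).eq_bot_or_eq_top T with h5 | h5
    · have : ω ∈ T := Submodule.subset_span (by simp)
      rw [h5] at this
      obtain ⟨t, ht⟩ := Algebra.mem_bot.1 this
      have h6 := C.θω
      rw [← ht, Algebra.algebraMap_eq_smul_one, map_smul, C.θ1] at h6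
      simp at h6
    · have h6 : Submodule.span F {(1 : K), ω} = ⊤ := by
        rw [eq_top_iff]
        intro x _
        exact show x ∈ T from h5 ▸ trivial
      have := finrank_span_pair_le (F := F) (1 : K) ω
      rw [h6, finrank_top] at this
      omega
  have hβ : β₁.restrictScalars F ∈ E := kmap_mem_EL hH C.b1a (self_mem_Kl a)
  have := (hE _).1 (hρ _ (hK k _ (hρ _ hβ)))
  refine ext_fin hr hm hH C.a0 (φ := (-θ (ω * ω * k)) • cmp θ β₁)
    (smul_ne_zero (neg_ne_zero.2 hk3) (cmp_ne_zero C.θ_ne C.b1_ne)) (by simp [C.b1a])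
    (hasT_of_EL this fun v => ?_)
  have e1 : θ (k * ω) = 0 := by rw [mul_comm, hk2]
  have e2 : θ (ω * (k * ω)) = θ (ω * ω * k) := by congr 1; ring
  simp only [LinearMap.sub_apply, LinearMap.comp_apply, LinearMap.smul_apply, τ,
    LinearMap.smulRight_apply, LinearMap.add_apply, smul_eq_mul, mul_sub, map_sub, mul_smul_comm,
    mul_one, map_smul, add_mul, mul_add, map_add, smul_mul_assoc, one_mul, C.θω, one_smul,
    LinearMap.restrictScalars_apply, LinearMap.toSpanSingleton_apply, hk1, hk2, e1, e2, cmp_apply]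
  simp [mul_comm, smul_smul]

theorem case_d (hr : (finrank F K).Prime) (hr2 : finrank F K = 2) (hm : finrank K V = 2)
    (hH : ∀ g ∈ SLV F V, GamL K g → g ∈ M) (hq : ∀ t : F, t ≠ 0 → t = 1) : SLV F V ≤ M := by
  have := fd_base F K V
  have := finite_base F K
  have := Fintype.ofFinite F
  have := Fintype.ofFinite K
  have hF : Fintype.card F = 2 := by
    classical
    rw [← Finset.card_univ, Finset.card_eq_two]
    refine ⟨0, 1, zero_ne_one, ?_⟩
    ext t
    by_cases ht : t = 0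
    · simp [ht]
    · simp [hq t ht]
  have hcK : Fintype.card K = 4 := by rw [Module.card_eq_pow_finrank (K := F), hF, hr2]; rfl
  have h2F : (2 : F) = 0 := by simpa [hF] using FiniteField.cast_card_eq_zero F
  have h2 : ∀ w : V, w + w = 0 := fun w => by rw [← two_smul F, h2F, zero_smul]
  have h2K : (2 : K) = 0 := by rw [← map_ofNat (algebraMap F K) 2, h2F, map_zero]
  have h3 : ∀ c : K, c ≠ 0 → c ^ 3 = 1 := fun c hc => by
    simpa [hcK] using FiniteField.pow_card_sub_one_eq_one c hc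
  have hω0 : ω ≠ 0 := by
    rintro rfl
    simpa using C.θω
  have hω1 : ω - 1 ≠ 0 := by
    intro h
    have := C.θω
    rw [sub_eq_zero.1 h, C.θ1] at this
    exact zero_ne_one this
  have hω : ω * ω = ω + 1 := by
    apply mul_left_cancel₀ hω1
    linear_combination h3 ω hω0 + (1 - ω ^ 2) * h2K
  have hcases : ∀ c : K, c = 0 ∨ c = 1 ∨ c = ω ∨ c = ω + 1 := by
    intro c
    by_cases hc : c = 0
    · exact Or.inl hc
    have : (c - 1) * ((c - ω) * (c - (ω + 1))) = 0 := by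
      linear_combination h3 c hc + (c - 1) * hω + (-c ^ 2 * ω - c ^ 2 + 2 * c * ω + c - ω) * h2K
    simp only [mul_eq_zero, sub_eq_zero] at this
    tauto
  have hsq : ∀ c : K, c + θ c • (1 : K) = c ^ 2 := by
    intro c
    rcases hcases c with h | h | h | h <;> rw [h]
    · simp
    · simp [C.θ1]
    · rw [C.θω, one_smul, sq, hω]
    · rw [map_add, C.θω, C.θ1, add_zero, one_smul]
      linear_combination -hω - ω * h2K
  have hdec : ∀ v, v = β₀ v • a + β₁ v • l := by
    intro v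
    obtain ⟨s, t, rfl⟩ : ∃ s t : K, v = s • a + t • l := by
      by_contra! h
      obtain ⟨β, h1, h2, h3⟩ := exists_dual_triple h
      have hli : LinearIndependent K ![a, l, v] := by
        rw [Fintype.linearIndependent_iff]
        intro c hc
        simp only [Fin.sum_univ_three, Matrix.cons_val] at hc
        have e2 : c 2 = 0 := by simpa [h1, h2, h3] using congrArg β hc
        have e1 : c 1 = 0 := by simpa [e2, C.b1a, C.b1l] using congrArg β₁ hc
        have e0 : c 0 = 0 := by simpa [e2, C.b0a, C.b0l] using congrArg β₀ hc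
        intro i
        fin_cases i <;> assumption
      have := hli.fintype_card_le_finrank
      simp [hm] at this
    simp [C.b0a, C.b0l, C.b1a, C.b1l]
  have hsplit : ∀ c : K, ∃ s : F, c = s • (1 : K) + θ c • ω := by
    intro c
    rcases hcases c with h | h | h | h <;> rw [h]
    · exact ⟨0, by simp⟩
    · exact ⟨1, by simp [C.θ1]⟩
    · exact ⟨0, by simp [C.θω]⟩
    · exact ⟨1, by simp [C.θ1, C.θω, add_comm]⟩
  have hall : ∀ g : V ≃ₗ[K] V, rs F g ∈ M := fun g => rs_mem hH g (hq _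
    (Algebra.norm_ne_zero_iff.2 (LinearEquiv.isUnit_det' g).ne_zero))
  -- the field automorphism
  let y₀ : V →ₗ[F] V := (cmp θ β₀).smulRight a + (cmp θ β₁).smulRight l
  have hy₀ : ∀ v, y₀ v = θ (β₀ v) • a + θ (β₁ v) • l := fun v => rfl
  have hy₀₀ : ∀ v, y₀ (y₀ v) = 0 := fun v => by
    simp [hy₀, C.b0a, C.b0l, C.b1a, C.b1l, C.θ1]
  have hφ : ∀ v, uni y₀ hy₀₀ v = β₀ v ^ 2 • a + β₁ v ^ 2 • l := by
    intro v
    rw [uni_apply, hy₀, ← hsq, ← hsq]
    nth_rewrite 1 [hdec v]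
    simp only [add_smul, smul_assoc, one_smul]
    abel
  have hφ' : (uni y₀ hy₀₀)⁻¹ = uni y₀ hy₀₀ := by
    ext v
    rw [uni_inv_apply, uni_apply]
    linear_combination (norm := abel) -h2 (y₀ v)
  have hsemi : Semi K (uni y₀ hy₀₀) := fun c => ⟨c ^ 2, fun v => by
    simp [hφ, mul_pow, smul_smul]⟩
  have hφM : uni y₀ hy₀₀ ∈ M := hH _ (uni_mem_SLV _ _) ⟨hsemi, by rw [hφ']; exact hsemi⟩
  have hy₀E : y₀ ∈ EL M L := by
    refine ⟨fun v => L.add_mem (L.smul_mem _ C.ha) (L.smul_mem _ C.hl), fun v hv => ?_, _, hφM,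
      fun _ => rfl⟩
    obtain ⟨s, t, rfl⟩ := C.dec v hv
    have hs : s • a ∈ L := by simpa using L.sub_mem hv (L.smul_mem t C.hl)
    obtain ⟨s', hs'⟩ := hsplit s
    have : θ s = 0 := by
      by_contra h
      rw [hq _ h, one_smul] at hs'
      apply C.ωa
      rw [hs', add_smul, smul_assoc, one_smul] at hs
      simpa using L.sub_mem hs (L.smul_mem s' C.ha)
    simp [hy₀, C.b0a, C.b0l, C.b1a, C.b1l, C.θ1, this]
  obtain ⟨y, hy, hy'⟩ := C.trans _ C.ωa _ C.hl
  have hy1 : y ∈ EL M L := by simpa using hy 1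
  have hyl : y l = 0 := hy1.2.1 _ C.hl
  have hya : y a = 0 := hy1.2.1 _ C.ha
  have hyv : ∀ v, y v = θ (β₀ v) • l + θ (β₁ v) • y (ω • l) := by
    intro v
    nth_rewrite 1 [hdec v]
    obtain ⟨s, hs⟩ := hsplit (β₁ v)
    rw [map_add, C.apply_smul hy1, hy']
    nth_rewrite 1 [hs]
    simp [add_smul, hyl]
  obtain ⟨b', d, hbd⟩ := C.dec _ (hy1.1 (ω • l))
  obtain ⟨b, hb⟩ : ∃ b : F, b' = b • (1 : K) := by
    have hs : b' • a ∈ L := by
      simpa [hbd] using L.sub_mem (hy1.1 (ω • l)) (L.smul_mem d C.hl)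
    obtain ⟨s', hs'⟩ := hsplit b'
    by_cases h : θ b' = 0
    · exact ⟨s', by simpa [h] using hs'⟩
    · exfalso
      rw [hq _ h, one_smul] at hs'
      apply C.ωa
      rw [hs', add_smul, smul_assoc, one_smul] at hs
      simpa using L.sub_mem hs (L.smul_mem s' C.ha)
  rw [hb, smul_assoc, one_smul] at hbd
  have hl0 : l ≠ 0 := by
    rintro rfl
    simpa using C.b1l
  by_cases hb0 : b = 0
  · refine ext_fin hr hm.ge hH hl0 (φ := cmp θ β₀ + d • cmp θ β₁) (fun h => ?_)
      (by simp [C.b0l, C.b1l, C.θ1]) (hasT_of_EL hy1 fun v => ?_)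
    · simpa [C.b0a, C.b1a, C.θω] using LinearMap.congr_fun h (ω • a)
    · simp [hyv v, hbd, hb0, add_smul, smul_smul, mul_comm]
  rw [hq b hb0, one_smul] at hbd
  by_cases hd0 : d = 0
  · refine ext_fin hr hm.ge hH (x := a + l) (fun h => ?_) (φ := cmp θ β₀ + cmp θ β₁) (fun h => ?_)
      (by simp [C.b0l, C.b1l, C.b0a, C.b1a, C.θ1])
      (hasT_of_EL ((EL M L).add_mem hy1 hy₀E) fun v => ?_)
    · simpa [C.b0a, C.b0l] using congrArg β₀ h
    · simpa [C.b0a, C.b1a, C.θω] using LinearMap.congr_fun h (ω • a)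
    · simp only [LinearMap.add_apply, hyv v, hbd, hd0, hy₀, cmp_apply]
      module
  rw [hq d hd0, one_smul] at hbd
  obtain ⟨-, -, x, hx, hx'⟩ := id hy1
  have hz0 : (β₀ + ω • β₁) (ω • a + l) = 0 := by
    simp only [LinearMap.add_apply, LinearMap.smul_apply, map_add, map_smul, C.b0a, C.b0l, C.b1a,
      C.b1l, smul_eq_mul]
    linear_combination ω * h2K
  let s : V ≃ₗ[K] V := LinearEquiv.smulOfNeZero K V ω hω0
  have hG := M.mul_mem (M.mul_mem (M.mul_mem hx (hall (tv _ _ hz0))) hx)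
    (M.mul_mem (M.mul_mem (hall s) hφM) (hall (s * s)))
  refine ext_fin hr hm.ge hH (x := ω • a) (smul_ne_zero hω0 C.a0) (φ := cmp θ ((ω + 1) • β₁))
    (cmp_ne_zero C.θ_ne (smul_ne_zero (by rw [← hω]; simpa using hω0) C.b1_ne))
    (by simp [C.b1a]) ⟨_, hG, ?_⟩
  have e1 : ω • ω • a = ω • a + a := by rw [smul_smul, hω, add_smul, one_smul]
  have e2 : ω • ω • l = ω • l + l := by rw [smul_smul, hω, add_smul, one_smul]
  have e3 : θ (ω * ω) = 1 := by simp [hω, C.θ1, C.θω]
  have e4 : θ (ω * (ω * ω)) = 0 := by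
    rw [show ω * (ω * ω) = ω ^ 3 by ring, h3 ω hω0, C.θ1]
  have x1 : x a = a := by simp [hx', hya]
  have x2 : x (ω • a) = ω • a + l := by simp [hx', hy']
  have x3 : x l = l := by simp [hx', hyl]
  have x4 : x (ω • l) = ω • l + a + l := by simp [hx', hbd, add_assoc]
  set z := rs F (tv _ _ hz0) with hz
  have z1 : z a = a + ω • a + l := by simp [hz, C.b0a, C.b1a, add_assoc]
  have z2 : z (ω • a) = a + ω • l := by
    simp only [hz, rs_apply, tv_apply, LinearMap.add_apply, LinearMap.smul_apply, map_smul, C.b0a,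
      C.b1a, smul_eq_mul, mul_one, mul_zero, add_zero, smul_add, one_smul, e1]
    linear_combination (norm := abel) h2 (ω • a)
  have z3 : z l = l + a + ω • a + ω • l := by
    simp only [hz, rs_apply, tv_apply, LinearMap.add_apply, LinearMap.smul_apply, map_smul, C.b0l,
      C.b1l, smul_eq_mul, mul_one, mul_zero, zero_add, smul_add, e1]
    abel
  have z4 : z (ω • l) = a + l := by
    simp only [hz, rs_apply, tv_apply, LinearMap.add_apply, LinearMap.smul_apply, map_smul, C.b0l,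
      C.b1l, smul_eq_mul, mul_one, mul_zero, zero_add, smul_add, e1, e2]
    linear_combination (norm := abel) h2 (ω • a) + h2 (ω • l)
  set ψ := rs F s * uni y₀ hy₀₀ * rs F (s * s) with hψ
  have hψ' : ∀ v, ψ v = ω • (ω • ω • v + y₀ (ω • ω • v)) := fun v => rfl
  have p1 : ψ a = a + ω • a := by
    simp only [hψ', hy₀, map_smul, C.b0a, C.b1a, smul_eq_mul, mul_one, mul_zero, e3, map_zero,
      zero_smul, add_zero, one_smul]
    simp only [smul_add, e1]
    linear_combination (norm := abel) h2 (ω • a)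
  have p2 : ψ (ω • a) = ω • a := by
    simp only [hψ', hy₀, map_smul, C.b0a, C.b1a, smul_eq_mul, mul_one, mul_zero, e4, map_zero,
      zero_smul, add_zero, one_smul]
    simp only [smul_add, e1]
    linear_combination (norm := abel) h2 (ω • a) + h2 a
  have p3 : ψ l = l + ω • l := by
    simp only [hψ', hy₀, map_smul, C.b0l, C.b1l, smul_eq_mul, mul_one, mul_zero, e3, map_zero,
      zero_smul, add_zero, zero_add, one_smul]
    simp only [smul_add, e2]
    linear_combination (norm := abel) h2 (ω • l)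
  have p4 : ψ (ω • l) = ω • l := by
    simp only [hψ', hy₀, map_smul, C.b0l, C.b1l, smul_eq_mul, mul_one, mul_zero, e4, map_zero,
      zero_smul, add_zero, zero_add, one_smul]
    simp only [smul_add, e2]
    linear_combination (norm := abel) h2 (ω • l) + h2 l
  have g1 : (x * z * x * ψ) a = a := by
    simp only [LinearEquiv.mul_apply, map_add, p1, x1, x2, x3, x4, z1, z2, z3, z4]
    linear_combination (norm := abel) h2 (a + a + ω • a + l + l + l + ω • l)
  have g2 : (x * z * x * ψ) (ω • a) = ω • a := by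
    simp only [LinearEquiv.mul_apply, map_add, p2, x1, x2, x3, x4, z1, z2, z3, z4]
    linear_combination (norm := abel) h2 (a + a + ω • l + l + l)
  have g3 : (x * z * x * ψ) l = l + ω • a := by
    simp only [LinearEquiv.mul_apply, map_add, p3, x1, x2, x3, x4, z1, z2, z3, z4]
    linear_combination (norm := abel) h2 (l + l + l + l + a + a + a + ω • a + ω • l)
  have g4 : (x * z * x * ψ) (ω • l) = ω • l := by
    simp only [LinearEquiv.mul_apply, map_add, p4, x1, x2, x3, x4, z1, z2, z3, z4]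
    linear_combination (norm := abel) h2 (a + a + l + l + l + ω • a)
  intro v
  obtain ⟨s₀, hs₀⟩ := hsplit (β₀ v)
  obtain ⟨s₁, hs₁⟩ := hsplit (β₁ v)
  have hv := hdec v
  generalize θ (β₀ v) = t₀ at hs₀
  generalize θ (β₁ v) = t₁ at hs₁
  have e5 : θ ((ω + 1) * β₁ v) = s₁ := by
    rw [hs₁, ← hω, mul_add, mul_smul_comm, mul_smul_comm, map_add, map_smul, map_smul, mul_one, e3,
      mul_assoc, e4]
    simp
  simp only [cmp_apply, LinearMap.smul_apply, smul_eq_mul, e5]
  rw [hs₀, hs₁] at hv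
  simp only [add_smul, smul_assoc, one_smul] at hv
  rw [hv]
  simp only [map_add, map_smul, g1, g2, g3, g4]
  module

end ExtCfg

theorem ext_core (hr : (finrank F K).Prime) (hm : 2 ≤ finrank K V)
    (hH : ∀ g ∈ SLV F V, GamL K g → g ∈ M) {g : V ≃ₗ[F] V} (hg : g ∈ M) (hg' : ¬ GamL K g) :
    SLV F V ≤ M := by
  have := fd_base F K V
  rcases exists_maxInt (M := M) (S := IsKl F K) with h | ⟨L, L', h1, h2, h3, h4, h5⟩
  · exact absurd ⟨semi_of_maxInt hm h hg, semi_of_maxInt hm h (M.inv_mem hg)⟩ hg'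
  obtain ⟨a, l, θ, ω, β₀, β₁, C⟩ := exists_extCfg hr hH h1 h2 h3 h4 h5
  by_cases hq : ∀ t : F, t ≠ 0 → t = 1
  · by_cases hm3 : 3 ≤ finrank K V
    · exact C.case_a hr hm3 hH
    by_cases hr3 : 3 ≤ finrank F K
    · exact C.case_b hr hr3 hm hH hq
    exact C.case_d hr (by have := hr.two_le; omega) (by omega) hH hq
  · push Not at hq
    obtain ⟨t, h0, h1⟩ := hq
    exact C.case_c hr hm hH h0 h1

theorem ext_proper (hr : 2 ≤ finrank F K) (hm : 2 ≤ finrank K V) :
    ∃ g ∈ SLV F V, ¬ GamL K g := by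
  obtain ⟨c, -, hc⟩ := exists_not_mem_one (K := (⊤ : Submodule F K)) (by simpa using hr) 1
  obtain ⟨x, -, hx⟩ := exists_ne_zero_of_finrank (K := (⊤ : Submodule K V)) (by simp; omega)
  obtain ⟨w, -, hw⟩ := exists_not_mem_one (K := (⊤ : Submodule K V)) (by simpa using hm) x
  obtain ⟨β, hβ1, hβ2⟩ := exists_dual_pair hw
  obtain ⟨φ, h1, h2, h3⟩ := exists_dual_triple (F := F) (x := x) (y := w) (w := c • w) (by
    intro a b h
    apply hc b
    simpa [hβ1, hβ2] using congrArg β h)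
  refine ⟨tv x φ h1, tv_mem_SLV _ _ _, fun h => ?_⟩
  obtain ⟨c', hc'⟩ := h.1 c
  have h4 := hc' w
  simp only [tv_apply, h2, h3, one_smul, zero_smul, add_zero] at h4
  have h5 : c = c' := by simpa [hβ1, hβ2] using congrArg β h4
  exact hx (by simpa [h5] using h4)

theorem ext_top (hH : ∀ g, GamL K g → g ∈ M) (hS : SLV F V ≤ M) (hm : 1 ≤ finrank K V)
    (g : V ≃ₗ[F] V) : g ∈ M := by
  have := fd_base F K V
  obtain ⟨x, -, hx⟩ := exists_ne_zero_of_finrank (K := (⊤ : Submodule K V)) (by simpa using hm)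
  obtain ⟨β, hβ⟩ := exists_dual_one' (F := K) hx
  have hd : LinearMap.det (g : V →ₗ[F] V) ≠ 0 := (LinearEquiv.isUnit_det' g).ne_zero
  obtain ⟨c, hc⟩ := FiniteField.norm_surjective F K (LinearMap.det (g : V →ₗ[F] V))⁻¹
  have hc0 : c ≠ 0 := by
    rintro rfl
    rw [Algebra.norm_zero] at hc
    exact inv_ne_zero hd hc.symm
  have h1 := hH _ (rs_gamL (hom x β hβ c hc0))
  have h2 := hS (show g * rs F (hom x β hβ c hc0) ∈ SLV F V by
    rw [mem_SLV', LinearEquiv.coe_toLinearMap_mul, map_mul, det_rs, det_hom, hc,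
      mul_inv_cancel₀ hd])
  simpa using M.mul_mem h2 (M.inv_mem h1)

section Bridge

open Matrix

theorem ext_maximal {F : Type*} [Field F] [Finite F] {ι : Type} [Fintype ι] [DecidableEq ι]
    {r : ℕ} (hr : r.Prime) (hlt : r < Fintype.card ι) (K : Subalgebra F (Matrix ι ι F))
    (hK : Geo.IsFieldSubalgebra r K) :
    IsCoatom (Geo.subalgebraNormalizer K) ∧ Geo.IsMaximalIn (Geo.specialLinear ι F)
      (Geo.subalgebraNormalizer K ⊓ Geo.specialLinear ι F) := by
  have hnt : Nontrivial K := Module.nontrivial_of_finrank_pos (R := F) (hK.finrank_eq ▸ hr.pos)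
  have hf : IsField K :=
    { exists_pair_ne := exists_pair_ne K
      mul_comm := fun x y => Subtype.ext (hK.comm _ x.2 _ y.2)
      mul_inv_cancel := fun {x} hx => by
        obtain ⟨y, hy, hxy⟩ := hK.inv _ x.2 fun h => hx (Subtype.ext h)
        exact ⟨⟨y, hy⟩, Subtype.ext hxy⟩ }
  let _ : Field K := hf.toField
  let _ : Module K (ι → F) :=
    { smul := fun c v => (c : Matrix ι ι F) *ᵥ v
      one_smul := fun v => Matrix.one_mulVec v
      mul_smul := fun a b v => (Matrix.mulVec_mulVec v _ _).symm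
      smul_zero := fun a => Matrix.mulVec_zero _
      smul_add := fun a v w => Matrix.mulVec_add _ _ _
      add_smul := fun a b v => Matrix.add_mulVec _ _ _
      zero_smul := fun v => Matrix.zero_mulVec _ }
  have hsm : ∀ (c : K) (v : ι → F), c • v = (c : Matrix ι ι F) *ᵥ v := fun _ _ => rfl
  have : IsScalarTower F K (ι → F) := ⟨fun a c v => Matrix.smul_mulVec a _ _⟩
  have : Finite K := inferInstance
  have : FiniteDimensional K (ι → F) := Module.Finite.of_finite
  have hr' : finrank F K = r := hK.finrank_eq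
  have hm : 2 ≤ finrank K (ι → F) := by
    have := Module.finrank_mul_finrank F K (ι → F)
    rw [hr', finrank_fintype_fun_eq_card] at this
    by_contra h
    have h1 : finrank K (ι → F) ≤ 1 := by omega
    have := Nat.mul_le_mul_left r h1
    omega
  have hsemi : ∀ g : GL ι F, Semi K (gl0 g) ↔ ∀ k ∈ K,
      (g : Matrix ι ι F) * k * ((g⁻¹ : GL ι F) : Matrix ι ι F) ∈ K := by
    intro g
    constructor
    · intro h k hk
      obtain ⟨c', hc'⟩ := h ⟨k, hk⟩
      have : (g : Matrix ι ι F) * k = c' * g := by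
        apply Matrix.toLin'.injective
        apply LinearMap.ext
        intro v
        simpa [gl0_apply, hsm] using hc' v
      rw [this, mul_assoc, Units.mul_inv, mul_one]
      exact c'.2
    · intro h c
      refine ⟨⟨_, h c c.2⟩, fun v => ?_⟩
      simp [gl0_apply, hsm, mul_assoc]
  have hP : ∀ g : GL ι F, g ∈ Geo.subalgebraNormalizer K ↔ GamL K (gl0 g) := by
    intro g
    rw [GamL, ← map_inv, hsemi, hsemi]
    constructor
    · intro h
      exact ⟨fun k hk => (h k).1 hk, fun k hk => (inv_mem h k).1 hk⟩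
    · rintro ⟨h1, h2⟩ k
      refine ⟨h1 k, fun hk => ?_⟩
      simpa [mul_assoc] using h2 _ hk
  have hne := ext_proper (F := F) (K := K) (V := ι → F) (hr' ▸ hr.two_le) hm
  refine ⟨⟨fun h => ?_, fun M hM => ?_⟩, isMaximalIn_of_core (LinearEquiv.refl F _) _ (GamL K) hP
    hne fun M _ h1 ⟨g, hg, h2⟩ => ext_core (hr' ▸ hr) hm h1 hg h2⟩
  · obtain ⟨g, -, hg⟩ := hne
    obtain ⟨g, rfl⟩ := gl0.surjective g
    exact hg ((hP g).1 (h ▸ Subgroup.mem_top g))
  · obtain ⟨g, hg, hg'⟩ := SetLike.exists_of_lt hM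
    have h1 : ∀ k, GamL K k → k ∈ M.map gl0.toMonoidHom := by
      intro k hk
      obtain ⟨k, rfl⟩ := gl0.surjective k
      exact ⟨k, hM.le ((hP k).2 hk), rfl⟩
    have h2 := ext_core (hr' ▸ hr) hm (fun k _ hk => h1 k hk) ⟨g, hg, rfl⟩
      fun h => hg' ((hP g).2 h)
    rw [eq_top_iff]
    intro k _
    obtain ⟨k', hk', hkk⟩ := ext_top h1 h2 (by omega) (gl0 k)
    exact gl0.injective hkk ▸ hk'

end Bridge

end Cfsg.Agent.H6
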