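import Mathlib
import Cfsg.Agent.H3.SmallSupport
import Cfsg.Agent.H3.Basic

set_option autoImplicit false

namespace Cfsg.Agent.H6.PW
open Equiv Equiv.Perm

@[simp] theorem ap_inv {β : Type*} (f : Perm β) (x : β) : f (f⁻¹ x) = x := by simp
@[simp] theorem inv_ap {β : Type*} (f : Perm β) (x : β) : f⁻¹ (f x) = x := by simp

section
variable {α : Type*} [Fintype α] [DecidableEq α]

theorem ex4 (h : 5 ≤ Fintype.card α) (a b c d : α) : ∃ e, e ≠ a ∧ e ≠ b ∧ e ≠ c ∧ e ≠ d := by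
  have h1 : ({a, b, c, d} : Finset α).card < (Finset.univ : Finset α).card := by
    have := Finset.card_le_four (a := a) (b := b) (c := c) (d := d)
    rw [Finset.card_univ]; omega
  obtain ⟨e, -, he⟩ := Finset.exists_mem_notMem_of_card_lt_card h1
  simp only [Finset.mem_insert, Finset.mem_singleton, not_or] at he
  exact ⟨e, he⟩

theorem ex5 (h : 6 ≤ Fintype.card α) (a b c d e : α) :
    ∃ f, f ≠ a ∧ f ≠ b ∧ f ≠ c ∧ f ≠ d ∧ f ≠ e := by
  have h1 : ({a, b, c, d, e} : Finset α).card < (Finset.univ : Finset α).card := by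
    have := Finset.card_le_five (a := a) (b := b) (c := c) (d := d) (e := e)
    rw [Finset.card_univ]; omega
  obtain ⟨f, -, he⟩ := Finset.exists_mem_notMem_of_card_lt_card h1
  simp only [Finset.mem_insert, Finset.mem_singleton, not_or] at he
  exact ⟨f, he⟩

/-- the 3-cycle `a ↦ b ↦ c ↦ a`. -/
def cy (a b c : α) : Perm α := swap a c * swap a b

omit [Fintype α] in
theorem cy_a {a b c : α} (ab : a ≠ b) (bc : b ≠ c) : cy a b c a = b := by
  simp [cy, swap_apply_of_ne_of_ne ab.symm bc]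

omit [Fintype α] in
theorem cy_b (a b c : α) : cy a b c b = c := by
  simp [cy]

omit [Fintype α] in
theorem cy_c {a b c : α} (ac : a ≠ c) (bc : b ≠ c) : cy a b c c = a := by
  simp [cy, swap_apply_of_ne_of_ne ac.symm bc.symm]

omit [Fintype α] in
theorem cy_o {a b c d : α} (da : d ≠ a) (db : d ≠ b) (dc : d ≠ c) : cy a b c d = d := by
  simp [cy, swap_apply_of_ne_of_ne da db, swap_apply_of_ne_of_ne da dc]

theorem sign_cy {a b c : α} (ab : a ≠ b) (ac : a ≠ c) : sign (cy a b c) = 1 := by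
  simp [cy, sign_swap ab, sign_swap ac]

theorem cy_three {a b c : α} (ab : a ≠ b) (ac : a ≠ c) (bc : b ≠ c) : IsThreeCycle (cy a b c) :=
  isThreeCycle_swap_mul_swap_same ac ab bc.symm

theorem sign_dbl {a b c d : α} (ab : a ≠ b) (cd : c ≠ d) : sign (swap a b * swap c d) = 1 := by
  simp [sign_swap ab, sign_swap cd]

theorem exists_not_commute (h : 5 ≤ Fintype.card α) {σ : Perm α} (hσ : σ ≠ 1) :
    ∃ a : Perm α, IsThreeCycle a ∧ ¬ Commute a σ := by
  obtain ⟨p, hp⟩ : ∃ p, σ p ≠ p := by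
    by_contra hc; push Not at hc; exact hσ (Equiv.ext hc)
  obtain ⟨r, r1, r2, -, -⟩ := ex4 h p (σ p) p p
  obtain ⟨s, s1, s2, s3, -⟩ := ex4 h p (σ p) r r
  refine ⟨cy (σ p) r s, cy_three r2.symm s2.symm s3.symm, fun hc => ?_⟩
  have := congrArg (fun f : Perm α => f p) hc.eq
  simp only [Perm.mul_apply] at this
  rw [cy_a r2.symm s3.symm, cy_o hp.symm r1.symm s1.symm] at this
  exact r2 this

theorem alt_le_of_norm (h : 5 ≤ Fintype.card α) (Q : Subgroup (Perm α))
    (hQ : ∀ a : Perm α, sign a = 1 → ∀ q ∈ Q, a * q * a⁻¹ ∈ Q) {σ : Perm α} (hσ : σ ∈ Q)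
    (h1 : σ ≠ 1) : alternatingGroup α ≤ Q := by
  obtain ⟨a, ha, hc⟩ := exists_not_commute h h1
  have hN : (Q.subgroupOf (alternatingGroup α)).Normal :=
    ⟨fun n hn g => by
      rw [Subgroup.mem_subgroupOf] at hn ⊢
      exact hQ g (mem_alternatingGroup.1 g.2) n hn⟩
  rcases alternatingGroup.normal_subgroup_eq_bot_or_eq_top
    (α := α) (by rwa [Nat.card_eq_fintype_card]) (N := Q.subgroupOf (alternatingGroup α)) with h2 | h2
  · exfalso
    have h3 : a * σ * a⁻¹ * σ⁻¹ ∈ alternatingGroup α := by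
      rw [mem_alternatingGroup]; simp [ha.sign]
    have h4 : (⟨_, h3⟩ : alternatingGroup α) ∈ Q.subgroupOf (alternatingGroup α) := by
      rw [Subgroup.mem_subgroupOf]
      exact Q.mul_mem (hQ a ha.sign σ hσ) (Q.inv_mem hσ)
    rw [h2, Subgroup.mem_bot] at h4
    have h5 : a * σ * a⁻¹ * σ⁻¹ = 1 := congrArg Subtype.val h4
    exact hc (commutatorElement_eq_one_iff_commute.1 h5)
  · exact Subgroup.subgroupOf_eq_top.1 h2

theorem exists_conj_not_commute (h : 5 ≤ Fintype.card α) {σ σ' : Perm α} (hσ : σ ≠ 1)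
    (hσ' : σ' ≠ 1) : ∃ a : Perm α, sign a = 1 ∧ ¬ Commute (a * σ * a⁻¹) σ' := by
  by_contra hc
  push Not at hc
  let Q : Subgroup (Perm α) :=
    { carrier := {ρ | ∀ a : Perm α, sign a = 1 → Commute (a * ρ * a⁻¹) σ'}
      one_mem' := fun a _ => by simp
      mul_mem' := fun {x y} hx hy a ha => by
        have : a * (x * y) * a⁻¹ = (a * x * a⁻¹) * (a * y * a⁻¹) := by group
        rw [this]; exact (hx a ha).mul_left (hy a ha)
      inv_mem' := fun {x} hx a ha => by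
        have : a * x⁻¹ * a⁻¹ = (a * x * a⁻¹)⁻¹ := by group
        rw [this]; exact (hx a ha).inv_left }
  have hle := alt_le_of_norm h Q (fun b hb q hq a ha => by
    have : a * (b * q * b⁻¹) * a⁻¹ = (a * b) * q * (a * b)⁻¹ := by group
    rw [this]; exact hq (a * b) (by simp [ha, hb])) (σ := σ) hc hσ
  obtain ⟨b, hb, hbc⟩ := exists_not_commute h hσ'
  have := hle (mem_alternatingGroup.2 hb.sign) 1 (by simp)
  exact hbc (by simpa using this)

/-- an even permutation fixing `a0, a1` with prescribed values at two other points -/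
theorem exists_even_map (h : 5 ≤ Fintype.card α) {a b c d : α} (ab : a ≠ b) (cd : c ≠ d) :
    ∃ ρ : Perm α, sign ρ = 1 ∧ ρ a = c ∧ ρ b = d := by
  obtain ⟨p, p1, p2, -, -⟩ := ex4 h a b a a
  obtain ⟨q, q1, q2, q3, -⟩ := ex4 h a b p p
  obtain ⟨ρ, h1, h2⟩ : ∃ ρ : Perm α, ρ a = c ∧ ρ b = d := by
    refine ⟨swap (swap a c b) d * swap a c, ?_, by simp⟩
    simp only [Perm.mul_apply, swap_apply_left]
    refine swap_apply_of_ne_of_ne ?_ cd
    intro h3
    have := congrArg (swap a c) h3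
    simp at this
    exact ab this
  rcases Int.units_eq_one_or (sign ρ) with h3 | h3
  · exact ⟨ρ, h3, h1, h2⟩
  · refine ⟨ρ * swap p q, by simp [h3, sign_swap q3.symm], ?_, ?_⟩
    · simp [swap_apply_of_ne_of_ne p1.symm q1.symm, h1]
    · simp [swap_apply_of_ne_of_ne p2.symm q2.symm, h2]

end

section
variable {α Y : Type*}

/-- `σ × w` -/
def pc (σ : Perm α) (w : Perm Y) : Perm (α × Y) := Equiv.prodCongr σ w

@[simp] theorem pc_apply (σ : Perm α) (w : Perm Y) (a : α) (y : Y) :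
    pc σ w (a, y) = (σ a, w y) := rfl

theorem pc_mul (σ σ' : Perm α) (w w' : Perm Y) :
    pc σ w * pc σ' w' = pc (σ * σ') (w * w') := by ext ⟨a, y⟩ <;> rfl

theorem pc_inv (σ : Perm α) (w : Perm Y) : (pc σ w)⁻¹ = pc σ⁻¹ w⁻¹ := by ext ⟨a, y⟩ <;> rfl

@[simp] theorem pc_one : pc (1 : Perm α) (1 : Perm Y) = 1 := by ext ⟨a, y⟩ <;> rfl

/-- fibrewise permutations (preserving the second coordinate) -/
def fib : (Y → Perm α) →* Perm (α × Y) where
  toFun γ := Equiv.prodCongrLeft γ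
  map_one' := by ext ⟨a, y⟩ <;> rfl
  map_mul' _ _ := by ext ⟨a, y⟩ <;> rfl

@[simp] theorem fib_apply (γ : Y → Perm α) (a : α) (y : Y) : fib γ (a, y) = (γ y a, y) := rfl

/-- permutations preserving the first coordinate -/
def hyp : (α → Perm Y) →* Perm (α × Y) where
  toFun γ := Equiv.prodCongrRight γ
  map_one' := by ext ⟨a, y⟩ <;> rfl
  map_mul' _ _ := by ext ⟨a, y⟩ <;> rfl

@[simp] theorem hyp_apply (γ : α → Perm Y) (a : α) (y : Y) : hyp γ (a, y) = (a, γ a y) := rfl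

theorem exists_fib {g : Perm (α × Y)} (hg : ∀ a y, (g (a, y)).2 = y) : ∃ γ, g = fib γ := by
  have hg' : ∀ a y, (g⁻¹ (a, y)).2 = y := fun a y => by
    have := hg (g⁻¹ (a, y)).1 (g⁻¹ (a, y)).2
    simpa using this.symm
  refine ⟨fun y => ⟨fun a => (g (a, y)).1, fun a => (g⁻¹ (a, y)).1, fun a => ?_, fun a => ?_⟩, ?_⟩
  · have : ((g (a, y)).1, y) = g (a, y) := Prod.ext rfl (hg a y).symm
    simp [this]
  · have : ((g⁻¹ (a, y)).1, y) = g⁻¹ (a, y) := Prod.ext rfl (hg' a y).symm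
    simp only [this]; simp
  · ext ⟨a, y⟩
    · rfl
    · exact hg a y

theorem exists_hyp {g : Perm (α × Y)} (hg : ∀ a y, (g (a, y)).1 = a) : ∃ γ, g = hyp γ := by
  have hg' : ∀ a y, (g⁻¹ (a, y)).1 = a := fun a y => by
    have := hg (g⁻¹ (a, y)).1 (g⁻¹ (a, y)).2
    simpa using this.symm
  refine ⟨fun a => ⟨fun y => (g (a, y)).2, fun y => (g⁻¹ (a, y)).2, fun y => ?_, fun y => ?_⟩, ?_⟩
  · have : (a, (g (a, y)).2) = g (a, y) := Prod.ext (hg a y).symm rfl
    simp [this]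
  · have : (a, (g⁻¹ (a, y)).2) = g⁻¹ (a, y) := Prod.ext (hg' a y).symm rfl
    simp only [this]; simp
  · ext ⟨a, y⟩
    · exact hg a y
    · rfl

theorem pc_one_eq_fib (σ : Perm α) : pc σ (1 : Perm Y) = fib (fun _ => σ) := by
  ext ⟨a, y⟩ <;> rfl

theorem pc_one_eq_hyp (w : Perm Y) : pc (1 : Perm α) w = hyp (fun _ => w) := by
  ext ⟨a, y⟩ <;> rfl

theorem pc_conj_fib (σ : Perm α) (w : Perm Y) (γ : Y → Perm α) :
    pc σ w * fib γ * (pc σ w)⁻¹ = fib (fun y => σ * γ (w⁻¹ y) * σ⁻¹) := by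
  ext ⟨a, y⟩ <;> simp [pc_inv]

theorem pc_conj_hyp (σ : Perm α) (w : Perm Y) (γ : α → Perm Y) :
    pc σ w * hyp γ * (pc σ w)⁻¹ = hyp (fun a => w * γ (σ⁻¹ a) * w⁻¹) := by
  ext ⟨a, y⟩ <;> simp [pc_inv]

variable [Fintype α] [DecidableEq α] [Fintype Y] [DecidableEq Y]

theorem support_pc_one (σ : Perm α) : (pc σ (1 : Perm Y)).support = σ.support ×ˢ Finset.univ := by
  ext ⟨a, y⟩; simp

theorem support_fib_single (y : Y) (σ : Perm α) :
    (fib (Pi.mulSingle y σ)).support = σ.support ×ˢ {y} := by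
  ext ⟨a, z⟩
  by_cases h : z = y
  · subst h; simp
  · simp [h, Ne.symm h]

theorem support_hyp_single (c : α) (v : Perm Y) :
    (hyp (Pi.mulSingle c v)).support = {c} ×ˢ v.support := by
  ext ⟨a, z⟩
  by_cases h : a = c
  · subst h; simp
  · simp [h, Ne.symm h]

end

end Cfsg.Agent.H6.PW
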