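import Cfsg.Agent.H6.PW9

set_option autoImplicit false
set_option linter.unusedSectionVars false

namespace Cfsg.Agent.H6.PW
open Equiv Equiv.Perm MulAction Function
attribute [-simp] Equiv.Perm.coe_inv

theorem conj_pc {α Y : Type*} [Fintype α] [DecidableEq α] [Fintype Y] [DecidableEq Y]
    {a0 a1 a2 : α} (h01 : a0 ≠ a1) (h02 : a0 ≠ a2) (h12 : a1 ≠ a2)
    {M : Subgroup (Perm (α × Y))} {G : Subgroup (Perm Y)} (H : Ab M G) {g : Perm (α × Y)}
    (hg : g ∈ M) (hc : Commute g (pc (cy a0 a1 a2) 1)) {w β : Perm Y}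
    (hw : ∀ y, (g (a0, y)).2 = w y) (hβ : pc 1 β ∈ M) (hwβ : Commute w β) :
    ∃ σ, g * pc 1 β * g⁻¹ = pc σ β := by
  have hb : Commute (pc (1 : Perm α) β) (pc (cy a0 a1 a2) 1) := by
    change _ * _ = _ * _
    simp [pc_mul]
  have hw' : ∀ u : α × Y, u.1 ∈ ({a0, a1, a2} : Set α) → (g u).2 = w u.2 := fun u hu => by
    obtain ⟨i, hi⟩ := cen_form h01 h02 h12 hc u.2
    rw [← hw]
    have := congrArg Prod.snd (hi _ hu)
    exact this
  obtain ⟨σ, hσ⟩ := lemR h01 h02 h12 H (r := g * pc 1 β * g⁻¹ * (pc 1 β)⁻¹)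
    (M.mul_mem (M.mul_mem (M.mul_mem hg hβ) (M.inv_mem hg)) (M.inv_mem hβ))
    (((hc.mul_left hb).mul_left hc.inv_left).mul_left hb.inv_left) (fun y => by
      have h1 := (cen_mem h01 h02 h12 hc.inv_left (a0, β⁻¹ y)).2 (by simp)
      have h2 := hw' _ h1
      rw [ap_inv] at h2
      simp only [pc_inv, Perm.mul_apply, pc_apply, inv_one, Perm.one_apply]
      rw [hw' (pc 1 β (g⁻¹ (a0, β⁻¹ y))) h1]
      change w (β (g⁻¹ (a0, β⁻¹ y)).2) = y
      rw [← Perm.mul_apply, hwβ.eq, Perm.mul_apply, ← h2]; simp)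
  exact ⟨σ, by rw [mul_inv_eq_iff_eq_mul, pc_mul, mul_one, one_mul] at hσ; exact hσ⟩

universe u v
variable {ι : Type u} {α : Type v} [Fintype ι] [DecidableEq ι] [Fintype α] [DecidableEq α]

theorem comm_line (h5 : 5 ≤ Fintype.card α) {G : Perm (ι → α)} {j : ι} {a : α}
    (h : ∀ β : Perm α, IsThreeCycle β → β a = a → Commute G (co j β)) {u : ι → α}
    (hu : u j ≠ a) : G u j = u j ∧ ∀ s, s ≠ a → G (update u j s) = update (G u) j s := by
  have hfix : ∀ β : Perm α, IsThreeCycle β → β a = a → ∀ u, (β (G u j) = G u j ↔ β (u j) = u j) := by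
    intro β h1 h2 u
    rw [← co_fix (f := G u), ← co_fix (f := u), ← Perm.mul_apply, ← (h β h1 h2).eq, Perm.mul_apply,
      G.injective.eq_iff]
  have h1 : G u j = u j := by
    by_contra hne
    obtain ⟨p, p1, p2, p3, -⟩ := ex4 h5 a (u j) (G u j) a
    obtain ⟨q, q1, q2, q3, q4⟩ := ex4 h5 a (u j) (G u j) p
    have := (hfix _ (cy_three p2.symm q2.symm q4.symm) (cy_o hu.symm p1.symm q1.symm) u).1
      (cy_o hne p3.symm q3.symm)
    rw [cy_a p2.symm q4.symm] at this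
    exact p2 this
  refine ⟨h1, fun s hs => ?_⟩
  by_cases hsu : u j = s
  · rw [← hsu, update_eq_self, ← h1, update_eq_self]
  obtain ⟨q, q1, q2, q3, -⟩ := ex4 h5 a (u j) s a
  have := congrArg (fun k : Perm (ι → α) => k u)
    (h _ (cy_three hsu q2.symm q3.symm) (cy_o hu.symm hs.symm q1.symm)).eq
  simpa only [Perm.mul_apply, co_apply, h1, cy_a hsu q3.symm] using this

section
variable (h5 : 5 ≤ Fintype.card α) {M : Subgroup (Perm (ι → α))} (H : Hyp M)
  (hn : ¬ alternatingGroup (ι → α) ≤ M) [Nontrivial ι]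
  (ih : ∀ (i : ι) (V : Subgroup (Perm (Yi i α))), Hyp V →
    V ≤ W {j // j ≠ i} α ∨ alternatingGroup (Yi i α) ≤ V)
include h5 H hn ih

theorem lemR3' (j : ι) {b0 b1 b2 : α} (h01 : b0 ≠ b1) (h02 : b0 ≠ b2) (h12 : b1 ≠ b2)
    {g : Perm (ι → α)} (hg : g ∈ M) (h : ∀ u, u j ∈ ({b0, b1, b2} : Set α) → g u = u) :
    ∃ σ, g = co j σ := by
  obtain ⟨σ, hσ⟩ := (ab1 h5 H hn ih j).lemR3 h01 h02 h12 (g := (up j).symm g)
    ⟨by simpa [mem_Mi] using hg, fun a ha y => by
      rw [up_symm_apply, h _ (by simpa using ha)]; simp⟩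
  exact ⟨σ, by rw [← up_pc_one, ← hσ]; simp⟩

theorem not_alt (i : ι) {a0 a1 a2 : α} (h01 : a0 ≠ a1) (h02 : a0 ≠ a2) (h12 : a1 ≠ a2)
    (j l : {k // k ≠ i}) (hjl : j ≠ l) :
    ¬ alternatingGroup (Yi i α) ≤ PP h01 h02 h12 (Mi M i) := by
  intro hle
  have A := ab1 h5 H hn ih i
  let Y : α → Yi i α := fun t => update (fun _ => a0) l t
  have hY : Injective Y := fun t t' h => by simpa [Y] using congrFun h l
  have hYj : ∀ t, Y t j = a0 := fun t => by simp [Y, hjl]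
  have n01 := hY.ne h01
  have n02 := hY.ne h02
  have n12 := hY.ne h12
  have hfix : ∀ y : Yi i α, y j ≠ a0 → cy (Y a0) (Y a1) (Y a2) y = y := fun y hy =>
    cy_o (fun h => hy (h ▸ hYj _)) (fun h => hy (h ▸ hYj _)) (fun h => hy (h ▸ hYj _))
  obtain ⟨g, hg, hc, hw⟩ := hle (mem_alternatingGroup.2 (sign_cy n01 n02))
  have hcomm : ∀ β : Perm α, IsThreeCycle β → β a0 = a0 → Commute (up i g) (co j.1 β) := by
    intro β hβ hβ0
    obtain ⟨σ, hσ⟩ := conj_pc h01 h02 h12 A hg hc hw (β := co j β)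
      (by rw [mem_Mi, up_pc_co]; exact H.even h5 _ hβ.sign) (Perm.Disjoint.commute fun y => by
        by_cases hy : y j = a0
        · right; rw [co_fix, hy, hβ0]
        · left; exact hfix y hy)
    have h1 := congrArg (up i) hσ
    rw [map_mul, map_mul, map_inv, up_pc_co] at h1
    have h2 : up i (pc σ (co j β)) = co i σ * co j.1 β := by
      rw [← up_pc_one i σ, ← up_pc_co i j, ← map_mul, pc_mul, mul_one, one_mul]
    obtain ⟨j', c', -, e⟩ := cls h5 hβ (g := up i g) (i := j.1)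
      (by rw [h1]; exact up_pc_mem _ _ (co_mem _ _))
    rw [h1, h2] at e
    have hσ1 : σ = 1 := by
      by_cases hj' : j' = i
      · exfalso
        refine hβ.ne_one (Equiv.ext fun b => ?_)
        have := congrArg (fun k : Perm (ι → α) => k (fun _ => b) j.1) e
        simpa [co_ne j.2, hj'] using this
      · refine Equiv.ext fun b => ?_
        have := congrArg (fun k : Perm (ι → α) => k (fun _ => b) i) e
        simpa [co_ne j.2.symm, co_ne (Ne.symm hj')] using this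
    rw [h2, hσ1, map_one, one_mul, mul_inv_eq_iff_eq_mul] at h1
    exact h1
  obtain ⟨b0, p0, p1, -⟩ := ex4 h5 a0 a1 a1 a1
  obtain ⟨b1, q0, q1, q2, -⟩ := ex4 h5 a0 a1 b0 b0
  obtain ⟨b2, r0, r1, r2, r3⟩ := ex4 h5 a0 a1 b0 b1
  have hη := H.even h5 j.1 (sign_cy h01 h02)
  obtain ⟨σ, hσ⟩ := lemR3' h5 H hn ih j.1 q2.symm r2.symm r3.symm
    (g := (up i g)⁻¹ * (co j.1 (cy a0 a1 a2) * up i g * (co j.1 (cy a0 a1 a2))⁻¹))
    (M.mul_mem (M.inv_mem hg) (M.mul_mem (M.mul_mem hη hg) (M.inv_mem hη))) (fun u hu => by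
      have u0 : u j.1 ≠ a0 := by rcases hu with h | h | h <;> rw [h] <;> assumption
      have u1 : u j.1 ≠ a1 := by rcases hu with h | h | h <;> rw [h] <;> assumption
      obtain ⟨f1, f2⟩ := comm_line h5 hcomm u0
      rw [Perm.mul_apply, Perm.inv_eq_iff_eq, ← map_inv, Perm.mul_apply, Perm.mul_apply,
        co_apply _ _ u, f2 _ (by rw [Ne, Perm.inv_eq_iff_eq, cy_a h01 h12]; exact u1), co_apply]
      simp [← f1])
  rw [inv_mul_eq_iff_eq_mul, ← up_pc_co, ← up_pc_co, ← map_inv, ← map_mul, ← map_mul,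
    ← map_mul, (up i).injective.eq_iff] at hσ
  have key : ∀ y : Yi i α, y j = a0 → cy (Y a0) (Y a1) (Y a2) (co j σ y) = y := by
    intro y hy
    have := congrArg (fun k : Perm (α × Yi i α) => (k (a0, y)).2) hσ
    simp only [Perm.mul_apply, pc_inv, pc_apply, inv_one, Perm.one_apply, hw] at this
    rw [← this]
    change co j _ (g (a0, _)).2 = y
    rw [hw, hfix _ (by
      rw [← map_inv, co_self, hy, Ne, Perm.inv_eq_iff_eq, cy_a h01 h12]; exact h01)]
    simp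
  obtain ⟨t, t0, t1, t2, -⟩ := ex4 h5 a0 a1 a2 a2
  have k1 := key (Y t) (hYj t)
  rw [← cy_o (hY.ne t0) (hY.ne t1) (hY.ne t2), (cy _ _ _).injective.eq_iff,
    cy_o (hY.ne t0) (hY.ne t1) (hY.ne t2), co_fix, hYj] at k1
  have k2 := key (Y a0) (hYj a0)
  rw [co_fix.2 (by rw [hYj, k1]), cy_a n01 n12] at k2
  exact n01 k2.symm

theorem step : M ≤ W ι α := by
  obtain ⟨i⟩ : Nonempty ι := inferInstance
  obtain ⟨a0⟩ : Nonempty α := Fintype.card_pos_iff.1 (by omega)
  obtain ⟨a1, h01, -⟩ := ex4 h5 a0 a0 a0 a0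
  obtain ⟨a2, h02, h12, -⟩ := ex4 h5 a0 a1 a0 a0
  have A := ab1 h5 H hn ih i
  have hP : PP h01.symm h02.symm h12.symm (Mi M i) ≤ W {j // j ≠ i} α := by
    rcases ih i _ (Hyp.of_le (le_PP h01.symm h02.symm h12.symm A)) with h | h
    · exact h
    rcases subsingleton_or_nontrivial {j // j ≠ i} with h2 | h2
    · obtain ⟨j, hj⟩ := exists_ne i
      exact fun σ _ => W_eq_top h5 ⟨j, hj⟩ σ
    · obtain ⟨j, l, hjl⟩ := exists_pair_ne {j // j ≠ i}
      exact absurd h (not_alt h5 H hn ih i _ _ _ j l hjl)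
  refine le_W h5 H (i0 := i) (cy_three h01.symm h02.symm h12.symm) fun g hg hc => ?_
  obtain ⟨σ, w, hw, e⟩ := cen_pc h01.symm h02.symm h12.symm A hP (g := (up i).symm g)
    (by simpa [mem_Mi] using hg) (by
      have := hc.map (up i).symm
      rwa [← up_pc_one, MulEquiv.symm_apply_apply] at this)
  have := up_pc_mem i σ hw
  rwa [← e, MulEquiv.apply_symm_apply] at this

end

theorem main (h5 : 5 ≤ Fintype.card α) (n : ℕ) : ∀ (ι : Type u) [Fintype ι] [DecidableEq ι],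
    Fintype.card ι = n + 1 → ∀ M : Subgroup (Perm (ι → α)), Hyp M →
      M ≤ W ι α ∨ alternatingGroup (ι → α) ≤ M := by
  induction n with
  | zero =>
    intro ι _ _ h M _
    obtain ⟨i, hi⟩ := Fintype.card_eq_one_iff.1 h
    have : Subsingleton ι := ⟨fun a b => (hi a).trans (hi b).symm⟩
    exact Or.inl fun σ _ => W_eq_top h5 i σ
  | succ n ih =>
    intro ι _ _ h M H
    have : Nontrivial ι := Fintype.one_lt_card_iff_nontrivial.1 (by omega)
    by_cases hn : alternatingGroup (ι → α) ≤ M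
    · exact Or.inr hn
    exact Or.inl (step h5 H hn fun i => ih _ (by simp [Fintype.card_subtype_compl, h]))

end Cfsg.Agent.H6.PW
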