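import Cfsg.Agent.H6.PW10

set_option autoImplicit false
set_option linter.unusedSectionVars false

namespace Cfsg.Agent.H6.PW
open Equiv Equiv.Perm MulAction Function
attribute [-simp] Equiv.Perm.coe_inv

universe u v
variable {ι : Type u} {α : Type v} [Fintype ι] [DecidableEq ι] [Fintype α] [DecidableEq α]

theorem sign_co (i : ι) (σ : Perm α) :
    sign (co i σ) = sign σ ^ (Fintype.card α ^ (Fintype.card ι - 1)) := by
  rw [← up_pc_one]
  have : sign (up i (pc σ 1)) = sign (pc σ (1 : Perm (Yi i α))) := sign_permCongr _ _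
  rw [this, pc_one_eq_fib]
  have h2 := sign_prodCongrLeft (fun _ : Yi i α => σ)
  rw [Finset.prod_const, Finset.card_univ, Fintype.card_fun] at h2
  change sign (prodCongrLeft fun _ => σ) = _
  simpa [Fintype.card_subtype_compl] using h2

/-- base group -/
def bs : (ι → Perm α) →* Perm (ι → α) where
  toFun τ := wr 1 τ
  map_one' := rfl
  map_mul' _ _ := rfl

/-- top group -/
def tp : Perm ι →* Perm (ι → α) where
  toFun π := wr π 1
  map_one' := rfl
  map_mul' _ _ := rfl

theorem sign_tp_swap {i j : ι} (hij : i ≠ j) :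
    sign (tp (swap i j) : Perm (ι → α)) = (-1) ^ ((Fintype.card α ^ Fintype.card ι -
      Fintype.card α ^ (Fintype.card ι - 1)) / 2) := by
  rw [sign_of_pow_two_eq_one (by rw [← map_pow, pow_two, swap_mul_self, map_one]),
    Fintype.card_fun]
  congr 3
  have : Fintype.card α ^ (Fintype.card ι - 1) = Fintype.card (Yi i α) := by
    simp [Fintype.card_subtype_compl]
  rw [this]
  refine Fintype.card_congr (Equiv.ofBijective (fun u k => u.1 k.1) ⟨?_, ?_⟩)
  · rintro ⟨u, hu⟩ ⟨v, hv⟩ h
    refine Subtype.ext (funext fun k => ?_)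
    by_cases hk : k = i
    · have h1 : u (swap i j i) = u i := congrFun hu i
      have h2 : v (swap i j i) = v i := congrFun hv i
      rw [swap_apply_left] at h1 h2
      change u k = v k
      rw [hk, ← h1, ← h2]
      exact congrFun h ⟨j, hij.symm⟩
    · exact congrFun h ⟨k, hk⟩
  · intro y
    refine ⟨⟨(sp i).symm (y ⟨j, hij.symm⟩, y), funext fun k => ?_⟩, funext fun k => sp_symm_ne k.2 _⟩
    change (sp i).symm (y ⟨j, hij.symm⟩, y) (swap i j k) = _
    by_cases hk : k = i
    · rw [hk, swap_apply_left, sp_symm_self, sp_symm_ne hij.symm]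
    by_cases hk' : k = j
    · rw [hk', swap_apply_right, sp_symm_self, sp_symm_ne hij.symm]
    rw [swap_apply_of_ne_of_ne hk hk']

theorem W_le_alt (h1 : Even (Fintype.card α ^ (Fintype.card ι - 1)))
    (h2 : Even ((Fintype.card α ^ Fintype.card ι - Fintype.card α ^ (Fintype.card ι - 1)) / 2)) :
    W ι α ≤ alternatingGroup (ι → α) := by
  rintro ω ⟨π, τ, hf⟩
  have e : ω = bs τ * tp π := by ext f i; rw [hf]; rfl
  have e1 : (sign.comp bs : (ι → Perm α) →* ℤˣ) = 1 := MonoidHom.pi_ext fun i σ => by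
    change sign (wr 1 _) = 1
    rw [← co_eq_wr, sign_co]
    rcases Int.units_eq_one_or (sign σ) with h | h <;> rw [h]
    · exact one_pow _
    · exact h1.neg_one_pow
  have e2 : ∀ π : Perm ι, sign (tp π : Perm (ι → α)) = 1 := fun π => by
    induction π using swap_induction_on with
    | one => simp
    | swap_mul f x y h ih => rw [map_mul, map_mul, ih, sign_tp_swap h, h2.neg_one_pow, one_mul]
  rw [mem_alternatingGroup, e, map_mul, e2, mul_one]
  exact DFunLike.congr_fun e1 τ

theorem not_alt_le_W (h5 : 5 ≤ Fintype.card α) [Nontrivial ι] :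
    ¬ alternatingGroup (ι → α) ≤ W ι α := by
  intro h
  obtain ⟨i, j, hij⟩ := exists_pair_ne ι
  obtain ⟨a⟩ : Nonempty α := Fintype.card_pos_iff.1 (by omega)
  obtain ⟨b, hb, -⟩ := ex4 h5 a a a a
  obtain ⟨c, hc, hcb, -⟩ := ex4 h5 a b a a
  let u : ι → α := fun _ => a
  have d1 : u ≠ update (update u i c) j b := fun h => hc (by simpa [u, hij] using (congrFun h i).symm)
  have d2 : u ≠ update u j b := fun h => hb (by simpa [u] using (congrFun h j).symm)
  have d3 : update (update u i c) j b ≠ update u j b := fun h =>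
    hc (by simpa [u, hij] using congrFun h i)
  obtain ⟨r, hr⟩ := adj_W (h (mem_alternatingGroup.2 (sign_cy d1 d2))) (u := u)
    (v := update u i b) ⟨i, adj_update hb⟩
  rw [cy_a d1 d3, cy_o (fun h => hb (by simpa [u] using congrFun h i))
    (fun h => hb (by simpa [u, hij.symm] using (congrFun h j).symm))
    (fun h => hb (by simpa [u, hij] using congrFun h i))] at hr
  exact hij ((hr.eq (j := i) (by simpa [hij] using hcb)).trans
    (hr.eq (j := j) (by simpa [u, hij.symm] using hb)).symm)

theorem coatom_alt (h5 : 5 ≤ Fintype.card α) [Nontrivial ι]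
    (h : W ι α ≤ alternatingGroup (ι → α) ∨ Odd (Fintype.card α)) :
    IsCoatom ((W ι α).subgroupOf (alternatingGroup (ι → α))) := by
  refine ⟨fun h2 => not_alt_le_W h5 (Subgroup.subgroupOf_eq_top.1 h2), fun K hK => ?_⟩
  have hm : ∀ ω ∈ W ι α, sign ω = 1 → ω ∈ K.map (alternatingGroup _).subtype := fun ω hω hs =>
    ⟨⟨ω, mem_alternatingGroup.2 hs⟩, hK.le hω, rfl⟩
  have hι : 0 < Fintype.card ι := Fintype.card_pos
  rcases main h5 (Fintype.card ι - 1) ι (by omega) (K.map (alternatingGroup _).subtype)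
    (fun ω hω i a b hab => by
      rcases h with h | h
      · exact Or.inl (hm ω hω (mem_alternatingGroup.1 (h hω)))
      rcases Int.units_eq_one_or (sign ω) with h2 | h2
      · exact Or.inl (hm ω hω h2)
      · refine Or.inr (hm _ (Subgroup.mul_mem _ hω (co_mem _ _)) ?_)
        rw [map_mul, h2, sign_co, sign_swap hab, h.pow.neg_one_pow]; simp) with h2 | h2
  · exact absurd (fun g hg => h2 ⟨g, hg, rfl⟩) hK.not_ge
  · rw [eq_top_iff]
    intro g _
    obtain ⟨g', hg', e⟩ := h2 g.2
    rwa [← Subtype.ext e]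

theorem coatom_sym (h5 : 5 ≤ Fintype.card α) [Nontrivial ι] {σ : Perm (ι → α)}
    (hσ : sign σ = -1) (hW : σ ∈ W ι α) : IsCoatom (W ι α) := by
  refine ⟨fun h2 => not_alt_le_W h5 (h2 ▸ le_top), fun K hK => ?_⟩
  have hι : 0 < Fintype.card ι := Fintype.card_pos
  rcases main h5 (Fintype.card ι - 1) ι (by omega) K (Hyp.of_le hK.le) with h2 | h2
  · exact absurd h2 hK.not_ge
  · rw [eq_top_iff]
    intro g _
    rcases Int.units_eq_one_or (sign g) with h3 | h3
    · exact h2 (mem_alternatingGroup.2 h3)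
    · have := K.mul_mem (h2 (mem_alternatingGroup.2 (by simp [h3, hσ] : sign (g * σ) = 1)))
        (K.inv_mem (hK.le hW))
      simpa using this

end Cfsg.Agent.H6.PW
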