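import Cfsg.Agent.H6.PW1

set_option autoImplicit false

namespace Cfsg.Agent.H6.PW
open Equiv Equiv.Perm MulAction
open scoped commutatorElement
attribute [-simp] Equiv.Perm.coe_inv

variable {α Y : Type*} [Fintype α] [DecidableEq α] [Fintype Y] [DecidableEq Y]

/-- basic one-direction hypotheses -/
structure Ab0 (M : Subgroup (Perm (α × Y))) : Prop where
  card : 5 ≤ Fintype.card α
  hA : ∀ σ : Perm α, sign σ = 1 → pc σ 1 ∈ M
  prim : ∀ r : Y → Y → Prop, Equivalence r →
    (∀ w : Perm Y, pc 1 w ∈ M → ∀ y y', r y y' → r (w y) (w y')) →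
    ∀ y y', y ≠ y' → r y y' → ∀ z z', r z z'
  move : ∀ y y' : Y, y ≠ y' → ∃ w : Perm Y, pc 1 w ∈ M ∧ w y = y ∧ w y' ≠ y'
  odd : ∃ (ρ : Perm α) (w : Perm Y), sign ρ = -1 ∧ pc ρ w ∈ M
  primM : IsPreprimitive M (α × Y)
  notAlt : ¬ alternatingGroup (α × Y) ≤ M
  neY : Nonempty Y

namespace Ab0
variable {M : Subgroup (Perm (α × Y))} (H : Ab0 M)
include H

theorem no3 {g : Perm (α × Y)} (hg : g ∈ M) (h1 : g ≠ 1) : ¬ g.support.card ≤ 3 :=
  fun h => H.notAlt (H3.alternating_le_of_support_le_three M H.primM hg h1 h)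

theorem single_eq_one {y : Y} {σ : Perm α} (h : fib (Pi.mulSingle y σ) ∈ M) : σ = 1 := by
  by_contra h1
  let Q : Subgroup (Perm α) := M.comap (fib.comp (MonoidHom.mulSingle (fun _ : Y => Perm α) y))
  have hle := alt_le_of_norm H.card Q (fun a ha q hq => by
    have := M.mul_mem (M.mul_mem (H.hA a ha) hq) (M.inv_mem (H.hA a ha))
    change fib (Pi.mulSingle y _) ∈ M
    change pc a 1 * fib (Pi.mulSingle y q) * _ ∈ M at this
    rw [pc_conj_fib, inv_one] at this
    convert this using 2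
    funext z
    by_cases hz : z = y
    · subst hz; simp
    · simp [hz]) (σ := σ) h h1
  obtain ⟨a, ha, -⟩ := exists_not_commute H.card h1
  have h2 : fib (Pi.mulSingle y a) ∈ M := hle (mem_alternatingGroup.2 ha.sign)
  refine H.no3 h2 ?_ ?_
  · intro h3
    have := support_fib_single y a
    rw [h3, support_one] at this
    have h4 := congrArg Finset.card this
    simp [ha.card_support] at h4
  · rw [support_fib_single]; simp [ha.card_support]

theorem fib_proper (n : ℕ) : ∀ γ : Y → Perm α, fib γ ∈ M → (∃ y, γ y = 1) →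
    (Finset.univ.filter fun y => γ y ≠ 1).card ≤ n → γ = 1 := by
  induction n with
  | zero =>
    intro γ _ _ h
    funext y
    by_contra hy
    have : y ∈ Finset.univ.filter fun y => γ y ≠ 1 := by simpa using hy
    have := Finset.card_pos.2 ⟨y, this⟩
    omega
  | succ n ih =>
    intro γ hγ ⟨y0, hy0⟩ hc
    by_contra h1
    obtain ⟨y1, hy1⟩ : ∃ y, γ y ≠ 1 := by
      by_contra hc; push Not at hc; exact h1 (funext hc)
    -- block property
    have hblk : ∀ w : Perm Y, pc 1 w ∈ M → ∀ y, γ y ≠ 1 → γ (w y) ≠ 1 →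
        ∀ z, γ z ≠ 1 → γ (w z) ≠ 1 := by
      intro w hw y hy hwy z hz hwz
      obtain ⟨a, ha, hna⟩ := exists_conj_not_commute H.card hy hwy
      have m1 : fib (fun u => a * γ u * a⁻¹) ∈ M := by
        have := M.mul_mem (M.mul_mem (H.hA a ha) hγ) (M.inv_mem (H.hA a ha))
        rw [pc_conj_fib] at this
        simpa using this
      have m2 : fib (fun u => γ (w u)) ∈ M := by
        have hw' : pc 1 w⁻¹ ∈ M := by simpa [pc_inv] using M.inv_mem hw
        have := M.mul_mem (M.mul_mem hw' hγ) (M.inv_mem hw')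
        rw [pc_conj_fib] at this
        simpa using this
      have m3 : fib (fun u => ⁅a * γ u * a⁻¹, γ (w u)⁆) ∈ M := by
        have := M.mul_mem (M.mul_mem (M.mul_mem m1 m2) (M.inv_mem m1)) (M.inv_mem m2)
        rw [← map_inv, ← map_inv, ← map_mul, ← map_mul, ← map_mul] at this
        exact this
      have h2 := ih _ m3 ⟨y0, by simp [hy0]⟩ (by
        have hs : (Finset.univ.filter fun u => ⁅a * γ u * a⁻¹, γ (w u)⁆ ≠ 1) ⊂
            Finset.univ.filter fun y => γ y ≠ 1 := by
          rw [Finset.ssubset_iff_of_subset]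
          · exact ⟨z, by simpa using hz, by simp [hwz]⟩
          · intro u hu
            simp only [Finset.mem_filter, Finset.mem_univ, true_and] at hu ⊢
            intro h3; exact hu (by simp [h3])
        have := Finset.card_lt_card hs
        omega)
      exact hna (commutatorElement_eq_one_iff_commute.1 (congrFun h2 y))
    have hs : ∀ y, γ y ≠ 1 → y = y1 := by
      intro y hy
      by_contra hne
      have := H.prim (fun y y' => ∀ w : Perm Y, pc 1 w ∈ M → (γ (w y) ≠ 1 ↔ γ (w y') ≠ 1))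
        ⟨fun _ _ _ => Iff.rfl, fun h w hw => (h w hw).symm,
          fun h h' w hw => (h w hw).trans (h' w hw)⟩
        (fun w hw y y' h w' hw' => by
          have := h (w' * w) (by simpa [pc_mul] using M.mul_mem hw' hw)
          simpa using this) y y1 hne
        (fun w hw => ⟨fun h => hblk w hw y hy h y1 hy1, fun h => hblk w hw y1 hy1 h y hy⟩)
        y1 y0 1 (by simp)
      exact (this.1 (by simpa using hy1)) (by simpa using hy0)
    have : γ = Pi.mulSingle y1 (γ y1) := by
      funext y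
      by_cases hy : y = y1
      · subst hy; simp
      · rw [Pi.mulSingle_eq_of_ne hy]
        by_contra h2; exact hy (hs y h2)
    rw [this] at hγ
    exact hy1 (H.single_eq_one hγ)

/-- (K): an element preserving every line is a coordinate permutation -/
theorem lemK {g : Perm (α × Y)} (hg : g ∈ M) (h : ∀ a y, (g (a, y)).2 = y) :
    ∃ σ, g = pc σ 1 := by
  obtain ⟨γ, rfl⟩ := exists_fib h
  obtain ⟨y0⟩ := H.neY
  refine ⟨γ y0, ?_⟩
  rw [pc_one_eq_fib]
  congr 1
  funext y1
  by_contra hne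
  have h1 : (γ y0)⁻¹ * γ y1 ≠ 1 := fun h => hne (inv_mul_eq_one.1 h).symm
  obtain ⟨a, ha, hna⟩ := exists_not_commute H.card h1
  have m1 : fib (fun _ : Y => a) ∈ M := by rw [← pc_one_eq_fib]; exact H.hA a ha.sign
  have m2 : fib (fun _ : Y => γ y0 * a * (γ y0)⁻¹) ∈ M := by
    rw [← pc_one_eq_fib]; exact H.hA _ (by simp [ha.sign])
  have m3 := M.mul_mem (M.mul_mem (M.mul_mem hg m1) (M.inv_mem hg)) (M.inv_mem m2)
  rw [← map_inv, ← map_inv, ← map_mul, ← map_mul, ← map_mul] at m3
  have := congrFun (H.fib_proper _ _ m3 ⟨y0, by simp⟩ le_rfl) y1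
  simp only [Pi.mul_apply, Pi.inv_apply, Pi.one_apply] at this
  apply hna
  have h2 : γ y1 * a * (γ y1)⁻¹ = γ y0 * a * (γ y0)⁻¹ := mul_inv_eq_one.1 this
  change a * ((γ y0)⁻¹ * γ y1) = ((γ y0)⁻¹ * γ y1) * a
  calc a * ((γ y0)⁻¹ * γ y1) = (γ y0)⁻¹ * (γ y0 * a * (γ y0)⁻¹) * γ y1 := by group
    _ = (γ y0)⁻¹ * (γ y1 * a * (γ y1)⁻¹) * γ y1 := by rw [h2]
    _ = _ := by group

end Ab0

end Cfsg.Agent.H6.PW
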