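import Cfsg.Agent.H6.PW2

set_option autoImplicit false

namespace Cfsg.Agent.H6.PW
open Equiv Equiv.Perm MulAction
open scoped commutatorElement
attribute [-simp] Equiv.Perm.coe_inv

variable {α Y : Type*} [Fintype α] [DecidableEq α] [Fintype Y] [DecidableEq Y]

/-- full one-direction hypotheses -/
structure Ab (M : Subgroup (Perm (α × Y))) (G : Subgroup (Perm Y)) : Prop extends Ab0 M where
  hG : ∀ w ∈ G, ∀ a b : α, a ≠ b → pc 1 w ∈ M ∨ pc (swap a b) w ∈ M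
  ab : ∀ V : Subgroup (Perm Y), (∀ v ∈ V, ∀ v' ∈ V, Commute v v') →
    (∀ w ∈ G, ∀ v ∈ V, w * v * w⁻¹ ∈ V) → ∀ v ∈ V, v = 1
  single : ∀ (c : α) (v : Perm Y), hyp (Pi.mulSingle c v) ∈ M → v = 1
  div5 : Fintype.card α = 5 → 5 ∣ Fintype.card Y

/-- pointwise stabiliser of a union of hyperplanes -/
def L (M : Subgroup (Perm (α × Y))) (T : Set α) : Subgroup (Perm (α × Y)) where
  carrier := {g | g ∈ M ∧ ∀ a ∈ T, ∀ y, g (a, y) = (a, y)}
  one_mem' := ⟨M.one_mem, fun _ _ _ => rfl⟩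
  mul_mem' := fun {g h} hg hh => ⟨M.mul_mem hg.1 hh.1, fun a ha y => by
    rw [Perm.mul_apply, hh.2 a ha, hg.2 a ha]⟩
  inv_mem' := fun {g} hg => ⟨M.inv_mem hg.1, fun a ha y => by
    rw [Perm.inv_eq_iff_eq, hg.2 a ha]⟩

/-- orbit relation -/
def Rel {β : Type*} (Q : Subgroup (Perm β)) (u v : β) : Prop := ∃ g ∈ Q, g u = v

theorem Rel.refl {β : Type*} (Q : Subgroup (Perm β)) (u : β) : Rel Q u u := ⟨1, Q.one_mem, rfl⟩
theorem Rel.symm {β : Type*} {Q : Subgroup (Perm β)} {u v : β} (h : Rel Q u v) : Rel Q v u := by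
  obtain ⟨g, hg, rfl⟩ := h; exact ⟨g⁻¹, Q.inv_mem hg, by simp⟩
theorem Rel.trans {β : Type*} {Q : Subgroup (Perm β)} {u v w : β} (h : Rel Q u v)
    (h' : Rel Q v w) : Rel Q u w := by
  obtain ⟨g, hg, rfl⟩ := h; obtain ⟨g', hg', rfl⟩ := h'; exact ⟨g' * g, Q.mul_mem hg' hg, rfl⟩
theorem Rel.conj {β : Type*} {Q Q' : Subgroup (Perm β)} {u v : β} (h : Rel Q u v) (k : Perm β)
    (hk : ∀ g ∈ Q, k * g * k⁻¹ ∈ Q') : Rel Q' (k u) (k v) := by
  obtain ⟨g, hg, rfl⟩ := h; exact ⟨_, hk g hg, by simp⟩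

omit [Fintype α] [DecidableEq α] [Fintype Y] [DecidableEq Y] in
theorem L_conj {M : Subgroup (Perm (α × Y))} {T T' : Set α} {ρ : Perm α} {w : Perm Y}
    (h : pc ρ w ∈ M) (hT : ∀ a ∈ T', ρ⁻¹ a ∈ T) :
    ∀ g ∈ L M T, pc ρ w * g * (pc ρ w)⁻¹ ∈ L M T' := fun g hg =>
  ⟨M.mul_mem (M.mul_mem h hg.1) (M.inv_mem h), fun a ha y => by
    simp [pc_inv, hg.2 _ (hT a ha)]⟩

theorem Ab0.rel_univ {M : Subgroup (Perm (α × Y))} (H : Ab0 M) {Q : Subgroup (Perm (α × Y))}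
    (hQ : ∀ w, pc 1 w ∈ M → ∀ g ∈ Q, pc 1 w * g * (pc 1 w)⁻¹ ∈ Q) {c c' : α} {y y' : Y}
    (h : Rel Q (c, y) (c', y')) (hy : y ≠ y') (z z' : Y) : Rel Q (c', z) (c', z') := by
  obtain ⟨w, hw, h1, h2⟩ := H.move y y' hy
  have h3 := h.conj (pc 1 w) (hQ w hw)
  simp only [pc_apply, Perm.one_apply, h1] at h3
  exact H.prim (fun z z' => Rel Q (c', z) (c', z'))
    ⟨fun _ => Rel.refl _ _, Rel.symm, Rel.trans⟩
    (fun w hw z z' h => by simpa using h.conj (pc 1 w) (hQ w hw)) y' (w y') h2.symm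
    (h.symm.trans h3) z z'

namespace Ab
variable {M : Subgroup (Perm (α × Y))} {G : Subgroup (Perm Y)} (H : Ab M G)
include H

theorem hyp_small {a b c : α} (ab : a ≠ b) (ac : a ≠ c) (bc : b ≠ c) {θ : α → Perm Y}
    (hθ : hyp θ ∈ M) (hs : ∀ z, z ≠ a → z ≠ b → z ≠ c → θ z = 1) : θ a = 1 := by
  obtain ⟨d, d1, d2, d3, -⟩ := ex4 H.card a b c c
  obtain ⟨e, e1, e2, e3, e4⟩ := ex4 H.card a b c d
  let V : Subgroup (Perm Y) :=
    { carrier := {v | ∃ θ : α → Perm Y, hyp θ ∈ M ∧ (∀ z, z ≠ a → z ≠ b → z ≠ c → θ z = 1) ∧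
        θ a = v}
      one_mem' := ⟨1, by simp, fun _ _ _ _ => rfl, rfl⟩
      mul_mem' := by
        rintro _ _ ⟨θ, h1, h2, rfl⟩ ⟨θ', h1', h2', rfl⟩
        exact ⟨θ * θ', by rw [map_mul]; exact M.mul_mem h1 h1',
          fun z za zb zc => by simp [h2 z za zb zc, h2' z za zb zc], rfl⟩
      inv_mem' := by
        rintro _ ⟨θ, h1, h2, rfl⟩
        exact ⟨θ⁻¹, by rw [map_inv]; exact M.inv_mem h1,
          fun z za zb zc => by simp [h2 z za zb zc], rfl⟩ }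
  refine H.ab V ?_ ?_ _ ⟨θ, hθ, hs, rfl⟩
  · rintro _ ⟨θ, h1, h2, rfl⟩ _ ⟨θ', h1', h2', rfl⟩
    have hρ := H.hA _ (sign_dbl d2.symm e3.symm)
    have m1 := M.mul_mem (M.mul_mem hρ h1') (M.inv_mem hρ)
    rw [pc_conj_hyp] at m1
    have m3 := M.mul_mem (M.mul_mem (M.mul_mem h1 m1) (M.inv_mem h1)) (M.inv_mem m1)
    rw [← map_inv, ← map_inv, ← map_mul, ← map_mul, ← map_mul] at m3
    refine commutatorElement_eq_one_iff_commute.1 (H.single a _ ?_)
    convert m3 using 2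
    funext z
    by_cases za : z = a
    · subst za
      simp [swap_apply_of_ne_of_ne ab d1.symm, swap_apply_of_ne_of_ne ac e1.symm,
        commutatorElement_def]
    rw [Pi.mulSingle_eq_of_ne za]
    by_cases zb : z = b
    · subst zb
      simp [swap_apply_of_ne_of_ne d3 e4.symm, h2' d d1 d2 d3]
    by_cases zc : z = c
    · subst zc
      simp [swap_apply_of_ne_of_ne bc.symm d3.symm, h2' e e1 e2 e3]
    simp [h2 z za zb zc]
  · rintro w hw _ ⟨θ, h1, h2, rfl⟩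
    rcases H.hG w hw d e e4.symm with h | h
    · have m1 := M.mul_mem (M.mul_mem h h1) (M.inv_mem h)
      rw [pc_conj_hyp, inv_one] at m1
      exact ⟨_, m1, fun z za zb zc => by simp [h2 z za zb zc], rfl⟩
    · have m1 := M.mul_mem (M.mul_mem h h1) (M.inv_mem h)
      rw [pc_conj_hyp, swap_inv] at m1
      refine ⟨_, m1, fun z za zb zc => ?_, by simp [swap_apply_of_ne_of_ne d1.symm e1.symm]⟩
      have : θ (swap d e z) = 1 := by
        by_cases zd : z = d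
        · subst zd; simpa using h2 e e1 e2 e3
        by_cases ze : z = e
        · subst ze; simpa using h2 d d1 d2 d3
        rw [swap_apply_of_ne_of_ne zd ze]; exact h2 z za zb zc
      simp [this]

/-- (G): an element preserving every hyperplane acts in the same way on all of them -/
theorem lemG {θ : α → Perm Y} (hθ : hyp θ ∈ M) (a b : α) : θ a = θ b := by
  by_contra hne
  have ab : a ≠ b := fun h => hne (h ▸ rfl)
  obtain ⟨c, c1, c2, -, -⟩ := ex4 H.card a b a a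
  have hρ := H.hA _ (by simpa using sign_cy ab c1.symm : sign (cy a b c)⁻¹ = 1)
  have m1 := M.mul_mem (M.mul_mem hρ hθ) (M.inv_mem hρ)
  rw [pc_conj_hyp] at m1
  have m2 := M.mul_mem (M.inv_mem hθ) m1
  rw [← map_inv, ← map_mul] at m2
  have := H.hyp_small ab c1.symm c2.symm m2 (fun z za zb zc => by simp [cy_o za zb zc])
  simp [cy_a ab c2.symm] at this
  exact hne (inv_mul_eq_one.1 this)

theorem fin_hyp {g : Perm (α × Y)} (hg : g ∈ M) (hh : ∀ a y y', (g (a, y)).1 = (g (a, y')).1)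
    {a0 c : α} (h0 : ∀ y, g (a0, y) = (a0, y)) {y y' : Y} (h : g (c, y) = (c, y')) : y = y' := by
  have hsurj : Function.Surjective fun a => (g (a, y)).1 := fun b =>
    ⟨(g⁻¹ (b, y)).1, by
      change (g (_, y)).1 = b
      rw [hh _ y (g⁻¹ (b, y)).2]; simp⟩
  let ρ : Perm α := Equiv.ofBijective _ (Finite.surjective_iff_bijective.1 hsurj)
  have hρ : ∀ a z, (g (a, z)).1 = ρ a := fun a z => hh a z y
  obtain ⟨ρ0, w0, h1, h2⟩ : ∃ (ρ0 : Perm α) (w0 : Perm Y), sign (ρ0 * ρ) = 1 ∧ pc ρ0 w0 ∈ M := by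
    rcases Int.units_eq_one_or (sign ρ) with h3 | h3
    · exact ⟨1, 1, by simpa using h3, by simp⟩
    · obtain ⟨ρ0, w0, h4, h5⟩ := H.odd
      exact ⟨ρ0, w0, by simp [h3, h4], h5⟩
  have m1 := M.mul_mem (M.mul_mem (M.inv_mem (H.hA _ h1)) h2) hg
  obtain ⟨θ, hθ⟩ := exists_hyp (g := (pc (ρ0 * ρ) 1)⁻¹ * pc ρ0 w0 * g) (fun a z => by
    have : g (a, z) = (ρ a, (g (a, z)).2) := Prod.ext (hρ a z) rfl
    rw [Perm.mul_apply, this]; simp [pc_inv])
  have e1 := congrArg (fun f : Perm (α × Y) => (f (a0, y)).2) hθ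
  have e2 := congrArg (fun f : Perm (α × Y) => (f (c, y)).2) hθ
  simp only [Perm.mul_apply, h0, h, pc_inv, pc_apply, hyp_apply, inv_one, Perm.one_apply] at e1 e2
  rw [hθ] at m1
  rw [H.lemG m1 a0 c, ← e2] at e1
  exact w0.injective e1

end Ab

end Cfsg.Agent.H6.PW
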