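import Cfsg.Agent.H6.PW3

set_option autoImplicit false

namespace Cfsg.Agent.H6.PW
open Equiv Equiv.Perm MulAction
open scoped commutatorElement
attribute [-simp] Equiv.Perm.coe_inv

variable {α Y : Type*} [Fintype α] [DecidableEq α] [Fintype Y] [DecidableEq Y]

omit [Fintype α] [DecidableEq α] [Fintype Y] [DecidableEq Y] in
theorem L_notMem {M : Subgroup (Perm (α × Y))} {T : Set α} {g : Perm (α × Y)} (hg : g ∈ L M T)
    {u : α × Y} (hu : u.1 ∉ T) : (g u).1 ∉ T := fun h => by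
  have h1 := hg.2 _ h (g u).2
  have : g (g u) = g u := h1
  exact hu (by rw [← g.injective this]; exact h)

namespace Ab
variable {M : Subgroup (Perm (α × Y))} {G : Subgroup (Perm Y)} (H : Ab M G)
include H

theorem not_prim {a0 a1 : α} (h01 : a0 ≠ a1) :
    ¬ IsPreprimitive (fixingSubgroup M {u : α × Y | u.1 ∈ ({a0, a1} : Set α)})
      (SubMulAction.ofFixingSubgroup M {u : α × Y | u.1 ∈ ({a0, a1} : Set α)}) := by
  intro hp
  obtain ⟨y0⟩ := H.neY
  have hN : 0 < Fintype.card Y := Fintype.card_pos_iff.2 ⟨y0⟩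
  have hc := H.card
  have hs : {u : α × Y | u.1 ∈ ({a0, a1} : Set α)}.ncard = (2 * Fintype.card Y - 1) + 1 := by
    have : {u : α × Y | u.1 ∈ ({a0, a1} : Set α)} =
        ((({a0, a1} : Finset α) ×ˢ (Finset.univ : Finset Y) : Finset (α × Y)) : Set (α × Y)) := by
      ext u; simp
    rw [this, Set.ncard_coe_finset, Finset.card_product, Finset.card_pair h01, Finset.card_univ]
    omega
  have hlt : 2 * Fintype.card Y - 1 + 2 < Nat.card (α × Y) := by
    rw [Nat.card_eq_fintype_card, Fintype.card_prod]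
    have : 5 * Fintype.card Y ≤ Fintype.card α * Fintype.card Y := Nat.mul_le_mul_right _ hc
    omega
  have h1 := (H.primM.isMultiplyPreprimitive hs hlt hp).isMultiplyPretransitive
  obtain ⟨a2, b0, b1, -, -⟩ := ex4 H.card a0 a1 a0 a0
  have h3 := cy_three h01 b0.symm b1.symm
  have hsupp : (pc (cy a0 a1 a2) (1 : Perm Y)).support.card = 3 * Fintype.card Y := by
    rw [support_pc_one, Finset.card_product, h3.card_support, Finset.card_univ]
  obtain ⟨h, hh, h1', h3'⟩ := H3.exists_support_le_three M (by omega)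
    (by rw [Nat.card_eq_fintype_card] at hlt; omega) h1 _ (H.hA _ h3.sign)
    (by intro h; rw [h, support_one, Finset.card_empty] at hsupp; omega) (by omega)
  exact H.no3 hh h1' h3'

theorem hyp_of_trans {a0 a1 : α} (h01 : a0 ≠ a1)
    (htr : ∀ s, s ≠ a0 → s ≠ a1 → ∀ u v : α × Y, u.1 ∉ ({a0, a1, s} : Set α) →
      v.1 ∉ ({a0, a1, s} : Set α) → Rel (L M {a0, a1, s}) u v)
    {g : Perm (α × Y)} (hg : g ∈ L M {a0, a1}) (a : α) (y y' : Y) :
    (g (a, y)).1 = (g (a, y')).1 := by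
  have hle : ∀ s, L M {a0, a1, s} ≤ L M {a0, a1} := fun s g hg =>
    ⟨hg.1, fun a ha => hg.2 a (by
      simp only [Set.mem_insert_iff, Set.mem_singleton_iff] at ha ⊢; tauto)⟩
  by_cases hE : ∃ u v : α × Y, u ≠ v ∧ u.1 ∉ ({a0, a1} : Set α) ∧
      ∀ g ∈ L M {a0, a1}, (g u).1 = (g v).1
  · obtain ⟨⟨s, z⟩, ⟨s', z'⟩, huv, hs, hE⟩ := hE
    have : s = s' := by simpa using hE 1 (Subgroup.one_mem _)
    subst this
    have hz : z ≠ z' := fun h => huv (by rw [h])
    have hall := H.prim (fun z z' => ∀ g ∈ L M {a0, a1}, (g (s, z)).1 = (g (s, z')).1)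
      ⟨fun _ _ _ => rfl, fun h g hg => (h g hg).symm, fun h h' g hg => (h g hg).trans (h' g hg)⟩
      (fun w hw z z' h g hg => by
        have hw' : pc 1 w⁻¹ ∈ M := by simpa [pc_inv] using M.inv_mem hw
        have := h _ (L_conj (T' := {a0, a1}) hw' (by simp) g hg)
        simp only [pc_inv, inv_inv, inv_one, Perm.mul_apply, pc_apply, Perm.one_apply] at this
        exact this) z z' hz hE
    by_cases ha : a ∈ ({a0, a1} : Set α)
    · rw [hg.2 a ha, hg.2 a ha]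
    by_cases has : a = s
    · subst has; exact hall y y' g hg
    simp only [Set.mem_insert_iff, Set.mem_singleton_iff, not_or] at ha hs
    have hρ := H.hA _ (sign_dbl has h01)
    have := hall y y' _ (L_conj (T' := {a0, a1}) (T := {a0, a1}) (M.inv_mem hρ) (ρ := (swap a s * swap a0 a1)⁻¹) (w := 1) (by
      intro b hb
      simp only [Set.mem_insert_iff, Set.mem_singleton_iff] at hb ⊢
      rcases hb with rfl | rfl
      · simp [swap_apply_of_ne_of_ne (Ne.symm ha.2) (Ne.symm hs.2)]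
      · simp [swap_apply_of_ne_of_ne (Ne.symm ha.1) (Ne.symm hs.1)]) g hg)
    simp only [pc_inv, inv_inv, inv_one, Perm.mul_apply, pc_apply, Perm.one_apply,
      swap_apply_of_ne_of_ne hs.1 hs.2, swap_apply_right] at this
    exact (swap a s * swap a0 a1)⁻¹.injective this
  exfalso
  push Not at hE
  apply H.not_prim h01
  have hmem : ∀ {k : Perm (α × Y)} (hk : k ∈ L M {a0, a1}),
      (⟨k, hk.1⟩ : M) ∈ fixingSubgroup M {u : α × Y | u.1 ∈ ({a0, a1} : Set α)} := fun hk => by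
    rw [mem_fixingSubgroup_iff]
    rintro ⟨a, y⟩ ha
    exact hk.2 a ha y
  have hthird : ∀ u v : α × Y, ∃ s, s ≠ a0 ∧ s ≠ a1 ∧ s ≠ u.1 ∧ s ≠ v.1 :=
    fun u v => ex4 H.card _ _ _ _
  have : IsPretransitive (fixingSubgroup M {u : α × Y | u.1 ∈ ({a0, a1} : Set α)})
      (SubMulAction.ofFixingSubgroup M {u : α × Y | u.1 ∈ ({a0, a1} : Set α)}) := ⟨by
    rintro ⟨u, hu⟩ ⟨v, hv⟩
    have hu' : u.1 ∉ ({a0, a1} : Set α) := hu
    have hv' : v.1 ∉ ({a0, a1} : Set α) := hv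
    simp only [Set.mem_insert_iff, Set.mem_singleton_iff, not_or] at hu' hv'
    obtain ⟨s, s0, s1, su, sv⟩ := hthird u v
    obtain ⟨k, hk, hkuv⟩ := htr s s0 s1 u v (by simp [hu', su.symm]) (by simp [hv', sv.symm])
    exact ⟨⟨_, hmem (hle s hk)⟩, Subtype.ext hkuv⟩⟩
  refine H3.prim_of_block fun B hB a ha b hb hab x => ?_
  obtain ⟨k, hk, hne⟩ := hE a.1 b.1 (fun h => hab (Subtype.ext h)) a.2
  have key : ∀ p q r : SubMulAction.ofFixingSubgroup M {u : α × Y | u.1 ∈ ({a0, a1} : Set α)},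
      p ∈ B → q ∈ B → (k p.1).1 ≠ (k q.1).1 → (k r.1).1 ≠ (k p.1).1 → r ∈ B := by
    intro p q r hp hq h1 h2
    have hp' := L_notMem hk (u := p.1) p.2
    have hq' := L_notMem hk (u := q.1) q.2
    have hr' := L_notMem hk (u := r.1) r.2
    simp only [Set.mem_insert_iff, Set.mem_singleton_iff, not_or] at hp' hq' hr'
    obtain ⟨l, hl, hlq⟩ := htr (k p.1).1 hp'.1 hp'.2 (k q.1) (k r.1)
      (by simp [hq', h1.symm]) (by simp [hr', h2])
    have hlp : l (k p.1) = k p.1 := hl.2 (k p.1).1 (by simp) (k p.1).2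
    have hm : k⁻¹ * l * k ∈ L M {a0, a1} :=
      Subgroup.mul_mem _ (Subgroup.mul_mem _ (Subgroup.inv_mem _ hk) (hle _ hl)) hk
    have h3 : (⟨_, hmem hm⟩ : fixingSubgroup M {u : α × Y | u.1 ∈ ({a0, a1} : Set α)}) • p = p :=
      Subtype.ext (by change (k⁻¹ * l * k) p.1 = p.1; simp [hlp])
    have h4 : (⟨_, hmem hm⟩ : fixingSubgroup M {u : α × Y | u.1 ∈ ({a0, a1} : Set α)}) • q = r :=
      Subtype.ext (by change (k⁻¹ * l * k) q.1 = r.1; simp [hlq])
    rw [← h4]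
    exact hB _ p hp (by rw [h3]; exact hp) q hq
  by_cases hx : (k x.1).1 = (k a.1).1
  · exact key b a x hb ha hne.symm (by rw [hx]; exact hne)
  · exact key a b x ha hb hne hx

/-- (R3): an element fixing three parallel hyperplanes pointwise is a coordinate permutation -/
theorem lemR3 {a0 a1 a2 : α} (h01 : a0 ≠ a1) (h02 : a0 ≠ a2) (h12 : a1 ≠ a2)
    {g : Perm (α × Y)} (hg : g ∈ L M {a0, a1, a2}) : ∃ σ, g = pc σ 1 := by
  refine H.lemK hg.1 fun c y => ?_
  by_contra hne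
  have hQ : ∀ T : Set α, ∀ w, pc 1 w ∈ M → ∀ g ∈ L M T, pc 1 w * g * (pc 1 w)⁻¹ ∈ L M T :=
    fun T w hw => L_conj hw (by simp)
  have hc : c ∉ ({a0, a1, a2} : Set α) := fun h => hne (by rw [hg.2 c h])
  set c' := (g (c, y)).1 with hc'
  have hc'T : c' ∉ ({a0, a1, a2} : Set α) := L_notMem hg (u := (c, y)) hc
  have hall := H.rel_univ (hQ {a0, a1, a2}) (c := c) (y := y) (c' := c') (y' := (g (c, y)).2)
    ⟨g, hg, rfl⟩ (Ne.symm hne)
  obtain ⟨k, hk, hky⟩ := hall y (g (c, y)).2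
  refine hne (H.fin_hyp hk.1 ?_ (hk.2 a0 (by simp)) hky).symm
  by_cases hfix : ∀ k ∈ L M {a0, a1, a2}, ∀ u : α × Y, (k u).1 = u.1
  · intro a z z'; rw [hfix k hk, hfix k hk]
  push Not at hfix
  obtain ⟨l, hl, ⟨c1, y1⟩, hl1⟩ := hfix
  have hc1 : c1 ∉ ({a0, a1, a2} : Set α) := fun h => hl1 (by rw [hl.2 c1 h])
  set c2 := (l (c1, y1)).1 with hc2
  have hc2T : c2 ∉ ({a0, a1, a2} : Set α) := L_notMem hl (u := (c1, y1)) hc1
  have hsw : ∀ p q : α, p ∉ ({a0, a1, a2} : Set α) → q ∉ ({a0, a1, a2} : Set α) → p ≠ q →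
      ∀ g ∈ L M {a0, a1, a2}, pc (swap p q * swap a0 a1) 1 * g * (pc (swap p q * swap a0 a1) 1)⁻¹
        ∈ L M {a0, a1, a2} := by
    intro p q hp hq hpq
    refine L_conj (H.hA _ (sign_dbl hpq h01)) ?_
    simp only [Set.mem_insert_iff, Set.mem_singleton_iff, not_or] at hp hq ⊢
    rintro b (rfl | rfl | rfl)
    · simp [swap_apply_of_ne_of_ne (Ne.symm hp.1) (Ne.symm hq.1)]
    · simp [swap_apply_of_ne_of_ne (Ne.symm hp.2.1) (Ne.symm hq.2.1)]
    · simp [swap_apply_of_ne_of_ne (Ne.symm hp.2.2) (Ne.symm hq.2.2),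
        swap_apply_of_ne_of_ne h02.symm h12.symm]
  have hall2 : ∀ d, d ∉ ({a0, a1, a2} : Set α) → ∀ z z', Rel (L M {a0, a1, a2}) (d, z) (d, z') := by
    intro d hd z z'
    by_cases hdc : d = c'
    · rw [hdc]; exact hall z z'
    have := (hall z z').conj _ (hsw d c' hd hc'T hdc)
    simp only [Set.mem_insert_iff, Set.mem_singleton_iff, not_or] at hc'T
    simpa [swap_apply_of_ne_of_ne hc'T.1 hc'T.2.1] using this
  have hall3 : ∀ d, d ∉ ({a0, a1, a2} : Set α) → ∀ z, Rel (L M {a0, a1, a2}) (c1, y1) (d, z) := by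
    intro d hd z
    have h12' : Rel (L M {a0, a1, a2}) (c1, y1) (c2, (l (c1, y1)).2) := ⟨l, hl, rfl⟩
    by_cases h1 : d = c1
    · rw [h1]; exact hall2 c1 hc1 _ _
    by_cases h2 : d = c2
    · rw [h2]; exact h12'.trans (hall2 c2 hc2T _ _)
    have := h12'.conj _ (hsw d c2 hd hc2T h2)
    simp only [Set.mem_insert_iff, Set.mem_singleton_iff, not_or] at hc1 hc2T
    simp only [pc_apply, Perm.mul_apply, swap_apply_of_ne_of_ne hc1.1 hc1.2.1,
      swap_apply_of_ne_of_ne hc2T.1 hc2T.2.1, swap_apply_right,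
      swap_apply_of_ne_of_ne (Ne.symm h1) (Ne.symm hl1), Perm.one_apply] at this
    exact this.trans (hall2 d hd _ _)
  have htr0 : ∀ u v : α × Y, u.1 ∉ ({a0, a1, a2} : Set α) → v.1 ∉ ({a0, a1, a2} : Set α) →
      Rel (L M {a0, a1, a2}) u v := fun u v hu hv =>
    (hall3 u.1 hu u.2).symm.trans (hall3 v.1 hv v.2)
  refine H.hyp_of_trans h01 (fun s s0 s1 u v hu hv => ?_) ⟨hk.1, fun a ha => hk.2 a (by
      simp only [Set.mem_insert_iff, Set.mem_singleton_iff] at ha ⊢; tauto)⟩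
  by_cases hs : s = a2
  · subst hs; exact htr0 u v hu hv
  have hρ := H.hA _ (sign_dbl hs h01)
  have hT : ∀ a ∈ ({a0, a1, s} : Set α), (swap s a2 * swap a0 a1)⁻¹ a ∈ ({a0, a1, a2} : Set α) := by
    simp only [Set.mem_insert_iff, Set.mem_singleton_iff]
    rintro b (rfl | rfl | rfl)
    · simp [swap_apply_of_ne_of_ne s0.symm h02]
    · simp [swap_apply_of_ne_of_ne s1.symm h12]
    · simp [swap_apply_of_ne_of_ne h02.symm h12.symm]
  have hT' : ∀ a, a ∉ ({a0, a1, s} : Set α) →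
      (swap s a2 * swap a0 a1)⁻¹ a ∉ ({a0, a1, a2} : Set α) := by
    simp only [Set.mem_insert_iff, Set.mem_singleton_iff, not_or, Perm.inv_eq_iff_eq]
    rintro b ⟨b0, b1, b2⟩
    refine ⟨?_, ?_, ?_⟩
    · simpa [swap_apply_of_ne_of_ne s1.symm h12] using b1
    · simpa [swap_apply_of_ne_of_ne s0.symm h02] using b0
    · simpa [swap_apply_of_ne_of_ne h02.symm h12.symm] using b2
  have := (htr0 ((pc (swap s a2 * swap a0 a1) 1)⁻¹ u) ((pc (swap s a2 * swap a0 a1) 1)⁻¹ v)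
    (hT' _ hu) (hT' _ hv)).conj _ (L_conj hρ hT)
  simpa using this

end Ab

end Cfsg.Agent.H6.PW
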