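import Cfsg.Agent.H6.PW4

set_option autoImplicit false
set_option linter.unusedSectionVars false

namespace Cfsg.Agent.H6.PW
open Equiv Equiv.Perm MulAction
open scoped commutatorElement
attribute [-simp] Equiv.Perm.coe_inv

variable {α Y : Type*} [Fintype α] [DecidableEq α] [Fintype Y] [DecidableEq Y]

section
variable {a0 a1 a2 : α} (h01 : a0 ≠ a1) (h02 : a0 ≠ a2) (h12 : a1 ≠ a2)
include h01 h02 h12

omit [Fintype α] in
theorem cy_ne_iff (a : α) : cy a0 a1 a2 a ≠ a ↔ a ∈ ({a0, a1, a2} : Set α) := by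
  simp only [Set.mem_insert_iff, Set.mem_singleton_iff]
  constructor
  · intro h; by_contra hc; push Not at hc; exact h (cy_o hc.1 hc.2.1 hc.2.2)
  · rintro (rfl | rfl | rfl)
    · rw [cy_a h01 h12]; exact h01.symm
    · rw [cy_b]; exact h12.symm
    · rw [cy_c h02 h12]; exact h02

omit [Fintype α] [Fintype Y] [DecidableEq Y] in
theorem cen_mem {g : Perm (α × Y)} (hg : Commute g (pc (cy a0 a1 a2) 1)) (u : α × Y) :
    (g u).1 ∈ ({a0, a1, a2} : Set α) ↔ u.1 ∈ ({a0, a1, a2} : Set α) := by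
  rw [← cy_ne_iff h01 h02 h12, ← cy_ne_iff h01 h02 h12, not_iff_not]
  have h1 : ∀ v : α × Y, cy a0 a1 a2 v.1 = v.1 ↔ pc (cy a0 a1 a2) 1 v = v := fun ⟨a, y⟩ => by simp
  rw [h1, h1, ← Perm.mul_apply, ← hg.eq, Perm.mul_apply, g.injective.eq_iff]

omit [Fintype α] in
theorem mem_cy_pow {s : α} (hs : s ∈ ({a0, a1, a2} : Set α)) : ∃ n : ℕ, s = (cy a0 a1 a2 ^ n) a0 := by
  rcases hs with rfl | rfl | rfl
  · exact ⟨0, rfl⟩
  · exact ⟨1, by simp [cy_a h01 h12]⟩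
  · exact ⟨2, by simp [pow_two, cy_a h01 h12, cy_b]⟩

omit h01 h02 h12 [Fintype α] [DecidableEq α] [Fintype Y] [DecidableEq Y] in
theorem pc_pow (σ : Perm α) (n : ℕ) : pc σ (1 : Perm Y) ^ n = pc (σ ^ n) 1 := by
  induction n with
  | zero => simp
  | succ n ih => rw [pow_succ, ih, pc_mul, pow_succ, mul_one]

omit [Fintype α] [Fintype Y] [DecidableEq Y] in
theorem cen_form {g : Perm (α × Y)} (hg : Commute g (pc (cy a0 a1 a2) 1)) (y : Y) :
    ∃ i : ℕ, ∀ s ∈ ({a0, a1, a2} : Set α),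
      g (s, y) = ((cy a0 a1 a2 ^ i) s, (g (a0, y)).2) := by
  obtain ⟨i, hi⟩ := mem_cy_pow h01 h02 h12 ((cen_mem h01 h02 h12 hg (a0, y)).2 (by simp))
  refine ⟨i, fun s hs => ?_⟩
  obtain ⟨n, rfl⟩ := mem_cy_pow h01 h02 h12 hs
  have h1 := congrArg (fun f : Perm (α × Y) => f (a0, y)) (hg.pow_right n).eq
  simp only [pc_pow, Perm.mul_apply, pc_apply, Perm.one_apply] at h1
  rw [h1]
  have : g (a0, y) = ((cy a0 a1 a2 ^ i) a0, (g (a0, y)).2) := Prod.ext hi rfl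
  conv_lhs => rw [this]
  rw [pc_apply, ← Perm.mul_apply, ← Perm.mul_apply, ← pow_add, ← pow_add, add_comm]
  rfl

/-- kernel of the action of the centraliser on the orbits of the 3-cycle -/
def RR (M : Subgroup (Perm (α × Y))) : Subgroup (Perm (α × Y)) where
  carrier := {g | g ∈ M ∧ Commute g (pc (cy a0 a1 a2) 1) ∧
    ∀ s ∈ ({a0, a1, a2} : Set α), ∀ y, (g (s, y)).2 = y}
  one_mem' := ⟨M.one_mem, Commute.one_left _, fun _ _ _ => rfl⟩
  mul_mem' := fun {g h} hg hh => ⟨M.mul_mem hg.1 hh.1, hg.2.1.mul_left hh.2.1, fun s hs y => by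
    have h1 := hg.2.2 _ ((cen_mem h01 h02 h12 hh.2.1 (s, y)).2 hs) (h (s, y)).2
    rw [Perm.mul_apply]; exact h1.trans (hh.2.2 s hs y)⟩
  inv_mem' := fun {g} hg => ⟨M.inv_mem hg.1, hg.2.1.inv_left, fun s hs y => by
    have h1 := hg.2.2 _ ((cen_mem h01 h02 h12 hg.2.1.inv_left (s, y)).2 hs) (g⁻¹ (s, y)).2
    simpa using h1.symm⟩

omit [Fintype α] [Fintype Y] [DecidableEq Y] in
theorem RR_form {M : Subgroup (Perm (α × Y))} {g : Perm (α × Y)} (hg : g ∈ RR h01 h02 h12 M)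
    (y : Y) : ∃ i : ℕ, ∀ s ∈ ({a0, a1, a2} : Set α), g (s, y) = ((cy a0 a1 a2 ^ i) s, y) := by
  obtain ⟨i, hi⟩ := cen_form h01 h02 h12 hg.2.1 y
  exact ⟨i, fun s hs => by rw [hi s hs, hg.2.2 a0 (by simp)]⟩

omit [Fintype α] in
theorem cy_pow_mem (i : ℕ) {s : α} (hs : s ∈ ({a0, a1, a2} : Set α)) :
    (cy a0 a1 a2 ^ i) s ∈ ({a0, a1, a2} : Set α) := by
  rw [← cy_ne_iff h01 h02 h12] at hs ⊢
  rw [← Perm.mul_apply, ← pow_succ', pow_succ, Perm.mul_apply]
  exact fun h => hs ((cy a0 a1 a2 ^ i).injective h)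

omit [Fintype α] [Fintype Y] [DecidableEq Y] in
theorem RR_conj {M : Subgroup (Perm (α × Y))} {ρ : Perm α} {w : Perm Y} (h : pc ρ w ∈ M)
    (hρ : ∀ s ∈ ({a0, a1, a2} : Set α), ρ s = s) :
    ∀ g ∈ RR h01 h02 h12 M, pc ρ w * g * (pc ρ w)⁻¹ ∈ RR h01 h02 h12 M := fun g hg => by
  have hc : Commute (pc ρ w) (pc (cy a0 a1 a2) 1) := by
    change _ * _ = _ * _
    rw [pc_mul, pc_mul, mul_one, one_mul]
    congr 1
    ext a
    by_cases ha : a ∈ ({a0, a1, a2} : Set α)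
    · simp only [Perm.mul_apply, hρ a ha]
      exact hρ _ (by simpa using cy_pow_mem h01 h02 h12 1 ha)
    · have h1 : ρ a ∉ ({a0, a1, a2} : Set α) := fun h2 => by
        have := ρ.injective (hρ _ h2); exact ha (this ▸ h2)
      rw [← cy_ne_iff h01 h02 h12, not_not] at ha h1
      simp only [Perm.mul_apply, ha, h1]
  refine ⟨M.mul_mem (M.mul_mem h hg.1) (M.inv_mem h),
    (hc.mul_left hg.2.1).mul_left hc.inv_left, fun s hs y => ?_⟩
  have h2 : ρ⁻¹ s = s := by rw [Perm.inv_eq_iff_eq, hρ s hs]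
  have := hg.2.2 s hs (w⁻¹ y)
  simp only [pc_inv, Perm.mul_apply, pc_apply, h2]
  change w (g (s, w⁻¹ y)).2 = y
  rw [this]; simp

variable {M : Subgroup (Perm (α × Y))} {G : Subgroup (Perm Y)} (H : Ab M G)
include H

theorem RR_six (h6 : 6 ≤ Fintype.card α) {r : Perm (α × Y)} (hr : r ∈ RR h01 h02 h12 M)
    (a : α) (y : Y) : (r (a, y)).2 = y := by
  obtain ⟨d, d0, d1, d2, -⟩ := ex4 H.card a0 a1 a2 a2
  obtain ⟨e, e0, e1, e2, e3⟩ := ex4 H.card a0 a1 a2 d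
  have hd : d ∉ ({a0, a1, a2} : Set α) := by simp [d0, d1, d2]
  have hseg : ∀ r ∈ RR h01 h02 h12 M, ∀ c, c ∉ ({a0, a1, a2} : Set α) → ∀ y,
      (r (c, y)).2 = (r (d, y)).2 := by
    intro r hr c hc y
    by_cases hcd : c = d
    · rw [hcd]
    simp only [Set.mem_insert_iff, Set.mem_singleton_iff, not_or] at hc
    obtain ⟨f, f0, f1, f2, f3, f4⟩ := ex5 h6 a0 a1 a2 c d
    have hβ := H.hA _ (sign_cy hcd f3.symm)
    obtain ⟨σ, hσ⟩ := H.lemR3 h01 h02 h12 (g := r * pc (cy c d f) 1 * r⁻¹)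
      ⟨M.mul_mem (M.mul_mem hr.1 hβ) (M.inv_mem hr.1), fun s hs z => by
        have h1 := (cen_mem h01 h02 h12 hr.2.1.inv_left (s, z)).2 hs
        have h2 : pc (cy c d f) 1 (r⁻¹ (s, z)) = r⁻¹ (s, z) := by
          refine Prod.ext ?_ rfl
          change cy c d f (r⁻¹ (s, z)).1 = _
          rcases h1 with h1 | h1 | h1 <;> rw [h1]
          · exact cy_o (Ne.symm hc.1) d0.symm f0.symm
          · exact cy_o (Ne.symm hc.2.1) d1.symm f1.symm
          · exact cy_o (Ne.symm hc.2.2) d2.symm f2.symm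
        simp [h2]⟩
    have := congrArg (fun f : Perm (α × Y) => (f (r (c, y))).2) hσ
    simp only [Perm.mul_apply, inv_ap, pc_apply, cy_a hcd f4.symm, Perm.one_apply] at this
    exact this.symm
  have hout : ∀ r ∈ RR h01 h02 h12 M, ∀ u : α × Y, u.1 ∉ ({a0, a1, a2} : Set α) →
      (r u).1 ∉ ({a0, a1, a2} : Set α) := fun r hr u hu h =>
    hu ((cen_mem h01 h02 h12 hr.2.1 u).1 h)
  have hmul : ∀ r ∈ RR h01 h02 h12 M, ∀ r' ∈ RR h01 h02 h12 M, ∀ y,
      ((r * r') (d, y)).2 = (r (d, (r' (d, y)).2)).2 := fun r hr r' hr' y =>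
    hseg r hr _ (hout r' hr' (d, y) hd) _
  let V : Subgroup (Perm Y) :=
    { carrier := {v | ∃ r ∈ RR h01 h02 h12 M, ∀ y, (r (d, y)).2 = v y}
      one_mem' := ⟨1, Subgroup.one_mem _, fun _ => rfl⟩
      mul_mem' := by
        rintro v v' ⟨r, hr, h⟩ ⟨r', hr', h'⟩
        exact ⟨r * r', Subgroup.mul_mem _ hr hr', fun y => by rw [hmul r hr r' hr', h', h]; rfl⟩
      inv_mem' := by
        rintro v ⟨r, hr, h⟩
        refine ⟨r⁻¹, Subgroup.inv_mem _ hr, fun y => ?_⟩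
        have := hmul r hr r⁻¹ (Subgroup.inv_mem _ hr) y
        rw [h] at this
        rw [Perm.eq_inv_iff_eq, ← this]; simp }
  have hsurj : Function.Surjective fun y => (r (d, y)).2 := fun z =>
    ⟨(r⁻¹ (d, z)).2, by
      have := hmul r hr r⁻¹ (Subgroup.inv_mem _ hr) z
      change (r (d, _)).2 = z
      rw [← this]; simp⟩
  have hv := H.ab V ?_ ?_ (Equiv.ofBijective _ (Finite.surjective_iff_bijective.1 hsurj))
    ⟨r, hr, fun _ => rfl⟩
  · by_cases ha : a ∈ ({a0, a1, a2} : Set α)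
    · exact hr.2.2 a ha y
    · rw [hseg r hr a ha]; exact congrArg (fun f : Perm Y => f y) hv
  · rintro v ⟨r, hr, h⟩ v' ⟨r', hr', h'⟩
    obtain ⟨σ, hσ⟩ := H.lemR3 h01 h02 h12 (g := (r * r') * (r' * r)⁻¹)
      ⟨M.mul_mem (M.mul_mem hr.1 hr'.1) (M.inv_mem (M.mul_mem hr'.1 hr.1)), fun s hs z => by
        obtain ⟨i, hi⟩ := RR_form h01 h02 h12 hr z
        obtain ⟨j, hj⟩ := RR_form h01 h02 h12 hr' z
        have h3 : ∀ s ∈ ({a0, a1, a2} : Set α), (r * r') (s, z) = (r' * r) (s, z) := by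
          intro s hs
          rw [Perm.mul_apply, Perm.mul_apply, hi s hs, hj s hs, hi _ (cy_pow_mem h01 h02 h12 j hs),
            hj _ (cy_pow_mem h01 h02 h12 i hs), ← Perm.mul_apply, ← Perm.mul_apply, ← pow_add,
            ← pow_add, add_comm]
        have hm := Subgroup.inv_mem _ (Subgroup.mul_mem _ hr' hr)
        have h4 : (r' * r)⁻¹ (s, z) = (((r' * r)⁻¹ (s, z)).1, z) := Prod.ext rfl (hm.2.2 s hs z)
        rw [Perm.mul_apply, h4, h3 _ ((cen_mem h01 h02 h12 hm.2.1 (s, z)).2 hs), ← h4]; simp⟩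
    rw [mul_inv_eq_iff_eq_mul] at hσ
    ext y
    have := congrArg (fun f : Perm (α × Y) => (f (d, y)).2) hσ
    rw [hmul r hr r' hr', h', h] at this
    rw [Perm.mul_apply, Perm.mul_apply, this]
    change ((r' * r) (d, y)).2 = _
    rw [hmul r' hr' r hr, h, h']
  · rintro w hw v ⟨r, hr, h⟩
    rcases H.hG w hw d e e3.symm with hm | hm
    · exact ⟨_, RR_conj h01 h02 h12 hm (fun _ _ => rfl) r hr, fun y => by
        simp only [pc_inv, Perm.mul_apply, pc_apply, inv_one, Perm.one_apply]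
        change w (r (d, w⁻¹ y)).2 = _
        rw [h]⟩
    · refine ⟨_, RR_conj h01 h02 h12 hm ?_ r hr, fun y => ?_⟩
      · rintro s (rfl | rfl | rfl)
        · exact swap_apply_of_ne_of_ne d0.symm e0.symm
        · exact swap_apply_of_ne_of_ne d1.symm e1.symm
        · exact swap_apply_of_ne_of_ne d2.symm e2.symm
      · simp only [pc_inv, Perm.mul_apply, pc_apply, swap_inv, swap_apply_left]
        change w (r (e, w⁻¹ y)).2 = _
        rw [hseg r hr e (by simp [e0, e1, e2]), h]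

theorem RR_five (h5 : Fintype.card α = 5) {r : Perm (α × Y)} (hr : r ∈ RR h01 h02 h12 M)
    (a : α) (y : Y) : (r (a, y)).2 = y := by
  classical
  by_contra hne
  have hQ : ∀ w, pc 1 w ∈ M → ∀ g ∈ RR h01 h02 h12 M,
      pc 1 w * g * (pc 1 w)⁻¹ ∈ RR h01 h02 h12 M :=
    fun w hw => RR_conj h01 h02 h12 hw (fun _ _ => rfl)
  have hall := H.rel_univ hQ (c := a) (y := y) (c' := (r (a, y)).1) (y' := (r (a, y)).2)
    ⟨r, hr, rfl⟩ (Ne.symm hne)
  set c := (r (a, y)).1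
  have hall2 : ∀ u : α × Y, Rel (RR h01 h02 h12 M) (c, y) u →
      ∀ z, Rel (RR h01 h02 h12 M) (c, y) (u.1, z) := by
    rintro ⟨c', y'⟩ hu z
    obtain ⟨y1, hy1⟩ : ∃ y1, y1 ≠ y' := by
      by_cases h : y = y'
      · exact ⟨_, h ▸ hne⟩
      · exact ⟨y, h⟩
    exact hu.trans (H.rel_univ hQ ((hall y1 y).trans hu) hy1 _ _)
  have horb : orbit (RR h01 h02 h12 M) (c, y) =
      (((Finset.univ.filter fun b => Rel (RR h01 h02 h12 M) (c, y) (b, y)) ×ˢ
        (Finset.univ : Finset Y) : Finset (α × Y)) : Set (α × Y)) := by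
    ext ⟨b, z⟩
    simp only [mem_orbit_iff, Finset.coe_product, Finset.coe_filter, Finset.mem_univ, true_and,
      Finset.coe_univ, Set.mem_prod, Set.mem_ofPred_eq, Set.mem_univ, and_true]
    constructor
    · rintro ⟨g, hg⟩; exact hall2 (b, z) ⟨g, g.2, hg⟩ y
    · intro h
      obtain ⟨g, hg, h2⟩ := hall2 (b, y) h z
      exact ⟨⟨g, hg⟩, h2⟩
  have hdvd : 5 ∣ Nat.card (RR h01 h02 h12 M) := by
    have h1 := (stabilizer (RR h01 h02 h12 M) (c, y)).index_dvd_card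
    rw [index_stabilizer, horb, Set.ncard_coe_finset, Finset.card_product, Finset.card_univ] at h1
    exact ((H.div5 h5).mul_left _).trans h1
  have : Fact (Nat.Prime 5) := ⟨by norm_num⟩
  obtain ⟨⟨g, hg⟩, hg5⟩ := exists_prime_orderOf_dvd_card' 5 hdvd
  have h3 := cy_three h01 h02 h12
  have hL : g ^ 3 ∈ L M {a0, a1, a2} := ⟨M.pow_mem hg.1 3, fun s hs z => by
    obtain ⟨i, hi⟩ := RR_form h01 h02 h12 hg z
    have e : g ^ 3 = g * (g * g) := by rw [pow_succ', pow_two]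
    have m1 := cy_pow_mem h01 h02 h12 i hs
    rw [e, Perm.mul_apply, Perm.mul_apply, hi s hs, hi _ m1, hi _ (cy_pow_mem h01 h02 h12 i m1),
      ← Perm.mul_apply, ← Perm.mul_apply, ← pow_add, ← pow_add]
    have : cy a0 a1 a2 ^ (i + i + i) = 1 := by
      rw [show i + i + i = 3 * i by ring, pow_mul, ← h3.orderOf, pow_orderOf_eq_one, one_pow]
    rw [this]; rfl⟩
  obtain ⟨σ, hσ⟩ := H.lemR3 h01 h02 h12 hL
  have hs : σ.support ⊆ Finset.univ \ {a0, a1, a2} := by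
    intro b hb
    rw [mem_support] at hb
    simp only [Finset.mem_sdiff, Finset.mem_univ, true_and]
    intro h
    have := hL.2 b (by simpa using h) y
    rw [hσ] at this
    exact hb (congrArg Prod.fst this)
  have hc := Finset.card_le_card hs
  rw [Finset.card_sdiff_of_subset (Finset.subset_univ _), Finset.card_univ, h5,
    Finset.card_eq_three.2 ⟨a0, a1, a2, h01, h02, h12, rfl⟩] at hc
  have hσ2 : σ ^ 2 = 1 := by
    rcases Nat.lt_or_ge σ.support.card 2 with h | h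
    · rw [card_support_le_one.1 (by omega : σ.support.card ≤ 1), one_pow]
    · obtain ⟨p, q, -, rfl⟩ := card_support_eq_two.1 (by omega : σ.support.card = 2)
      rw [pow_two, swap_mul_self]
  have h6 : (⟨g, hg⟩ : RR h01 h02 h12 M) ^ 6 = 1 := by
    apply Subtype.ext
    change g ^ (3 * 2) = 1
    rw [pow_mul, hσ, pc_pow, hσ2, pc_one]
  have := orderOf_dvd_of_pow_eq_one h6
  rw [hg5] at this
  omega

theorem lemR {r : Perm (α × Y)} (hr : r ∈ M) (hc : Commute r (pc (cy a0 a1 a2) 1))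
    (h : ∀ y, (r (a0, y)).2 = y) : ∃ σ, r = pc σ 1 := by
  have hR : r ∈ RR h01 h02 h12 M := ⟨hr, hc, fun s hs y => by
    obtain ⟨i, hi⟩ := cen_form h01 h02 h12 hc y
    rw [hi s hs]; exact h y⟩
  refine H.lemK hr fun a y => ?_
  rcases Nat.lt_or_ge (Fintype.card α) 6 with h6 | h6
  · exact RR_five h01 h02 h12 H (by have := H.card; omega) hR a y
  · exact RR_six h01 h02 h12 H h6 hR a y

omit H

/-- the action of the centraliser on the orbits of the 3-cycle -/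
def PP (M : Subgroup (Perm (α × Y))) : Subgroup (Perm Y) where
  carrier := {w | ∃ g ∈ M, Commute g (pc (cy a0 a1 a2) 1) ∧ ∀ y, (g (a0, y)).2 = w y}
  one_mem' := ⟨1, M.one_mem, Commute.one_left _, fun _ => rfl⟩
  mul_mem' := by
    rintro v v' ⟨g, hg, hc, h⟩ ⟨g', hg', hc', h'⟩
    refine ⟨g * g', M.mul_mem hg hg', hc.mul_left hc', fun y => ?_⟩
    obtain ⟨i, hi⟩ := cen_form h01 h02 h12 hc (v' y)
    have h1 := hi _ ((cen_mem h01 h02 h12 hc' (a0, y)).2 (by simp))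
    rw [← h'] at h1
    rw [Perm.mul_apply, Perm.mul_apply, ← h, ← h']
    have h2 := congrArg Prod.snd h1
    exact h2
  inv_mem' := by
    rintro v ⟨g, hg, hc, h⟩
    refine ⟨g⁻¹, M.inv_mem hg, hc.inv_left, fun y => ?_⟩
    obtain ⟨i, hi⟩ := cen_form h01 h02 h12 hc (g⁻¹ (a0, y)).2
    have h1 := congrArg Prod.snd (hi _ ((cen_mem h01 h02 h12 hc.inv_left (a0, y)).2 (by simp)))
    rw [Perm.eq_inv_iff_eq, ← h, ← h1]; simp

omit [Fintype α] [DecidableEq Y] in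
theorem exists_PP {g : Perm (α × Y)} (hc : Commute g (pc (cy a0 a1 a2) 1)) :
    ∃ w : Perm Y, ∀ y, (g (a0, y)).2 = w y := by
  have hsurj : Function.Surjective fun y => (g (a0, y)).2 := fun z =>
    ⟨(g⁻¹ (a0, z)).2, by
      obtain ⟨i, hi⟩ := cen_form h01 h02 h12 hc (g⁻¹ (a0, z)).2
      have h1 := congrArg Prod.snd (hi _ ((cen_mem h01 h02 h12 hc.inv_left (a0, z)).2 (by simp)))
      change (g (a0, _)).2 = z
      rw [← h1]; simp⟩
  exact ⟨Equiv.ofBijective _ (Finite.surjective_iff_bijective.1 hsurj), fun _ => rfl⟩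

include H

theorem exists_cen {w : Perm Y} (hw : w ∈ G) :
    ∃ ρ, pc ρ w ∈ M ∧ Commute (pc ρ w) (pc (cy a0 a1 a2) 1) ∧ ρ a0 = a0 := by
  obtain ⟨d, d0, d1, d2, -⟩ := ex4 H.card a0 a1 a2 a2
  obtain ⟨e, e0, e1, e2, e3⟩ := ex4 H.card a0 a1 a2 d
  rcases H.hG w hw d e e3.symm with hm | hm
  · refine ⟨1, hm, ?_, rfl⟩
    change _ * _ = _ * _
    simp [pc_mul]
  · refine ⟨_, hm, ?_, swap_apply_of_ne_of_ne d0.symm e0.symm⟩
    change _ * _ = _ * _
    rw [pc_mul, pc_mul, mul_one, one_mul]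
    congr 1
    refine (Perm.Disjoint.commute fun a => ?_).eq
    by_cases h1 : a = d
    · right; rw [h1]; exact cy_o d0 d1 d2
    by_cases h2 : a = e
    · right; rw [h2]; exact cy_o e0 e1 e2
    left; exact swap_apply_of_ne_of_ne h1 h2

theorem le_PP : G ≤ PP h01 h02 h12 M := fun w hw => by
  obtain ⟨ρ, h1, h2, -⟩ := exists_cen h01 h02 h12 H hw
  exact ⟨_, h1, h2, fun _ => rfl⟩

theorem cen_pc (hP : PP h01 h02 h12 M ≤ G) {g : Perm (α × Y)} (hg : g ∈ M)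
    (hc : Commute g (pc (cy a0 a1 a2) 1)) : ∃ σ, ∃ w ∈ G, g = pc σ w := by
  obtain ⟨w, hw⟩ := exists_PP h01 h02 h12 hc
  have hwG : w ∈ G := hP ⟨g, hg, hc, hw⟩
  obtain ⟨ρ, h1, h2, h3⟩ := exists_cen h01 h02 h12 H hwG
  obtain ⟨σ, hσ⟩ := lemR h01 h02 h12 H (r := (pc ρ w)⁻¹ * g) (M.mul_mem (M.inv_mem h1) hg)
    (h2.inv_left.mul_left hc) (fun y => by
      rw [Perm.mul_apply, pc_inv]
      change w⁻¹ (g (a0, y)).2 = y
      rw [hw]; simp)
  exact ⟨ρ * σ, w, hwG, by rw [inv_mul_eq_iff_eq_mul, pc_mul, mul_one] at hσ; exact hσ⟩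

end

end Cfsg.Agent.H6.PW
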