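import Cfsg.Agent.H6.PW5

set_option autoImplicit false
set_option linter.unusedSectionVars false

namespace Cfsg.Agent.H6.PW
open Equiv Equiv.Perm MulAction Function
open scoped commutatorElement
attribute [-simp] Equiv.Perm.coe_inv

theorem prim_of_rel {β : Type*} (Q : Subgroup (Perm β)) (htr : ∀ u v, ∃ g ∈ Q, g u = v)
    (h : ∀ r : β → β → Prop, Equivalence r → (∀ g ∈ Q, ∀ u v, r u v → r (g u) (g v)) →
      ∀ u v, u ≠ v → r u v → ∀ z z', r z z') : IsPreprimitive Q β := by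
  have : IsPretransitive Q β := ⟨fun u v => by
    obtain ⟨g, hg, h⟩ := htr u v; exact ⟨⟨g, hg⟩, h⟩⟩
  refine H3.prim_of_block fun B hB a ha b hb hab x => ?_
  obtain ⟨g, hg, h1, h2⟩ := h (fun u v => ∃ g ∈ Q, g u ∈ B ∧ g v ∈ B)
    ⟨fun u => by obtain ⟨g, hg, h⟩ := htr u a; exact ⟨g, hg, h ▸ ha, h ▸ ha⟩,
      fun ⟨g, hg, h1, h2⟩ => ⟨g, hg, h2, h1⟩,
      fun {u v w} ⟨g, hg, h1, h2⟩ ⟨g', hg', h1', h2'⟩ => ⟨g', hg', by
        have := hB ⟨g' * g⁻¹, Q.mul_mem hg' (Q.inv_mem hg)⟩ (g v) h2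
          (by change (g' * g⁻¹) (g v) ∈ B; simpa using h1') (g u) h1
        change (g' * g⁻¹) (g u) ∈ B at this
        simpa using this, h2'⟩⟩
    (fun k hk u v ⟨g, hg, h1, h2⟩ => ⟨g * k⁻¹, Q.mul_mem hg (Q.inv_mem hk), by simpa using h1,
      by simpa using h2⟩) a b hab ⟨1, Q.one_mem, ha, hb⟩ a x
  have := hB ⟨g⁻¹, Q.inv_mem hg⟩ (g a) h1 (by change g⁻¹ (g a) ∈ B; simpa using ha) (g x) h2
  change g⁻¹ (g x) ∈ B at this
  simpa using this

variable {ι α : Type*} [Fintype ι] [DecidableEq ι] [Fintype α] [DecidableEq α]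

theorem upd_ind {Q : (ι → α) → Prop} (h : ∀ u j b, Q u → Q (update u j b)) {u0 : ι → α}
    (h0 : Q u0) (u : ι → α) : Q u := by
  have : ∀ s : Finset ι, Q (fun j => if j ∈ s then u j else u0 j) := by
    intro s
    induction s using Finset.induction_on with
    | empty => simpa using h0
    | insert j s hj ih =>
      convert h _ j (u j) ih using 1
      funext k
      by_cases hk : k = j
      · subst hk; simp
      · simp [hk]
  simpa using this Finset.univ

/-- the wreath product in product action -/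
def W (ι α : Type*) : Subgroup (Perm (ι → α)) where
  carrier := {σ | ∃ (π : Perm ι) (τ : ι → Perm α), ∀ f i, σ f i = τ i (f (π.symm i))}
  one_mem' := ⟨1, 1, fun _ _ => rfl⟩
  mul_mem' := by
    rintro σ σ' ⟨π, τ, h⟩ ⟨π', τ', h'⟩
    exact ⟨π * π', fun i => τ i * τ' (π.symm i), fun f i => by
      rw [Perm.mul_apply, h, h']; rfl⟩
  inv_mem' := by
    rintro σ ⟨π, τ, h⟩
    refine ⟨π⁻¹, fun j => (τ (π j))⁻¹, fun f j => ?_⟩
    have := h (σ⁻¹ f) (π j)
    rw [ap_inv, symm_apply_apply] at this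
    rw [Perm.eq_inv_iff_eq, ← this]; rfl

/-- explicit elements of `W` -/
def wr (π : Perm ι) (τ : ι → Perm α) : Perm (ι → α) where
  toFun f i := τ i (f (π.symm i))
  invFun f j := (τ (π j))⁻¹ (f (π j))
  left_inv f := by funext j; simp
  right_inv f := by funext j; simp

theorem wr_apply (π : Perm ι) (τ : ι → Perm α) (f : ι → α) (i : ι) :
    wr π τ f i = τ i (f (π.symm i)) := rfl

theorem wr_mem (π : Perm ι) (τ : ι → Perm α) : wr π τ ∈ W ι α := ⟨π, τ, fun _ _ => rfl⟩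

/-- a permutation of one coordinate -/
def co (i : ι) : Perm α →* Perm (ι → α) where
  toFun σ :=
    { toFun f := update f i (σ (f i))
      invFun f := update f i (σ⁻¹ (f i))
      left_inv f := by simp
      right_inv f := by simp }
  map_one' := by ext f j; simp
  map_mul' _ _ := by ext f j; simp

theorem co_apply (i : ι) (σ : Perm α) (f : ι → α) : co i σ f = update f i (σ (f i)) := rfl

@[simp] theorem co_self (i : ι) (σ : Perm α) (f : ι → α) : co i σ f i = σ (f i) := by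
  simp [co_apply]

theorem co_ne {i j : ι} (h : j ≠ i) (σ : Perm α) (f : ι → α) : co i σ f j = f j := by
  simp [co_apply, h]

theorem co_fix {i : ι} {σ : Perm α} {f : ι → α} : co i σ f = f ↔ σ (f i) = f i := by
  rw [co_apply, update_eq_self_iff]

theorem co_eq_wr (i : ι) (σ : Perm α) : co i σ = wr 1 (Pi.mulSingle i σ) := by
  ext f j
  by_cases h : j = i
  · subst h; simp [wr_apply]; rfl
  · simp [co_ne h, wr_apply, h]; rfl

theorem co_mem (i : ι) (σ : Perm α) : co i σ ∈ W ι α := by rw [co_eq_wr]; exact wr_mem _ _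

theorem co_commute {i j : ι} (h : i ≠ j) (σ ρ : Perm α) : Commute (co i σ) (co j ρ) := by
  ext f k
  simp only [Perm.mul_apply]
  by_cases hi : k = i
  · subst hi; simp [co_ne h]
  by_cases hj : k = j
  · subst hj; simp [co_ne hi]
  simp [co_ne hi, co_ne hj]

theorem co_inj [Nonempty α] {i : ι} {σ : Perm α} (h : co i σ = 1) : σ = 1 := by
  ext a
  have := congrArg (fun g : Perm (ι → α) => g (fun _ => a) i) h
  simpa using this

theorem conj_co {ω : Perm (ι → α)} {π : Perm ι} {τ : ι → Perm α}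
    (h : ∀ f i, ω f i = τ i (f (π.symm i))) (i : ι) (σ : Perm α) :
    ω * co i σ * ω⁻¹ = co (π i) (τ (π i) * σ * (τ (π i))⁻¹) := by
  rw [mul_inv_eq_iff_eq_mul]
  ext f k
  simp only [Perm.mul_apply]
  by_cases hk : k = π i
  · subst hk; rw [co_self, h, h]; simp
  · have : π.symm k ≠ i := fun h2 => hk (by rw [← h2]; simp)
    rw [co_ne hk, h, h, co_ne this]

/-- `M` contains `W` up to parity -/
def Hyp (M : Subgroup (Perm (ι → α))) : Prop :=
  ∀ ω ∈ W ι α, ∀ (i : ι) (a b : α), a ≠ b → ω ∈ M ∨ ω * co i (swap a b) ∈ M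

theorem Hyp.of_le {M : Subgroup (Perm (ι → α))} (h : W ι α ≤ M) : Hyp M :=
  fun _ hω _ _ _ _ => Or.inl (h hω)

variable (h5 : 5 ≤ Fintype.card α)
include h5

theorem Hyp.even {M : Subgroup (Perm (ι → α))} (H : Hyp M) (i : ι) {σ : Perm α}
    (hσ : sign σ = 1) : co i σ ∈ M := by
  have : alternatingGroup α ≤ M.comap (co i) := by
    rw [← closure_three_cycles_eq_alternating, Subgroup.closure_le]
    intro c hc
    have hc : IsThreeCycle c := hc
    obtain ⟨a⟩ : Nonempty α := Fintype.card_pos_iff.1 (by omega)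
    obtain ⟨b, hb, -⟩ := ex4 h5 a a a a
    have h3 : c⁻¹ * c⁻¹ = c := by
      have : c ^ 3 = 1 := by rw [← hc.orderOf, pow_orderOf_eq_one]
      calc c⁻¹ * c⁻¹ = c⁻¹ * c⁻¹ * c ^ 3 := by rw [this, mul_one]
        _ = c := by group
    change co i c ∈ M
    rcases H _ (co_mem i c) i b a hb with h1 | h1
    · exact h1
    rcases H _ (co_mem i c⁻¹) i b a hb with h2 | h2
    · simpa using M.inv_mem h2
    have := M.mul_mem h2 (M.inv_mem h1)
    rw [← h3, map_mul]
    simpa [mul_assoc] using this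
  exact this (mem_alternatingGroup.2 hσ)

theorem Hyp.top {M : Subgroup (Perm (ι → α))} (H : Hyp M) (i j : ι) :
    ∃ ω ∈ M, ∃ (π : Perm ι) (τ : ι → Perm α), (∀ f k, ω f k = τ k (f (π.symm k))) ∧ π i = j := by
  obtain ⟨a⟩ : Nonempty α := Fintype.card_pos_iff.1 (by omega)
  obtain ⟨b, hb, -⟩ := ex4 h5 a a a a
  rcases H _ (wr_mem (swap i j) 1) i b a hb with h1 | h1
  · exact ⟨_, h1, swap i j, 1, fun _ _ => rfl, by simp⟩
  · refine ⟨_, h1, swap i j, fun k => Pi.mulSingle (M := fun _ => Perm α) i (swap b a)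
      (swap i j k), fun f k => ?_, by simp⟩
    rw [co_eq_wr]; rfl

theorem Hyp.upd {M : Subgroup (Perm (ι → α))} (H : Hyp M) (u : ι → α) (j : ι) (b : α) :
    ∃ g ∈ M, g u = update u j b := by
  by_cases h : u j = b
  · exact ⟨1, M.one_mem, by simp [← h]⟩
  obtain ⟨c, c1, c2, -⟩ := ex4 h5 (u j) b b b
  exact ⟨_, H.even h5 j (sign_cy h c1.symm), by rw [co_apply, cy_a h c2.symm]⟩

theorem Hyp.trans {M : Subgroup (Perm (ι → α))} (H : Hyp M) (u v : ι → α) :
    ∃ g ∈ M, g u = v :=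
  upd_ind (Q := fun v => Rel M u v) (fun w j b h => h.trans (H.upd h5 w j b)) (Rel.refl _ _) v

theorem Hyp.move {M : Subgroup (Perm (ι → α))} (H : Hyp M) {u v : ι → α} {i : ι}
    (h : u i ≠ v i) : ∃ g ∈ M, g u = u ∧ ∃ b, b ≠ v i ∧ g v = update v i b := by
  obtain ⟨b, b1, b2, -⟩ := ex4 h5 (u i) (v i) (v i) (v i)
  obtain ⟨c, c1, c2, c3, -⟩ := ex4 h5 (u i) (v i) b b
  exact ⟨_, H.even h5 i (sign_cy b2.symm c2.symm), co_fix.2 (cy_o h b1.symm c1.symm), b, b2,
    by rw [co_apply, cy_a b2.symm c3.symm]⟩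

theorem Hyp.prim {M : Subgroup (Perm (ι → α))} (H : Hyp M) (r : (ι → α) → (ι → α) → Prop)
    (hr : Equivalence r) (hinv : ∀ g ∈ M, ∀ u v, r u v → r (g u) (g v)) (u v : ι → α)
    (huv : u ≠ v) (h : r u v) (z z' : ι → α) : r z z' := by
  obtain ⟨i, hi⟩ := Function.ne_iff.1 huv
  obtain ⟨g, hg, h1, b, hb, h2⟩ := H.move h5 hi
  have h3 := hinv g hg u v h
  rw [h1, h2] at h3
  have h4 : r v (update v i b) := hr.trans (hr.symm h) h3
  have h6 : ∀ z : ι → α, ∀ a c, r (update z i a) (update z i c) := by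
    refine upd_ind (Q := fun z => ∀ a c, r (update z i a) (update z i c)) ?_ (u0 := v) ?_
    · intro w j b' hw a c
      by_cases hj : j = i
      · subst hj; simpa using hw a c
      obtain ⟨σ, hσ, h1⟩ : ∃ σ : Perm α, sign σ = 1 ∧ σ (w j) = b' := by
        obtain ⟨p, hp, -⟩ := ex4 h5 (w j) (w j) (w j) (w j)
        obtain ⟨q, hq, -⟩ := ex4 h5 b' b' b' b'
        obtain ⟨σ, h1, h2, -⟩ := exists_even_map h5 hp.symm hq.symm
        exact ⟨σ, h1, h2⟩
      have := hinv _ (H.even h5 j hσ) _ _ (hw a c)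
      simp only [co_apply, update_of_ne hj, h1] at this
      rwa [update_comm hj, update_comm hj]
    · intro a c
      by_cases hac : a = c
      · rw [hac]; exact hr.refl _
      obtain ⟨σ, h1, h2, h3⟩ := exists_even_map h5 hb.symm hac
      have := hinv _ (H.even h5 i h1) _ _ h4
      simpa [co_apply, h2, h3] using this
  refine upd_ind (Q := fun z' => r z z') (fun w j c hw => hr.trans hw ?_) (hr.refl z) z'
  obtain ⟨ω, hω, π, τ, hf, rfl⟩ := H.top h5 i j
  have e : ∀ a, ω (update (ω⁻¹ w) i a) = update w (π i) (τ (π i) a) := by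
    intro a
    funext k
    by_cases hk : k = π i
    · subst hk; simp [hf]
    · have : π.symm k ≠ i := fun h2 => hk (by rw [← h2]; simp)
      rw [hf, update_of_ne this, update_of_ne hk, ← hf]; simp
  have := hinv ω hω _ _ (h6 (ω⁻¹ w) ((τ (π i))⁻¹ (w (π i))) ((τ (π i))⁻¹ c))
  simpa [e] using this

theorem Hyp.isPreprimitive {M : Subgroup (Perm (ι → α))} (H : Hyp M) :
    IsPreprimitive M (ι → α) := prim_of_rel M (H.trans h5) (H.prim h5)

theorem exists_avoid (v : Perm (ι → α)) (j : ι) (s : α) : ∃ y : ι → α, y j ≠ s ∧ v y j ≠ s := by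
  by_contra hc
  push Not at hc
  obtain ⟨p, hp, -⟩ := ex4 h5 s s s s
  obtain ⟨q, hq, hqp, -⟩ := ex4 h5 s p s s
  let A : α → Finset (ι → α) := fun a => Finset.univ.filter fun y => y j = a
  have hA : ∀ a, (A a).card = (A s).card := fun a =>
    Finset.card_bij (fun y _ => swap a s ∘ y) (fun y hy => by simpa [A] using by simp_all [A])
      (fun y _ y' _ h => (swap a s).injective.comp_left h)
      (fun y hy => ⟨swap a s ∘ y, by simp_all [A], by funext k; simp⟩)
  have h1 : (A p ∪ A q).card ≤ (A s).card := Finset.card_le_card_of_injOn v (fun y hy => by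
    simp only [A, Finset.coe_union, Finset.coe_filter, Finset.mem_univ, true_and, Set.mem_union,
      Set.mem_ofPred_eq] at hy ⊢
    exact hc y (by rcases hy with h | h <;> simp [h, hp, hq])) v.injective.injOn
  rw [Finset.card_union_of_disjoint (by
    simp only [A, Finset.disjoint_filter]; intro y _ h1 h2; exact hqp (h2.symm.trans h1)),
    hA p, hA q] at h1
  have : 0 < (A s).card := Finset.card_pos.2 ⟨fun _ => s, by simp [A]⟩
  omega

theorem ab_W (V : Subgroup (Perm (ι → α))) (hc : ∀ v ∈ V, ∀ v' ∈ V, Commute v v')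
    (hn : ∀ w ∈ W ι α, ∀ v ∈ V, w * v * w⁻¹ ∈ V) : ∀ v ∈ V, v = 1 := by
  intro v hv
  by_contra h1
  obtain ⟨y0, hy0⟩ : ∃ y, v y ≠ y := by
    by_contra hc; push Not at hc; exact h1 (Equiv.ext hc)
  have htr := (Hyp.of_le le_rfl).prim h5 (Rel V) ⟨Rel.refl _, Rel.symm, Rel.trans⟩
    (fun g hg u u' h => h.conj g (hn g hg)) y0 (v y0) hy0.symm ⟨v, hv, rfl⟩
  have hsr : ∀ z ∈ V, ∀ y, z y = y → z = 1 := fun z hz y h => Equiv.ext fun y' => by
    obtain ⟨k, hk, rfl⟩ := htr y y'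
    rw [← Perm.mul_apply, (hc z hz k hk).eq, Perm.mul_apply, h]; rfl
  obtain ⟨j, hj⟩ := Function.ne_iff.1 hy0
  obtain ⟨y, h2, h3⟩ := exists_avoid h5 v j (v y0 j)
  obtain ⟨q, q1, q2, q3, q4⟩ := ex4 h5 (v y0 j) (y0 j) (y j) (v y j)
  have hb := hn _ (co_mem j (swap (v y0 j) q)) v hv
  have h4 := hsr _ (V.mul_mem (V.inv_mem hv) hb) y (by
    rw [← map_inv, swap_inv, Perm.mul_apply, Perm.mul_apply, Perm.mul_apply,
      co_fix.2 (swap_apply_of_ne_of_ne h2 q3.symm), co_fix.2 (swap_apply_of_ne_of_ne h3 q4.symm)]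
    simp)
  have h6 := congrArg (fun g : Perm (ι → α) => g y0 j) (inv_mul_eq_one.1 h4)
  simp only [← map_inv, swap_inv, Perm.mul_apply] at h6
  rw [co_fix.2 (swap_apply_of_ne_of_ne hj.symm q2.symm), co_self, swap_apply_left] at h6
  exact q1 h6.symm

theorem exists_co_mem (V : Subgroup (Perm (ι → α))) (hV : V ≤ W ι α)
    (hn : ∀ w ∈ W ι α, ∀ v ∈ V, w * v * w⁻¹ ∈ V) {v : Perm (ι → α)} (hv : v ∈ V) (h1 : v ≠ 1) :
    ∃ j σ, σ ≠ 1 ∧ co j σ ∈ V := by
  obtain ⟨π, τ, hf⟩ := hV hv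
  have hz : ∀ j σ, co (π j) (τ (π j) * σ * (τ (π j))⁻¹) * co j σ⁻¹ ∈ V := fun j σ => by
    have := V.mul_mem hv (hn _ (co_mem j σ) _ (V.inv_mem hv))
    rw [← conj_co hf, map_inv]
    simpa [mul_assoc] using this
  by_cases hπ : ∀ j, π j = j
  · obtain ⟨j, hj⟩ : ∃ j, τ j ≠ 1 := by
      by_contra hc; push Not at hc
      refine h1 (Equiv.ext fun f => funext fun i => ?_)
      rw [hf, hc, show π.symm i = i from by rw [symm_apply_eq, hπ]]; rfl
    obtain ⟨a, -, ha⟩ := exists_not_commute h5 hj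
    refine ⟨j, τ j * a * (τ j)⁻¹ * a⁻¹, fun h => ha (commutatorElement_eq_one_iff_commute.1 h).symm,
      ?_⟩
    have := hz j a
    rwa [hπ, ← map_mul] at this
  · push Not at hπ
    obtain ⟨j, hj⟩ := hπ
    obtain ⟨a⟩ : Nonempty α := Fintype.card_pos_iff.1 (by omega)
    obtain ⟨b, hb, -⟩ := ex4 h5 a a a a
    have hs : swap a b ≠ 1 := fun h => hb (swap_eq_one_iff.1 h).symm
    obtain ⟨ρ, -, hρ⟩ := exists_not_commute h5 hs
    refine ⟨j, ⁅swap a b, ρ⁆, fun h => hρ (commutatorElement_eq_one_iff_commute.1 h).symm, ?_⟩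
    have h2 := hz j (swap a b)
    have h3 := V.mul_mem (V.inv_mem h2) (hn _ (co_mem j ρ) _ h2)
    rw [← mul_assoc (co j ρ), (co_commute hj.symm _ _).eq] at h3
    rw [commutatorElement_def, map_mul, map_mul, map_mul, map_inv, map_inv]
    rw [map_inv] at h3
    simpa [mul_assoc] using h3

theorem W_eq_top [Subsingleton ι] (i : ι) (σ : Perm (ι → α)) : σ ∈ W ι α := by
  let : Unique ι := uniqueOfSubsingleton i
  refine ⟨1, fun _ => (Equiv.funUnique ι α).permCongr σ, fun f j => ?_⟩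
  simp only [permCongr_apply, funUnique_apply, funUnique_symm_apply]
  rw [Subsingleton.elim j default]
  have : f = uniqueElim (f ((Equiv.symm (1 : Perm ι)) default)) := by
    funext k
    rw [Subsingleton.elim k default, Subsingleton.elim ((Equiv.symm (1 : Perm ι)) default) default]
    simp
  rw [← this]

end Cfsg.Agent.H6.PW
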