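import Cfsg.Agent.H6.PW6

set_option autoImplicit false
set_option linter.unusedSectionVars false

namespace Cfsg.Agent.H6.PW
open Equiv Equiv.Perm MulAction Function
open scoped commutatorElement
attribute [-simp] Equiv.Perm.coe_inv

/-- number of fixed points -/
def fx {β : Type*} [Fintype β] [DecidableEq β] (g : Perm β) : ℕ :=
  (Finset.univ.filter fun u => g u = u).card

theorem fx_add {β : Type*} [Fintype β] [DecidableEq β] (g : Perm β) :
    fx g + g.support.card = Fintype.card β := by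
  rw [fx, ← Finset.card_univ, ← Finset.card_filter_add_card_filter_not (s := Finset.univ)
    (fun u => g u = u)]
  rfl

theorem fx_conj {β : Type*} [Fintype β] [DecidableEq β] (g h : Perm β) :
    fx (g * h * g⁻¹) = fx h := by
  have := fx_add (g * h * g⁻¹); have := fx_add h
  rw [card_support_conj] at *; omega

variable {ι α : Type*} [Fintype ι] [DecidableEq ι] [Fintype α] [DecidableEq α]

theorem fx_base {ω : Perm (ι → α)} {τ : ι → Perm α} (h : ∀ f i, ω f i = τ i (f i)) :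
    fx ω = ∏ j, fx (τ j) := by
  simp only [fx]
  rw [← Fintype.card_piFinset]
  congr 1
  ext u
  simp [funext_iff, h]

theorem fx_one : fx (1 : Perm α) = Fintype.card α := by simp [fx]

theorem fx_le (σ : Perm α) : fx σ ≤ Fintype.card α := by have := fx_add σ; omega

theorem fx_co (i : ι) (σ : Perm α) :
    fx (co i σ) = fx σ * Fintype.card α ^ (Fintype.card ι - 1) := by
  rw [fx_base (τ := Pi.mulSingle i σ) (fun f j => by rw [co_eq_wr]; rfl),
    ← Finset.mul_prod_erase _ _ (Finset.mem_univ i), Pi.mulSingle_eq_same,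
    Finset.prod_congr rfl (g := fun _ => Fintype.card α) (fun j hj => by
      rw [Pi.mulSingle_eq_of_ne (Finset.ne_of_mem_erase hj), fx_one]),
    Finset.prod_const, Finset.card_erase_of_mem (Finset.mem_univ i), Finset.card_univ]

theorem fx_top {ω : Perm (ι → α)} {π : Perm ι} {τ : ι → Perm α}
    (h : ∀ f i, ω f i = τ i (f (π.symm i))) {i : ι} (hi : π.symm i ≠ i) :
    fx ω ≤ Fintype.card α ^ (Fintype.card ι - 1) := by
  have : Fintype.card α ^ (Fintype.card ι - 1) =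
      (Finset.univ : Finset ({j // j ≠ i} → α)).card := by
    simp [Fintype.card_subtype_compl]
  rw [this]
  refine Finset.card_le_card_of_injOn (fun u j => u j.1) (fun _ _ => Finset.mem_univ _) ?_
  intro u hu v hv huv
  simp only [Finset.coe_filter, Finset.mem_univ, true_and, Set.mem_ofPred_eq] at hu hv
  funext k
  by_cases hk : k = i
  · subst hk
    rw [← hu, ← hv, h, h]
    exact congrArg _ (congrFun huv ⟨_, hi⟩)
  · exact congrFun huv ⟨k, hk⟩

theorem fx_cube {σ : Perm α} (h3 : σ ^ 3 = 1) (h1 : σ ≠ 1) : fx σ + 3 ≤ Fintype.card α := by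
  have := fx_add σ
  by_contra hc
  rcases Nat.lt_or_ge σ.support.card 2 with h | h
  · exact h1 (card_support_le_one.1 (by omega))
  · obtain ⟨p, q, -, rfl⟩ := card_support_eq_two.1 (by omega : σ.support.card = 2)
    rw [pow_succ, pow_two, swap_mul_self, one_mul] at h3
    exact h1 h3

variable (h5 : 5 ≤ Fintype.card α)
include h5

/-- conjugates of coordinate 3-cycles inside `W` are coordinate 3-cycles -/
theorem cls {g : Perm (ι → α)} {i : ι} {c : Perm α} (hc : IsThreeCycle c)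
    (hW : g * co i c * g⁻¹ ∈ W ι α) : ∃ j c', IsThreeCycle c' ∧ g * co i c * g⁻¹ = co j c' := by
  obtain ⟨π, τ, hf⟩ := hW
  have hfx := fx_conj g (co i c)
  have hc3 : fx c = Fintype.card α - 3 := by have := fx_add c; rw [hc.card_support] at this; omega
  rw [fx_co, hc3] at hfx
  have hpos : 0 < Fintype.card α ^ (Fintype.card ι - 1) := Nat.pow_pos (by omega)
  have hπ : ∀ j, π.symm j = j := by
    intro j
    by_contra hj
    have := fx_top hf hj
    rw [hfx] at this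
    have h2 : 2 * Fintype.card α ^ (Fintype.card ι - 1) ≤
      (Fintype.card α - 3) * Fintype.card α ^ (Fintype.card ι - 1) :=
      Nat.mul_le_mul_right _ (by omega)
    omega
  simp only [hπ] at hf
  set ω := g * co i c * g⁻¹ with hω
  have hω3 : ω ^ 3 = 1 := by
    rw [hω, conj_pow, ← map_pow, ← hc.orderOf, pow_orderOf_eq_one]; simp
  obtain ⟨a⟩ : Nonempty α := Fintype.card_pos_iff.1 (by omega)
  have hτ3 : ∀ j, τ j ^ 3 = 1 := fun j => Equiv.ext fun b => by
    have := congrArg (fun k : Perm (ι → α) => k (fun _ => b) j) hω3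
    simpa [pow_succ, hf] using this
  rw [fx_base hf] at hfx
  obtain ⟨j, hj⟩ : ∃ j, τ j ≠ 1 := by
    by_contra h; push Not at h
    simp only [h, fx_one, Finset.prod_const, Finset.card_univ] at hfx
    have hι : 0 < Fintype.card ι := Fintype.card_pos_iff.2 ⟨i⟩
    rw [show Fintype.card ι = (Fintype.card ι - 1) + 1 by omega, pow_succ'] at hfx
    have := Nat.eq_of_mul_eq_mul_right hpos hfx
    omega
  have hj3 := fx_cube (hτ3 j) hj
  have hoth : ∀ l, l ≠ j → τ l = 1 := by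
    intro l hl
    by_contra h1
    have hl3 := fx_cube (hτ3 l) h1
    have hlm : l ∈ Finset.univ.erase j := by simp [hl]
    rw [← Finset.mul_prod_erase _ _ (Finset.mem_univ j), ← Finset.mul_prod_erase _ _ hlm] at hfx
    have h2 : ∏ k ∈ (Finset.univ.erase j).erase l, fx (τ k) ≤
        Fintype.card α ^ (Fintype.card ι - 2) := by
      refine (Finset.prod_le_pow_card _ _ _ (fun k _ => fx_le (τ k))).trans (le_of_eq ?_)
      rw [Finset.card_erase_of_mem hlm, Finset.card_erase_of_mem (Finset.mem_univ j),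
        Finset.card_univ]; rfl
    have hι : 2 ≤ Fintype.card ι := Fintype.one_lt_card_iff.2 ⟨l, j, hl⟩
    rw [show Fintype.card ι - 1 = (Fintype.card ι - 2) + 1 by omega, pow_succ'] at hfx
    have hp : 0 < Fintype.card α ^ (Fintype.card ι - 2) := Nat.pow_pos (by omega)
    have h3 : fx (τ j) * (fx (τ l) * ∏ k ∈ (Finset.univ.erase j).erase l, fx (τ k)) ≤
        (Fintype.card α - 3) * ((Fintype.card α - 3) * Fintype.card α ^ (Fintype.card ι - 2)) :=
      Nat.mul_le_mul (by omega) (Nat.mul_le_mul (by omega) h2)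
    rw [hfx] at h3
    have h4 := Nat.le_of_mul_le_mul_right (Nat.le_of_mul_le_mul_left h3 (by omega)) hp
    omega
  have e : ω = co j (τ j) := by
    ext f k
    by_cases hk : k = j
    · subst hk; rw [hf, co_self]
    · rw [hf, co_ne hk, hoth k hk]; rfl
  refine ⟨j, τ j, ?_, e⟩
  rw [← fx_base hf, e, fx_co] at hfx
  have := Nat.eq_of_mul_eq_mul_right hpos hfx
  have h2 := fx_add (τ j)
  exact card_support_eq_three_iff.1 (by omega)

theorem Hyp.conj3 {M : Subgroup (Perm (ι → α))} (H : Hyp M) (i j : ι) {c c' : Perm α}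
    (hc : IsThreeCycle c) (hc' : IsThreeCycle c') :
    ∃ h ∈ M, h ∈ W ι α ∧ h * co i c * h⁻¹ = co j c' := by
  obtain ⟨ω, hω, π, τ, hf, rfl⟩ := H.top h5 i j
  have h1 : IsThreeCycle (τ (π i) * c * (τ (π i))⁻¹) := by
    rw [← card_support_eq_three_iff, card_support_conj, hc.card_support]
  obtain ⟨⟨ρ, hρ⟩, h2⟩ := isConj_iff.1 (alternatingGroup.isThreeCycle_isConj
    (by rwa [Nat.card_eq_fintype_card]) (σ := ⟨_, h1.mem_alternatingGroup⟩)
    (τ := ⟨_, hc'.mem_alternatingGroup⟩) h1 hc')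
  have h3 : ρ * (τ (π i) * c * (τ (π i))⁻¹) * ρ⁻¹ = c' := congrArg Subtype.val h2
  refine ⟨co (π i) ρ * ω, M.mul_mem (H.even h5 _ (mem_alternatingGroup.1 hρ)) hω,
    Subgroup.mul_mem _ (co_mem _ _) ⟨π, τ, hf⟩, ?_⟩
  rw [← h3, map_mul, map_mul, map_inv, ← conj_co hf]; group

omit h5 in
theorem sylow_conj {G : Type*} [Group G] [Finite G] {x y : G} (hx : x ^ 3 = 1) (hy : y ^ 3 = 1) :
    ∃ (P : Subgroup G) (h : G), IsPGroup 3 P ∧ x ∈ P ∧ h * y * h⁻¹ ∈ P := by
  have : Fact (Nat.Prime 3) := ⟨by norm_num⟩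
  have hp : ∀ {z : G}, z ^ 3 = 1 → IsPGroup 3 (Subgroup.zpowers z) := by
    rintro z hz ⟨_, n, rfl⟩
    refine ⟨1, Subtype.ext ?_⟩
    change (z ^ n) ^ (3 ^ 1) = 1
    rw [pow_one, ← zpow_natCast, ← zpow_mul, mul_comm, zpow_mul, zpow_natCast, hz, one_zpow]
  obtain ⟨P, hP⟩ := (hp hx).exists_le_sylow
  obtain ⟨Q, hQ⟩ := (hp hy).exists_le_sylow
  obtain ⟨h, rfl⟩ := exists_smul_eq G Q P
  refine ⟨_, h, (h • Q).isPGroup', hP (Subgroup.mem_zpowers x), ?_⟩
  rw [Sylow.coe_subgroup_smul]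
  exact Subgroup.smul_mem_pointwise_smul _ _ _ (hQ (Subgroup.mem_zpowers y))

section
variable {M : Subgroup (Perm (ι → α))} (H : Hyp M) {i0 : ι} {c0 : Perm α} (hc0 : IsThreeCycle c0)
  (hcen : ∀ g ∈ M, Commute g (co i0 c0) → g ∈ W ι α)
include H hc0 hcen

theorem TI {g : Perm (ι → α)} (hg : g ∈ M) {i : ι} {c : Perm α} (hc : IsThreeCycle c)
    (hW : g * co i c * g⁻¹ ∈ W ι α) : g ∈ W ι α := by
  obtain ⟨j, c', hc', e⟩ := cls h5 hc hW
  obtain ⟨h, hM, hW, e1⟩ := H.conj3 h5 i0 i hc0 hc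
  obtain ⟨h', hM', hW', e2⟩ := H.conj3 h5 i0 j hc0 hc'
  have := hcen (h'⁻¹ * g * h) (M.mul_mem (M.mul_mem (M.inv_mem hM') hg) hM) (by
    rw [← e1, ← e2] at e
    change _ * _ = _ * _
    calc h'⁻¹ * g * h * co i0 c0 = h'⁻¹ * (g * (h * co i0 c0 * h⁻¹) * g⁻¹) * g * h := by group
      _ = _ := by rw [e]; group)
  have h2 := Subgroup.mul_mem _ (Subgroup.mul_mem _ hW' this) (Subgroup.inv_mem _ hW)
  simpa [mul_assoc] using h2

theorem pgroup_le {P : Subgroup (Perm (ι → α))} (hP : IsPGroup 3 P) (hPM : P ≤ M) {i : ι}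
    {c : Perm α} (hc : IsThreeCycle c) (hx : co i c ∈ P) : P ≤ W ι α := by
  have : Fact (Nat.Prime 3) := ⟨by norm_num⟩
  have := hP.isNilpotent
  rw [← Subgroup.subgroupOf_eq_top]
  by_contra hne
  obtain ⟨g, hg, hg'⟩ := SetLike.exists_of_lt
    (Group.normalizerCondition_of_isNilpotent ((W ι α).subgroupOf P) (lt_top_iff_ne_top.2 hne))
  have := (Subgroup.mem_normalizer_iff.1 hg ⟨_, hx⟩).1 (co_mem i c)
  exact hg' (TI h5 H hc0 hcen (hPM g.2) hc this)

theorem pair {g : Perm (ι → α)} (hg : g ∈ M) (u v : ι → α) :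
    ∃ ω ∈ W ι α, ω u = g u ∧ ω v = g v := by
  have hfix : ∀ u v : ι → α, ∃ c, IsThreeCycle c ∧ co i0 c u = u ∧ co i0 c v = v := by
    intro u v
    obtain ⟨p, p1, p2, -⟩ := ex4 h5 (u i0) (v i0) (v i0) (v i0)
    obtain ⟨q, q1, q2, q3, -⟩ := ex4 h5 (u i0) (v i0) p p
    obtain ⟨r, r1, r2, r3, r4⟩ := ex4 h5 (u i0) (v i0) p q
    exact ⟨_, cy_three q3.symm r3.symm r4.symm, co_fix.2 (cy_o p1.symm q1.symm r1.symm),
      co_fix.2 (cy_o p2.symm q2.symm r2.symm)⟩
  obtain ⟨c, hc, c1, c2⟩ := hfix u v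
  obtain ⟨c', hc', c1', c2'⟩ := hfix (g u) (g v)
  have h3 : ∀ {c : Perm α}, IsThreeCycle c → co i0 c ^ 3 = 1 := fun hc => by
    rw [← map_pow, ← hc.orderOf, pow_orderOf_eq_one, map_one]
  let G := M ⊓ stabilizer (Perm (ι → α)) (g u) ⊓ stabilizer (Perm (ι → α)) (g v)
  have m1 : co i0 c' ∈ G := ⟨⟨H.even h5 _ hc'.sign, c1'⟩, c2'⟩
  have m2 : g * co i0 c * g⁻¹ ∈ G :=
    ⟨⟨M.mul_mem (M.mul_mem hg (H.even h5 _ hc.sign)) (M.inv_mem hg), by
      change (g * co i0 c * g⁻¹) (g u) = g u; simp [c1]⟩, by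
      change (g * co i0 c * g⁻¹) (g v) = g v; simp [c2]⟩
  obtain ⟨P, h, hP, hx, hy⟩ := sylow_conj (x := (⟨_, m1⟩ : G)) (y := ⟨_, m2⟩)
    (Subtype.ext (h3 hc')) (Subtype.ext (by
      change (g * co i0 c * g⁻¹) ^ 3 = 1; rw [conj_pow, h3 hc]; simp))
  have hle := pgroup_le h5 H hc0 hcen (hP.map G.subtype)
    (by rintro _ ⟨k, -, rfl⟩; exact k.2.1.1) hc' ⟨_, hx, rfl⟩
  have h4 : (h.1 * g) * co i0 c * (h.1 * g)⁻¹ ∈ W ι α := by
    have := hle ⟨_, hy, rfl⟩
    change h.1 * (g * co i0 c * g⁻¹) * h.1⁻¹ ∈ _ at this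
    simpa [mul_assoc] using this
  exact ⟨_, TI h5 H hc0 hcen (M.mul_mem h.2.1.1 hg) hc h4, h.2.1.2, h.2.2⟩

end

end Cfsg.Agent.H6.PW
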