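import Cfsg.Agent.H6.PW7

set_option autoImplicit false
set_option linter.unusedSectionVars false

namespace Cfsg.Agent.H6.PW
open Equiv Equiv.Perm MulAction Function
attribute [-simp] Equiv.Perm.coe_inv

variable {ι α : Type*} [Fintype ι] [DecidableEq ι] [Fintype α] [DecidableEq α]

/-- adjacency in direction `i` -/
def Adj (u v : ι → α) (i : ι) : Prop := u i ≠ v i ∧ ∀ j, j ≠ i → u j = v j

theorem Adj.symm {u v : ι → α} {i : ι} (h : Adj u v i) : Adj v u i :=
  ⟨h.1.symm, fun j hj => (h.2 j hj).symm⟩

theorem Adj.eq {u v : ι → α} {i j : ι} (h : Adj u v i) (hj : u j ≠ v j) : j = i := by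
  by_contra hc; exact hj (h.2 j hc)

theorem adj_update {u : ι → α} {i : ι} {a : α} (h : a ≠ u i) : Adj u (update u i a) i :=
  ⟨by simpa using h.symm, fun j hj => by simp [hj]⟩

theorem adj_W {ω : Perm (ι → α)} (hω : ω ∈ W ι α) {u v : ι → α} (h : ∃ i, Adj u v i) :
    ∃ i, Adj (ω u) (ω v) i := by
  obtain ⟨π, τ, hf⟩ := hω
  obtain ⟨i, h1, h2⟩ := h
  refine ⟨π i, by simpa [hf] using h1, fun j hj => ?_⟩
  rw [hf, hf, h2 _ (fun h => hj (by rw [← h]; simp))]

theorem mem_W_of_adj [Nontrivial α] {g : Perm (ι → α)}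
    (hg : ∀ u v, (∃ i, Adj u v i) ↔ ∃ i, Adj (g u) (g v) i) : g ∈ W ι α := by
  have htri : ∀ {x y z : ι → α} {p q : ι}, Adj x y p → Adj x z q → (∃ r, Adj y z r) → p = q := by
    rintro x y z p q h1 h2 ⟨r, h3⟩
    by_contra hpq
    have e1 := h3.eq (j := p) (by rw [← h2.2 p hpq]; exact h1.1.symm)
    have e2 := h3.eq (j := q) (by rw [← h1.2 q (Ne.symm hpq)]; exact h2.1)
    exact hpq (e1.trans e2.symm)
  have hdir : ∀ u i, ∃ p, ∀ a, a ≠ u i → Adj (g u) (g (update u i a)) p := by
    intro u i
    obtain ⟨a, ha⟩ := exists_ne (u i)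
    obtain ⟨p, hp⟩ := (hg _ _).1 ⟨i, adj_update ha⟩
    refine ⟨p, fun b hb => ?_⟩
    by_cases hab : b = a
    · rw [hab]; exact hp
    obtain ⟨q, hq⟩ := (hg _ _).1 ⟨i, adj_update hb⟩
    have := htri hp hq ((hg _ _).1 ⟨i, by
      simpa using adj_update (u := update u i a) (i := i) (a := b) (by simpa using hab)⟩)
    rwa [this]
  choose dir hdir using hdir
  have hinj : ∀ u, Injective (dir u) := by
    intro u i j hij
    by_contra hne
    obtain ⟨a, ha⟩ := exists_ne (u i)
    obtain ⟨b, hb⟩ := exists_ne (u j)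
    have h1 := hdir u i a ha
    have h2 := hdir u j b hb
    rw [← hij] at h2
    have hd1 : update u i a i ≠ update u j b i := by simpa [hne] using ha
    have hd2 : update u i a j ≠ update u j b j := by simpa [Ne.symm hne] using hb.symm
    have h3 : g (update u i a) ≠ g (update u j b) := fun h => hd1 (by rw [g.injective h])
    obtain ⟨r, hr⟩ := (hg _ _).2 ⟨dir u i, (show Adj (g (update u i a)) (g (update u j b)) _ from
      ⟨fun h => h3 (funext fun k => by
        by_cases hk : k = dir u i
        · rw [hk]; exact h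
        · rw [← h1.2 k hk, h2.2 k hk]), fun k hk => by rw [← h1.2 k hk, h2.2 k hk]⟩)⟩
    exact hne ((hr.eq hd1).trans (hr.eq hd2).symm)
  have hstep : ∀ u j b i, dir (update u j b) i = dir u i := by
    intro u j b i
    by_cases hb : b = u j
    · rw [hb, update_eq_self]
    by_cases hji : j = i
    · subst hji
      have h1 := hdir u j b hb
      have h2 := hdir (update u j b) j (u j) (by simpa using Ne.symm hb)
      rw [update_idem, update_eq_self] at h2
      exact h1.eq h2.1.symm
    obtain ⟨a, ha⟩ := exists_ne (u i)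
    have hp := hdir u i a ha
    have hq := hdir u j b hb
    have hr := hdir (update u j b) i a (by simpa [Ne.symm hji] using ha)
    have hs := hdir (update u i a) j b (by simpa [hji] using hb)
    rw [update_comm (Ne.symm hji)] at hs
    have hpq : dir u i ≠ dir u j := fun h => hji (hinj u h).symm
    by_contra hrp
    have e1 : dir u i = dir (update u i a) j := by
      refine hs.eq ?_
      rw [← hr.2 _ (Ne.symm hrp), ← hq.2 _ hpq]; exact hp.1.symm
    have e2 : dir u j = dir (update u j b) i := by
      refine hr.eq ?_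
      rw [← hs.2 _ (by rw [← e1]; exact hpq.symm), ← hp.2 _ hpq.symm]; exact hq.1.symm
    have e3 : g u = g (update (update u j b) i a) := by
      funext k
      by_cases hk : k = dir u j
      · rw [← hs.2 k (by rw [← e1, hk]; exact hpq.symm), hp.2 k (by rw [hk]; exact hpq.symm)]
      · rw [← hr.2 k (by rw [← e2]; exact hk), hq.2 k hk]
    have := congrFun (g.injective e3) i
    simp at this
    exact ha this.symm
  obtain ⟨a0⟩ : Nonempty α := inferInstance
  set u0 : ι → α := fun _ => a0
  have hconst : ∀ u i, dir u i = dir u0 i := fun u i =>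
    upd_ind (Q := fun u => dir u i = dir u0 i) (fun u j b h => by rw [hstep]; exact h) rfl u
  let π : Perm ι := Equiv.ofBijective _ (Finite.injective_iff_bijective.1 (hinj u0))
  have hπ : ∀ u i, dir u i = π i := hconst
  have hoff : ∀ u i j b, j ≠ i → g (update u j b) (π i) = g u (π i) := by
    intro u i j b hj
    by_cases hb : b = u j
    · rw [hb, update_eq_self]
    refine ((hdir u j b hb).2 _ ?_).symm
    rw [hπ]; exact fun h => hj (π.injective h).symm
  have ht : ∀ i, Injective fun a => g (update u0 i a) (π i) := by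
    intro i a b hab
    by_contra hne
    have := (hdir (update u0 i a) i b (by simpa using Ne.symm hne)).1
    rw [update_idem, hπ] at this
    exact this hab
  refine ⟨π, fun k => Equiv.ofBijective _ (Finite.injective_iff_bijective.1 (ht (π.symm k))),
    fun f k => ?_⟩
  obtain ⟨i, rfl⟩ := π.surjective k
  simp only [ofBijective_apply, symm_apply_apply]
  have := upd_ind (Q := fun w => g (update w i (f i)) (π i) = g (update u0 i (f i)) (π i))
    (fun w j b h => by
      by_cases hj : j = i
      · subst hj; simpa using h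
      · rw [update_comm hj, hoff _ _ _ _ hj]; exact h) rfl f
  simpa using this

theorem le_W (h5 : 5 ≤ Fintype.card α) {M : Subgroup (Perm (ι → α))} (H : Hyp M) {i0 : ι}
    {c0 : Perm α} (hc0 : IsThreeCycle c0) (hcen : ∀ g ∈ M, Commute g (co i0 c0) → g ∈ W ι α) :
    M ≤ W ι α := fun g hg => by
  have : Nontrivial α := Fintype.one_lt_card_iff_nontrivial.1 (by omega)
  refine mem_W_of_adj fun u v => ?_
  obtain ⟨ω, hω, h1, h2⟩ := pair h5 H hc0 hcen hg u v
  rw [← h1, ← h2]
  exact ⟨adj_W hω, fun h => by simpa using adj_W (Subgroup.inv_mem _ hω) h⟩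

end Cfsg.Agent.H6.PW
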