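import Cfsg.Agent.H6.PW8

set_option autoImplicit false
set_option linter.unusedSectionVars false

namespace Cfsg.Agent.H6.PW
open Equiv Equiv.Perm MulAction Function
attribute [-simp] Equiv.Perm.coe_inv

universe u v
variable {ι : Type u} {α : Type v} [Fintype ι] [DecidableEq ι] [Fintype α] [DecidableEq α]

/-- the remaining coordinates -/
abbrev Yi (i : ι) (α : Type v) := {j // j ≠ i} → α

/-- splitting off a coordinate -/
def sp (i : ι) : (ι → α) ≃ α × Yi i α := Equiv.funSplitAt i α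

@[simp] theorem sp_fst (i : ι) (f : ι → α) : (sp i f).1 = f i := rfl
@[simp] theorem sp_snd (i : ι) (f : ι → α) (j : {j // j ≠ i}) : (sp i f).2 j = f j.1 := rfl
@[simp] theorem sp_symm_self (i : ι) (p : α × Yi i α) : (sp i).symm p i = p.1 :=
  congrArg Prod.fst ((sp i).apply_symm_apply p)
theorem sp_symm_ne {i j : ι} (h : j ≠ i) (p : α × Yi i α) : (sp i).symm p j = p.2 ⟨j, h⟩ :=
  congrFun (congrArg Prod.snd ((sp i).apply_symm_apply p)) ⟨j, h⟩

/-- transport of permutations -/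
def up (i : ι) : Perm (α × Yi i α) ≃* Perm (ι → α) := (sp i).symm.permCongrHom

theorem up_apply (i : ι) (g : Perm (α × Yi i α)) (f : ι → α) :
    up i g f = (sp i).symm (g (sp i f)) := rfl

theorem sp_up (i : ι) (g : Perm (α × Yi i α)) (f : ι → α) : sp i (up i g f) = g (sp i f) := by
  simp [up_apply]

theorem up_symm_apply (i : ι) (g : Perm (ι → α)) (p : α × Yi i α) :
    (up i).symm g p = sp i (g ((sp i).symm p)) := rfl

theorem up_pc_self (i : ι) (σ : Perm α) (w : Perm (Yi i α)) (f : ι → α) :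
    up i (pc σ w) f i = σ (f i) := by rw [up_apply, sp_symm_self]; rfl

theorem up_pc_ne {i j : ι} (h : j ≠ i) (σ : Perm α) (w : Perm (Yi i α)) (f : ι → α) :
    up i (pc σ w) f j = w (fun k => f k.1) ⟨j, h⟩ := by rw [up_apply, sp_symm_ne h]; rfl

theorem up_pc_one (i : ι) (σ : Perm α) : up i (pc σ 1) = co i σ := by
  ext f j
  by_cases h : j = i
  · subst h; rw [up_pc_self, co_self]
  · rw [up_pc_ne h, co_ne h]; rfl

theorem up_pc_co (i : ι) (j : {j // j ≠ i}) (σ : Perm α) : up i (pc 1 (co j σ)) = co j.1 σ := by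
  ext f k
  by_cases h : k = i
  · subst h; rw [up_pc_self, co_ne j.2.symm]; rfl
  · rw [up_pc_ne h]
    by_cases h2 : k = j.1
    · subst h2; simp
    · rw [co_ne h2, co_ne (fun h3 => h2 (congrArg Subtype.val h3))]

theorem up_pc_mem (i : ι) (σ : Perm α) {w : Perm (Yi i α)} (hw : w ∈ W {j // j ≠ i} α) :
    up i (pc σ w) ∈ W ι α := by
  obtain ⟨π, τ, hf⟩ := hw
  refine ⟨Perm.ofSubtype π, fun j => if h : j = i then σ else τ ⟨j, h⟩, fun f j => ?_⟩
  have e : (Perm.ofSubtype π).symm = Perm.ofSubtype π⁻¹ := by rw [map_inv]; rfl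
  by_cases h : j = i
  · subst h
    rw [up_pc_self, e, ofSubtype_apply_of_not_mem _ (by simp)]; simp
  · rw [up_pc_ne h, hf, e, ofSubtype_apply_of_mem (p := fun j => j ≠ i) _ h]; simp [h]; rfl

/-- `M` seen on `α × Y` -/
def Mi (M : Subgroup (Perm (ι → α))) (i : ι) : Subgroup (Perm (α × Yi i α)) :=
  M.comap (up i).toMonoidHom

theorem mem_Mi {M : Subgroup (Perm (ι → α))} {i : ι} {g : Perm (α × Yi i α)} :
    g ∈ Mi M i ↔ up i g ∈ M := Iff.rfl

variable (h5 : 5 ≤ Fintype.card α) {M : Subgroup (Perm (ι → α))} (H : Hyp M)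
  (hn : ¬ alternatingGroup (ι → α) ≤ M) [Nontrivial ι]
include h5 H hn

theorem ab0 (i : ι) : Ab0 (Mi M i) := by
  obtain ⟨a⟩ : Nonempty α := Fintype.card_pos_iff.1 (by omega)
  obtain ⟨b, hb, -⟩ := ex4 h5 a a a a
  let G0 : Subgroup (Perm (Yi i α)) :=
    { carrier := {w | pc 1 w ∈ Mi M i}
      one_mem' := by simp
      mul_mem' := fun h h' => by simpa [pc_mul] using (Mi M i).mul_mem h h'
      inv_mem' := fun h => by simpa [pc_inv] using (Mi M i).inv_mem h }
  have H0 : Hyp G0 := fun w hw j a b hab => by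
    rcases H _ (up_pc_mem i 1 hw) j.1 a b hab with h | h
    · exact Or.inl h
    · right
      change up i _ ∈ M
      rw [← up_pc_co, ← map_mul, pc_mul, mul_one] at h
      exact h
  refine ⟨h5, fun σ hσ => by rw [mem_Mi, up_pc_one]; exact H.even h5 i hσ,
    fun r hr hinv => H0.prim h5 r hr hinv, fun y y' h => ?_, ?_, ?_, fun h => hn fun g hg => ?_,
    ⟨fun _ => a⟩⟩
  · obtain ⟨j, hj⟩ := Function.ne_iff.1 h
    obtain ⟨g, hg, h1, c, hc, h2⟩ := H0.move h5 hj
    exact ⟨g, hg, h1, by rw [h2, Ne, update_eq_self_iff]; exact hc⟩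
  · obtain ⟨j, hj⟩ := exists_ne i
    rcases H _ (co_mem i (swap b a)) j b a hb with h | h
    · exact ⟨swap b a, 1, sign_swap hb, by rw [mem_Mi, up_pc_one]; exact h⟩
    · refine ⟨swap b a, co ⟨j, hj⟩ (swap b a), sign_swap hb, ?_⟩
      rw [← up_pc_one, ← up_pc_co i ⟨j, hj⟩, ← map_mul, pc_mul, mul_one, one_mul] at h
      exact h
  · refine prim_of_rel _ (fun u v => ?_) fun r hr hinv u v huv h z z' => ?_
    · obtain ⟨g, hg, h⟩ := H.trans h5 ((sp i).symm u) ((sp i).symm v)
      exact ⟨(up i).symm g, by simpa [mem_Mi] using hg, by simp [up_symm_apply, h]⟩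
    · have := H.prim h5 (fun u v => r (sp i u) (sp i v))
        ⟨fun _ => hr.refl _, hr.symm, hr.trans⟩ (fun g hg u v h => by
          have := hinv ((up i).symm g) (by simpa [mem_Mi] using hg) _ _ h
          simpa [up_symm_apply] using this) ((sp i).symm u) ((sp i).symm v) (by simpa using huv)
        (by simpa using h) ((sp i).symm z) ((sp i).symm z')
      simpa using this
  · have : (up i).symm g ∈ alternatingGroup (α × Yi i α) := by
      rw [mem_alternatingGroup] at hg ⊢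
      rw [← hg]; exact sign_permCongr (sp i) g
    simpa [mem_Mi] using h this

theorem lemK' (j : ι) {g : Perm (ι → α)} (hg : g ∈ M) (h : ∀ u k, k ≠ j → g u k = u k) :
    ∃ σ, g = co j σ := by
  obtain ⟨σ, hσ⟩ := (ab0 h5 H hn j).lemK (g := (up j).symm g) (by simpa [mem_Mi] using hg)
    (fun a y => funext fun k => by rw [up_symm_apply, sp_snd, h _ _ k.2, sp_symm_ne k.2])
  exact ⟨σ, by rw [← up_pc_one, ← hσ]; simp⟩

theorem ab1 (ih : ∀ (i : ι) (V : Subgroup (Perm (Yi i α))), Hyp V →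
    V ≤ W {j // j ≠ i} α ∨ alternatingGroup (Yi i α) ≤ V) (i : ι) :
    Ab (Mi M i) (W {j // j ≠ i} α) := by
  have A0 := ab0 h5 H hn i
  have hG : ∀ w ∈ W {j // j ≠ i} α, ∀ a b : α, a ≠ b →
      pc 1 w ∈ Mi M i ∨ pc (swap a b) w ∈ Mi M i := fun w hw a b hab => by
    rcases H _ (up_pc_mem i 1 hw) i a b hab with h | h
    · exact Or.inl h
    · right
      rw [← up_pc_one, ← map_mul, pc_mul, mul_one, one_mul] at h
      exact h
  obtain ⟨j0, hj0⟩ := exists_ne i
  have hcard : Fintype.card (Yi i α) =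
      Fintype.card α * Fintype.card α ^ (Fintype.card {j // j ≠ i} - 1) := by
    have : 0 < Fintype.card {j // j ≠ i} := Fintype.card_pos_iff.2 ⟨⟨j0, hj0⟩⟩
    rw [Fintype.card_fun, ← pow_succ']; congr 1; omega
  refine ⟨A0, hG, ab_W h5, fun c v hv => ?_, fun h => by rw [hcard, h]; exact dvd_mul_right _ _⟩
  by_contra h1
  let V : Subgroup (Perm (Yi i α)) :=
    (Mi M i).comap (hyp.comp (MonoidHom.mulSingle (fun _ : α => Perm (Yi i α)) c))
  have hV : ∀ v, v ∈ V ↔ hyp (Pi.mulSingle c v) ∈ Mi M i := fun _ => Iff.rfl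
  have hnorm : ∀ w ∈ W {j // j ≠ i} α, ∀ v ∈ V, w * v * w⁻¹ ∈ V := by
    intro w hw v hv
    obtain ⟨d, d1, -⟩ := ex4 h5 c c c c
    obtain ⟨e, e1, e2, -⟩ := ex4 h5 c d d d
    obtain ⟨ρ, h2, h3⟩ : ∃ ρ : Perm α, ρ c = c ∧ pc ρ w ∈ Mi M i := by
      rcases hG w hw d e e2.symm with h | h
      · exact ⟨1, rfl, h⟩
      · exact ⟨_, swap_apply_of_ne_of_ne d1.symm e1.symm, h⟩
    have := Subgroup.mul_mem _ (Subgroup.mul_mem _ h3 ((hV v).1 hv)) (Subgroup.inv_mem _ h3)
    rw [pc_conj_hyp] at this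
    rw [hV]
    convert this using 2
    funext a
    by_cases ha : a = c
    · have : ρ⁻¹ c = c := by rw [Perm.inv_eq_iff_eq, h2]
      subst ha; simp [this]
    · have : ρ⁻¹ a ≠ c := by rw [Ne, Perm.inv_eq_iff_eq, h2]; exact ha
      simp [ha, this]
  rcases ih i (V ⊔ W _ α) (Hyp.of_le le_sup_right) with h | h
  · obtain ⟨j, σ, hσ, hm⟩ := exists_co_mem h5 V (le_sup_left.trans h) hnorm hv h1
    obtain ⟨σ', h2⟩ := lemK' h5 H hn j.1 (mem_Mi.1 ((hV _).1 hm)) (fun u k hk => by
      rw [up_apply]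
      by_cases hki : k = i
      · subst hki; rw [sp_symm_self]; rfl
      · rw [sp_symm_ne hki]
        change Pi.mulSingle (M := fun _ => Perm (Yi i α)) c (co j σ) (u i) (sp i u).2 ⟨k, hki⟩ = _
        by_cases hc : u i = c
        · rw [hc, Pi.mulSingle_eq_same, co_ne (fun h => hk (congrArg Subtype.val h))]; rfl
        · rw [Pi.mulSingle_eq_of_ne hc]; rfl)
    obtain ⟨d, d1, -⟩ := ex4 h5 c c c c
    refine hσ (Equiv.ext fun a => ?_)
    have e1 := congrArg (fun g : Perm (ι → α) => g ((sp i).symm (c, fun _ => a)) j.1) h2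
    have e2 := congrArg (fun g : Perm (ι → α) => g ((sp i).symm (d, fun _ => a)) j.1) h2
    simp only [up_apply, apply_symm_apply, hyp_apply, sp_symm_ne j.2, co_self,
      Pi.mulSingle_eq_same, Pi.mulSingle_eq_of_ne d1, Perm.one_apply] at e1 e2
    exact e1.trans e2.symm
  · have hle : V ⊔ W _ α ≤ Subgroup.normalizer V := sup_le Subgroup.le_normalizer (fun w hw =>
      Subgroup.mem_normalizer_iff.2 fun v => ⟨hnorm w hw v, fun h => by
        simpa [mul_assoc] using hnorm _ (Subgroup.inv_mem _ hw) _ h⟩)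
    have h5Y : 5 ≤ Fintype.card (Yi i α) := by
      rw [hcard]; exact h5.trans (Nat.le_mul_of_pos_right _ (Nat.pow_pos (by omega)))
    have h2 := alt_le_of_norm h5Y V (fun a ha q hq =>
      (Subgroup.mem_normalizer_iff.1 (hle (h (mem_alternatingGroup.2 ha))) q).1 hq) hv h1
    obtain ⟨t, ht, -⟩ := exists_not_commute h5Y h1
    have h3 := (hV t).1 (h2 ht.mem_alternatingGroup)
    refine A0.no3 h3 ?_ ?_
    · intro h4
      have := support_hyp_single c t
      rw [h4, Perm.support_one] at this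
      have h4 := congrArg Finset.card this
      simp [ht.card_support] at h4
    · rw [support_hyp_single]; simp [ht.card_support]

end Cfsg.Agent.H6.PW
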